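import Cfsg.Agent.H21.LinClasses.Symp
import Cfsg.Agent.H19.Fitting
import Cfsg.Agent.H19.Misc
import Mathlib.LinearAlgebra.LinearIndependent.Basic
import Mathlib.LinearAlgebra.Dual.Lemmas
import Mathlib.LinearAlgebra.FiniteDimensional.Lemmas
import Mathlib.GroupTheory.Nilpotent
import Mathlib.GroupTheory.GroupAction.ConjAct

/-!
Finite solvable linear groups all of whose abelian normal subgroups consist of scalars:
`G/F(G)` acts on the symplectic module `F(G)/Z(G)`, and `|F(G)/Z(G)| ≤ r ^ 2`.
-/

namespace Cfsg.Agent.H21.LinClasses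

open scoped commutatorElement

attribute [local instance] H19.fitting_normal

variable {G : Type} [Group G] [Finite G] [Group.IsSolvable G]
variable {M : Type} [AddCommGroup M] [Module ℂ M] [FiniteDimensional ℂ M] [Nontrivial M]

/-- The case of no nonscalar abelian normal subgroup. -/
theorem kb_linear_central (ρ : G →* (M ≃ₗ[ℂ] M)) (hρ : Function.Injective ρ)
    (hA : ∀ A : Subgroup G, A.Normal → IsMulCommutative A → ∀ a ∈ A, ∃ c : ℂ, ∀ v, ρ a v = c • v) :
    KB (G ⧸ Cfsg.fittingSubgroup G) (3 ^ (Module.finrank ℂ M - 1)) := by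
  classical
  obtain ⟨v0, hv0⟩ := exists_ne (0 : M)
  -- abelian normal subgroups are central
  have hcentral : ∀ A : Subgroup G, A.Normal → IsMulCommutative A → A ≤ Subgroup.center G := by
    intro A hn hc a ha
    obtain ⟨c, hc'⟩ := hA A hn hc a ha
    rw [Subgroup.mem_center_iff]
    intro g
    refine hρ (LinearEquiv.ext fun v => ?_)
    rw [map_mul, map_mul, LinearEquiv.mul_apply, LinearEquiv.mul_apply, hc', hc', map_smul]
  set Z := Subgroup.center G with hZdef
  have hscal : ∀ z ∈ Z, ∃ c : ℂ, ∀ v, ρ z v = c • v := fun z hz => hA Z inferInstance inferInstance z hz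
  have hsc_uniq : ∀ (c d : ℂ), c • v0 = d • v0 → c = d := fun c d h => smul_left_injective ℂ hv0 h
  have hscne : ∀ z ∈ Z, ∀ c : ℂ, (∀ v, ρ z v = c • v) → c ≠ 0 := fun z _ c h h0 => hv0 (by
    have := h v0
    rw [h0, zero_smul, LinearEquiv.map_eq_zero_iff] at this
    exact this)
  let σ : Z →* ℂˣ :=
    { toFun := fun z => Units.mk0 (hscal z z.2).choose (hscne z z.2 _ (hscal z z.2).choose_spec)
      map_one' := Units.ext (hsc_uniq _ _ (by
        change (hscal ((1 : Z) : G) (1 : Z).2).choose • v0 = _
        rw [← (hscal ((1 : Z) : G) (1 : Z).2).choose_spec]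
        simp))
      map_mul' := fun y z => Units.ext (hsc_uniq _ _ (by
        change (hscal ((y * z : Z) : G) (y * z).2).choose • v0 = _
        rw [← (hscal ((y * z : Z) : G) (y * z).2).choose_spec, Subgroup.coe_mul, map_mul,
          LinearEquiv.mul_apply, Units.val_mul, Units.val_mk0, Units.val_mk0, mul_smul,
          ← (hscal (z : G) z.2).choose_spec, ← (hscal (y : G) y.2).choose_spec])) }
  have hσ : ∀ (z : Z) v, ρ (z : G) v = (σ z : ℂ) • v := fun z v => (hscal z z.2).choose_spec v
  have hσinj : Function.Injective σ := fun y z h => Subtype.ext (hρ (LinearEquiv.ext fun v => by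
    rw [hσ, hσ, h]))
  set F := Cfsg.fittingSubgroup G with hFdef
  have hFn : F.Normal := inferInstance
  have hFnil : Group.IsNilpotent F := H19.fitting_isNilpotent
  have hZnil : Group.IsNilpotent Z := Subgroup.isNilpotent_of_ker_le_center (1 : Z →* PUnit.{1})
    (fun z _ => Subgroup.mem_center_iff.2 fun y => mul_comm' y z)
  have hZF : Z ≤ F := H19.le_fitting inferInstance hZnil
  -- the centre of `F`
  have hcF : ∀ x ∈ Subgroup.center F, (x : G) ∈ Z := by
    intro x hx
    refine hcentral ((Subgroup.center F).map F.subtype) ConjAct.normal_of_characteristic_of_normal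
      ?_ ⟨x, hx, rfl⟩
    refine ⟨⟨fun a b => ?_⟩⟩
    obtain ⟨a', ha', ha⟩ := a.2
    obtain ⟨b', hb', hb⟩ := b.2
    refine Subtype.ext ?_
    rw [Subgroup.coe_mul, Subgroup.coe_mul, ← ha, ← hb, ← map_mul, ← map_mul, Subgroup.mem_center_iff.1 ha' b']
  -- `F` has class at most two
  have hcls : ⁅(⊤ : Subgroup F), (⊤ : Subgroup F)⁆ ≤ Subgroup.center F := by
    by_contra hne
    set D := ⁅(⊤ : Subgroup F), (⊤ : Subgroup F)⁆
    let π := QuotientGroup.mk' (Subgroup.center F)
    let Z2 := (Subgroup.center (F ⧸ Subgroup.center F)).comap π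
    have hZ2 : Z2.Characteristic := by
      rw [Subgroup.characteristic_iff_comap_le]
      intro f x hx
      simp only [Z2, Subgroup.mem_comap, Subgroup.mem_center_iff] at hx ⊢
      intro y
      induction y using QuotientGroup.induction_on with
      | _ y =>
        have h := hx (π (f y))
        change (y : F ⧸ Subgroup.center F) * (x : F ⧸ Subgroup.center F) = (x : F ⧸ _) * (y : F ⧸ _)
        change π (f y) * π (f x) = π (f x) * π (f y) at h
        rw [← map_mul, ← map_mul, ← map_mul, ← map_mul] at h
        rw [← QuotientGroup.mk_mul, ← QuotientGroup.mk_mul, QuotientGroup.eq]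
        have h' := QuotientGroup.eq.1 h
        rw [← map_inv, ← map_mul] at h'
        have hc : (Subgroup.center F).comap f.toMonoidHom = Subgroup.center F :=
          Subgroup.characteristic_iff_comap_eq.1 inferInstance f
        rw [← hc]
        exact h'
    have hZ2top : ⁅Z2, (⊤ : Subgroup F)⁆ ≤ Subgroup.center F := by
      rw [Subgroup.commutator_le]
      intro x hx y _
      rw [← QuotientGroup.eq_one_iff, ← QuotientGroup.mk'_apply, map_commutatorElement,
        commutatorElement_eq_one_iff_mul_comm]
      exact (Subgroup.mem_center_iff.1 (Subgroup.mem_comap.1 hx) _).symm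
    have hDZ2 : ⁅D, Z2⁆ = ⊥ := by
      have h1 : ⁅⁅(⊤ : Subgroup F), Z2⁆, (⊤ : Subgroup F)⁆ = ⊥ := by
        refine le_bot_iff.1 ((Subgroup.commutator_mono ((Subgroup.commutator_comm _ _).le.trans hZ2top) le_rfl).trans ?_)
        rw [le_bot_iff, Subgroup.commutator_eq_bot_iff_le_centralizer]
        exact fun z hz y _ => (Subgroup.mem_center_iff.1 hz y)
      refine Subgroup.commutator_commutator_eq_bot_of_rotate h1 ?_
      refine le_bot_iff.1 ((Subgroup.commutator_mono hZ2top le_rfl).trans ?_)
      rw [le_bot_iff, Subgroup.commutator_eq_bot_iff_le_centralizer]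
      exact fun z hz y _ => (Subgroup.mem_center_iff.1 hz y)
    have hDchar : D.Characteristic := inferInstance
    have hA' : ∀ x ∈ D ⊓ Z2, x ∈ Subgroup.center F := by
      intro x hx
      have hchar : (D ⊓ Z2).Characteristic := by
        rw [Subgroup.characteristic_iff_comap_eq]
        intro f
        rw [Subgroup.comap_inf, Subgroup.characteristic_iff_comap_eq.1 hDchar f,
          Subgroup.characteristic_iff_comap_eq.1 hZ2 f]
      have hz : (x : G) ∈ Z := by
        refine hcentral ((D ⊓ Z2).map F.subtype) ConjAct.normal_of_characteristic_of_normal ?_ ⟨x, hx, rfl⟩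
        refine ⟨⟨fun a b => ?_⟩⟩
        obtain ⟨a', ha', ha⟩ := a.2
        obtain ⟨b', hb', hb⟩ := b.2
        refine Subtype.ext ?_
        rw [Subgroup.coe_mul, Subgroup.coe_mul, ← ha, ← hb, ← map_mul, ← map_mul]
        exact congrArg _ (Subgroup.commutator_eq_bot_iff_le_centralizer.1 hDZ2 ha'.1 b' hb'.2).symm
      exact Subgroup.mem_center_iff.2 fun y => Subtype.ext (Subgroup.mem_center_iff.1 hz y)
    have hDn : (D.map π).Normal := Subgroup.Normal.map inferInstance π (QuotientGroup.mk'_surjective _)
    have hD0 : D.map π ≠ ⊥ := by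
      rw [ne_eq, Subgroup.map_eq_bot_iff, QuotientGroup.ker_mk']
      exact hne
    have : Group.IsNilpotent (F ⧸ Subgroup.center F) := inferInstance
    obtain ⟨q, hq, hq1⟩ := (Subgroup.bot_or_exists_ne_one _).resolve_left
      (H19.inf_center_ne_bot (D.map π) hD0)
    obtain ⟨d, hd, rfl⟩ := hq.1
    exact hq1 ((QuotientGroup.eq_one_iff d).2 (hA' d ⟨hd, hq.2⟩))
  -- the commutator pairing
  set Z' := Z.subgroupOf F with hZ'
  have hcommZ : ∀ x y : F, ⁅(x : G), (y : G)⁆ ∈ Z := fun x y =>
    hcF ⁅x, y⁆ (hcls (Subgroup.commutator_mem_commutator (Subgroup.mem_top x) (Subgroup.mem_top y)))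
  have hquot : ∀ a b : F ⧸ Z', a * b = b * a := by
    intro a b
    induction a using QuotientGroup.induction_on with
    | _ a =>
      induction b using QuotientGroup.induction_on with
      | _ b =>
        rw [← commutatorElement_eq_one_iff_mul_comm, ← QuotientGroup.mk'_apply, ← QuotientGroup.mk'_apply,
          ← map_commutatorElement, QuotientGroup.mk'_apply, QuotientGroup.eq_one_iff]
        exact hcommZ a b
  let : CommGroup (F ⧸ Z') := { (inferInstance : Group (F ⧸ Z')) with mul_comm := hquot }
  let cm : F → F → ℂˣ := fun x y => σ ⟨⁅(x : G), (y : G)⁆, hcommZ x y⟩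
  have cm_left : ∀ x x' y, cm (x * x') y = cm x y * cm x' y := by
    intro x x' y
    change σ _ = σ _ * σ _
    rw [mul_comm (σ _), ← map_mul]
    refine congrArg σ (Subtype.ext ?_)
    simp only [Subgroup.coe_mul]
    have h := Subgroup.mem_center_iff.1 (hcommZ x' y) (x : G)
    calc ⁅(x : G) * x', (y : G)⁆ = (x : G) * ⁅(x' : G), (y : G)⁆ * (x : G)⁻¹ * ⁅(x : G), (y : G)⁆ := by
          simp only [commutatorElement_def]; group
      _ = ⁅(x' : G), (y : G)⁆ * ⁅(x : G), (y : G)⁆ := by rw [h, mul_inv_cancel_right]
  have cm_swap : ∀ x y, cm x y = (cm y x)⁻¹ := fun x y => by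
    rw [← map_inv]
    exact congrArg σ (Subtype.ext (commutatorElement_inv _ _).symm)
  have cm_right : ∀ x y y', cm x (y * y') = cm x y * cm x y' := by
    intro x y y'
    rw [cm_swap x, cm_left, mul_inv, ← cm_swap, ← cm_swap]
  have cm_zero : ∀ x y, x ∈ Z' → cm x y = 1 := by
    intro x y hx
    rw [← map_one σ]
    refine congrArg σ (Subtype.ext ?_)
    rw [OneMemClass.coe_one, commutatorElement_eq_one_iff_mul_comm]
    exact (Subgroup.mem_center_iff.1 (Subgroup.mem_subgroupOf.1 hx) _).symm
  let e1 : F →* (F →* ℂˣ) :=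
    { toFun := fun x => MonoidHom.mk' (cm x) (cm_right x)
      map_one' := MonoidHom.ext fun y => cm_zero 1 y (one_mem _)
      map_mul' := fun x x' => MonoidHom.ext fun y => cm_left x x' y }
  let e2 : (F ⧸ Z') →* (F →* ℂˣ) := QuotientGroup.lift Z' e1 fun x hx => MonoidHom.ext fun y => cm_zero x y hx
  let e3 : F →* ((F ⧸ Z') →* ℂˣ) :=
    { toFun := fun y => MonoidHom.mk' (fun a => e2 a y) (fun a b => by simp only [map_mul, MonoidHom.mul_apply])
      map_one' := MonoidHom.ext fun a => map_one (e2 a)
      map_mul' := fun y y' => MonoidHom.ext fun a => map_mul (e2 a) y y' }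
  let e4 : (F ⧸ Z') →* ((F ⧸ Z') →* ℂˣ) := QuotientGroup.lift Z' e3 fun y hy => MonoidHom.ext fun a => by
    induction a using QuotientGroup.induction_on with
    | _ x =>
      change cm x y = 1
      rw [cm_swap, cm_zero y x hy, inv_one]
  have he : ∀ x y : F, e4 y x = cm x y := fun x y => rfl
  let P : Pairing (F ⧸ Z') :=
    { e := e4.flip
      alt := fun a => by
        induction a using QuotientGroup.induction_on with
        | _ x =>
          change cm x x = 1
          rw [← map_one σ]
          exact congrArg σ (Subtype.ext (commutatorElement_self _))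
      nondeg := fun a ha => by
        induction a using QuotientGroup.induction_on with
        | _ x =>
          refine (QuotientGroup.eq_one_iff x).2 (Subgroup.mem_subgroupOf.2 (hcF x ?_))
          rw [Subgroup.mem_center_iff]
          intro y
          have h := ha (y : F ⧸ Z')
          change cm x y = 1 at h
          have h' := congrArg Subtype.val (hσinj (h.trans (map_one σ).symm))
          exact Subtype.ext (commutatorElement_eq_one_iff_mul_comm.1 h').symm }
  have hPe : ∀ x y : F, P.e (x : F ⧸ Z') (y : F ⧸ Z') = cm x y := fun x y => rfl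
  -- the action
  have hmap : ∀ g : G, Z' ≤ Z'.comap (MulAut.conjNormal g : MulAut F).toMonoidHom := by
    intro g x hx
    rw [Subgroup.mem_comap, Subgroup.mem_subgroupOf] at *
    change ((MulAut.conjNormal g x : F) : G) ∈ Z
    rw [MulAut.conjNormal_apply]
    exact (inferInstance : Z.Normal).conj_mem _ hx g
  let φ0 : G →* Monoid.End (F ⧸ Z') :=
    { toFun := fun g => QuotientGroup.map Z' Z' (MulAut.conjNormal g : MulAut F).toMonoidHom (hmap g)
      map_one' := MonoidHom.ext fun a => by
        induction a using QuotientGroup.induction_on with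
        | _ x => simp; rfl
      map_mul' := fun g h => MonoidHom.ext fun a => by
        induction a using QuotientGroup.induction_on with
        | _ x => simp; rfl }
  let φ1 : G →* MulAut (F ⧸ Z') :=
    { toFun := fun g =>
        { toFun := φ0 g
          invFun := φ0 g⁻¹
          left_inv := fun a => by
            change (φ0 g⁻¹ * φ0 g : Monoid.End (F ⧸ Z')) a = a
            rw [← map_mul, inv_mul_cancel, map_one]; rfl
          right_inv := fun a => by
            change (φ0 g * φ0 g⁻¹ : Monoid.End (F ⧸ Z')) a = a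
            rw [← map_mul, mul_inv_cancel, map_one]; rfl
          map_mul' := fun a b => map_mul (φ0 g : (F ⧸ Z') →* (F ⧸ Z')) a b }
      map_one' := MulEquiv.ext fun a => DFunLike.congr_fun (map_one φ0) a
      map_mul' := fun g h => MulEquiv.ext fun a => DFunLike.congr_fun (map_mul φ0 g h) a }
  have hφ1 : ∀ (g : G) (x : F), φ1 g (x : F ⧸ Z') = ((MulAut.conjNormal g x : F) : F ⧸ Z') := fun g x => rfl
  have hpres : P.Preserves φ1 := by
    intro g a b
    induction a using QuotientGroup.induction_on with
    | _ x =>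
      induction b using QuotientGroup.induction_on with
      | _ y =>
        rw [hφ1, hφ1, hPe, hPe]
        refine congrArg σ (Subtype.ext ?_)
        change ⁅((MulAut.conjNormal g x : F) : G), ((MulAut.conjNormal g y : F) : G)⁆ = ⁅(x : G), (y : G)⁆
        rw [MulAut.conjNormal_apply, MulAut.conjNormal_apply, ← conjugate_commutatorElement,
          Subgroup.mem_center_iff.1 (hcommZ x y) g, mul_inv_cancel_right]
  have hkerF : F ≤ φ1.ker := by
    intro g hg
    rw [MonoidHom.mem_ker]
    refine MulEquiv.ext fun a => ?_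
    induction a using QuotientGroup.induction_on with
    | _ x =>
      rw [hφ1, MulAut.one_apply, QuotientGroup.eq]
      rw [Subgroup.mem_subgroupOf, Subgroup.coe_mul, Subgroup.coe_inv, MulAut.conjNormal_apply]
      have h := hcommZ ⟨g, hg⟩ x⁻¹
      rw [show (g * (x : G) * g⁻¹)⁻¹ * (x : G) = ⁅g, (x : G)⁻¹⁆ by simp only [commutatorElement_def]; group]
      exact h
  -- dual count: `C_G(F/Z) ≤ F`
  have hkerle : φ1.ker ≤ F := by
    intro g hg
    have hgx : ∀ x : F, ⁅g, (x : G)⁆ ∈ Z := by
      intro x
      have h := DFunLike.congr_fun (MonoidHom.mem_ker.1 hg) ((x⁻¹ : F) : F ⧸ Z')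
      rw [hφ1, MulAut.one_apply, QuotientGroup.eq] at h
      rw [Subgroup.mem_subgroupOf, Subgroup.coe_mul, Subgroup.coe_inv, MulAut.conjNormal_apply,
        Subgroup.coe_inv] at h
      convert h using 1
      simp only [commutatorElement_def]; group
    let φg : (F ⧸ Z') →* ℂˣ := QuotientGroup.lift Z' (MonoidHom.mk' (fun x : F => σ ⟨⁅g, (x : G)⁆, hgx x⟩)
      fun x y => by
        rw [← map_mul]
        refine congrArg σ (Subtype.ext ?_)
        simp only [Subgroup.coe_mul]
        calc ⁅g, (x : G) * y⁆ = ⁅g, (x : G)⁆ * ((x : G) * ⁅g, (y : G)⁆ * (x : G)⁻¹) := by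
              simp only [commutatorElement_def]; group
          _ = _ := by rw [Subgroup.mem_center_iff.1 (hgx y) (x : G), mul_inv_cancel_right])
      fun x hx => by
        rw [MonoidHom.mem_ker, MonoidHom.mk'_apply, ← map_one σ]
        refine congrArg σ (Subtype.ext ?_)
        rw [OneMemClass.coe_one, commutatorElement_eq_one_iff_mul_comm]
        exact (Subgroup.mem_center_iff.1 (Subgroup.mem_subgroupOf.1 hx) g)
    have : NeZero (Monoid.exponent (F ⧸ Z')) := ⟨Monoid.exponent_ne_zero_of_finite⟩
    have hbij : Function.Bijective (P.e : (F ⧸ Z') → ((F ⧸ Z') →* ℂˣ)) := by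
      have hfin : Finite ((F ⧸ Z') →* ℂˣ) := Nat.finite_of_card_ne_zero (by
        rw [CommGroup.card_monoidHom_of_hasEnoughRootsOfUnity]; exact Nat.card_pos.ne')
      refine (Nat.bijective_iff_injective_and_card _).2 ⟨?_, (CommGroup.card_monoidHom_of_hasEnoughRootsOfUnity _ ℂ).symm⟩
      exact (injective_iff_map_eq_one P.e).2 fun a ha => P.nondeg a fun b => by rw [ha]; rfl
    obtain ⟨a, ha⟩ := hbij.2 φg
    obtain ⟨f, rfl⟩ := QuotientGroup.mk_surjective a
    have hcent : (f : G)⁻¹ * g ∈ Subgroup.centralizer (F : Set G) := by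
      intro x hx
      have h := DFunLike.congr_fun ha ((⟨x, hx⟩ : F) : F ⧸ Z')
      change cm f ⟨x, hx⟩ = σ ⟨⁅g, x⁆, _⟩ at h
      have h' : ⁅(f : G), x⁆ = ⁅g, x⁆ := congrArg Subtype.val (hσinj h)
      simp only [commutatorElement_def] at h'
      have h'' : (f : G) * x * (f : G)⁻¹ = g * x * g⁻¹ := mul_right_cancel h'
      calc x * ((f : G)⁻¹ * g) = (f : G)⁻¹ * ((f : G) * x * (f : G)⁻¹) * g := by group
        _ = (f : G)⁻¹ * (g * x * g⁻¹) * g := by rw [h'']
        _ = (f : G)⁻¹ * g * x := by group
    have := H19.centralizer_fitting_le hcent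
    simpa using F.mul_mem f.2 this
  let φ : (G ⧸ F) →* MulAut (F ⧸ Z') := QuotientGroup.lift F φ1 hkerF
  have hφinj : Function.Injective φ := by
    rw [injective_iff_map_eq_one]
    intro a
    induction a using QuotientGroup.induction_on with
    | _ g => exact fun h => (QuotientGroup.eq_one_iff g).2 (hkerle h)
  have hni : P.NoIsotropic φ := by
    intro W hW hiso
    let A : Subgroup G := (W.comap (QuotientGroup.mk' Z')).map F.subtype
    have hAn : A.Normal := by
      refine ⟨?_⟩
      rintro _ ⟨x, hx, rfl⟩ g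
      exact ⟨MulAut.conjNormal g x, hW (g : G ⧸ F) _ hx, MulAut.conjNormal_apply ..⟩
    have hAc : IsMulCommutative A := by
      refine ⟨⟨fun a b => ?_⟩⟩
      obtain ⟨a', ha', ha⟩ := a.2
      obtain ⟨b', hb', hb⟩ := b.2
      have h := hiso ha' _ hb'
      change cm a' b' = 1 at h
      have h' := congrArg Subtype.val (hσinj (h.trans (map_one σ).symm))
      refine Subtype.ext ?_
      rw [Subgroup.coe_mul, Subgroup.coe_mul, ← ha, ← hb]
      exact commutatorElement_eq_one_iff_mul_comm.1 h'
    refine (Subgroup.eq_bot_iff_forall W).2 fun a ha => ?_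
    induction a using QuotientGroup.induction_on with
    | _ x => exact (QuotientGroup.eq_one_iff x).2 (Subgroup.mem_subgroupOf.2 (hcentral A hAn hAc ⟨x, ha, rfl⟩))
  have : Group.IsSolvable (G ⧸ F) := Group.isSolvable_of_surjective (QuotientGroup.mk'_surjective F)
  obtain ⟨r, hr, hk⟩ := kb_symplectic P φ hφinj
    (fun a => by induction a using QuotientGroup.induction_on with | _ g => exact hpres g) hni
  -- the coset representatives are linearly independent
  have hdim : Nat.card (F ⧸ Z') ≤ Module.finrank ℂ M ^ 2 := by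
    have := Fintype.ofFinite (F ⧸ Z')
    let R : (F ⧸ Z') → Module.End ℂ M := fun a => (ρ ((a.out : F) : G)).toLinearMap
    have hli : LinearIndependent ℂ R := by
      rw [Fintype.linearIndependent_iff]
      intro c hc i
      let χ : (F ⧸ Z') → (F →* ℂ) := fun a => (Units.coeHom ℂ).comp
        (MonoidHom.mk' (fun f : F => cm f a.out) fun f f' => cm_left f f' a.out)
      have hχinj : Function.Injective χ := by
        intro a b hab
        rw [← inv_mul_eq_one]
        refine P.nondeg _ fun y => ?_
        induction y using QuotientGroup.induction_on with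
        | _ y =>
          rw [P.eq_one_comm, map_mul, map_inv, inv_mul_eq_one]
          have h : cm y a.out = cm y b.out := Units.ext (DFunLike.congr_fun hab y)
          rw [← hPe, ← hPe, QuotientGroup.out_eq', QuotientGroup.out_eq'] at h
          exact h
      have hind : LinearIndependent ℂ (fun a : F ⧸ Z' => (χ a : F → ℂ)) :=
        (linearIndependent_monoidHom F ℂ).comp χ hχinj
      by_contra hci
      obtain ⟨l, hl⟩ : ∃ l : Module.Dual ℂ M, l (ρ ((i.out : F) : G) v0) ≠ 0 := by
        by_contra h
        push Not at h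
        exact hv0 ((LinearEquiv.map_eq_zero_iff _).1 ((Module.forall_dual_apply_eq_zero_iff ℂ _).1 h))
      have hz := Fintype.linearIndependent_iff.1 hind (fun a => c a * l (R a v0)) (funext fun f => ?_) i
      · exact hci ((mul_eq_zero.1 hz).resolve_right hl)
      have hconj : ∀ a : F ⧸ Z', ∀ v, ρ (f : G) (R a (ρ (f : G)⁻¹ v)) = (cm f a.out : ℂ) • R a v := by
        intro a v
        have hz' := hσ ⟨⁅(f : G), ((a.out : F) : G)⁆, hcommZ f a.out⟩ (R a v)
        change ρ (f : G) (ρ ((a.out : F) : G) (ρ (f : G)⁻¹ v)) = _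
        rw [← LinearEquiv.mul_apply, ← map_mul, ← LinearEquiv.mul_apply, ← map_mul]
        rw [show cm f a.out = σ ⟨⁅(f : G), ((a.out : F) : G)⁆, hcommZ f a.out⟩ from rfl, ← hz']
        change _ = ρ ⁅(f : G), ((a.out : F) : G)⁆ (ρ ((a.out : F) : G) v)
        rw [← LinearEquiv.mul_apply (ρ ⁅(f : G), _⁆), ← map_mul]
        congr 2
        simp only [commutatorElement_def]; group
      have h0 := congrArg (fun T : Module.End ℂ M => l (ρ (f : G) (T (ρ (f : G)⁻¹ v0)))) hc
      simp only [LinearMap.sum_apply, LinearMap.smul_apply, map_sum, map_smul, LinearMap.zero_apply,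
        map_zero, hconj] at h0
      simp only [Finset.sum_apply, Pi.smul_apply, smul_eq_mul, Pi.zero_apply]
      rw [← h0]
      refine Finset.sum_congr rfl fun a _ => ?_
      change c a * l (R a v0) * (cm f a.out : ℂ) = _
      simp only [smul_eq_mul]
      ring
    have h := hli.fintype_card_le_finrank
    rwa [Module.finrank_linearMap, ← sq, ← Nat.card_eq_fintype_card] at h
  refine hk.mono (Nat.pow_le_pow_right (by norm_num) ?_)
  rw [hr] at hdim
  have := Nat.pow_le_pow_iff_left two_ne_zero |>.1 hdim
  omega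

end Cfsg.Agent.H21.LinClasses
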