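import Cfsg.Agent.H21.LinClasses.Form
import Mathlib.GroupTheory.PGroup

/-!
Fixed points of automorphism groups, norm maps, and centralisers of fixed-point-free elements of
prime order.
-/

namespace Cfsg.Agent.H21.LinClasses

variable {V X : Type} [CommGroup V] [Group X] (φ : X →* MulAut V)

/-- Common fixed points of a set of elements. -/
def fix (S : Set X) : Subgroup V where
  carrier := {v | ∀ s ∈ S, φ s v = v}
  one_mem' := fun s _ => by simp
  mul_mem' := fun {a b} ha hb s hs => by rw [map_mul, ha s hs, hb s hs]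
  inv_mem' := fun {a} ha s hs => by rw [map_inv, ha s hs]

theorem mem_fix {S : Set X} {v : V} : v ∈ fix φ S ↔ ∀ s ∈ S, φ s v = v := Iff.rfl

theorem mem_fix_singleton {a : X} {v : V} : v ∈ fix φ {a} ↔ φ a v = v := by simp [mem_fix]

/-- Irreducibility. -/
def Irred : Prop := ∀ W : Subgroup V, (∀ x, ∀ v ∈ W, φ x v ∈ W) → W = ⊥ ∨ W = ⊤

theorem fix_invariant {S : Set X} (hS : ∀ x, ∀ s ∈ S, x⁻¹ * s * x ∈ S) :
    ∀ x, ∀ v ∈ fix φ S, φ x v ∈ fix φ S := by
  intro x v hv s hs
  have h := hv _ (hS x s hs)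
  simp only [map_mul, map_inv, MulAut.mul_apply] at h
  have h' := congrArg (φ x) h
  rwa [MulAut.apply_inv_self] at h'

theorem fix_of_commute {S : Set X} {x : X} (hx : ∀ s ∈ S, Commute x s) :
    ∀ v ∈ fix φ S, φ x v ∈ fix φ S := by
  intro v hv s hs
  rw [← MulAut.mul_apply, ← map_mul, ← (hx s hs).eq, map_mul, MulAut.mul_apply, hv s hs]

theorem fix_eq_top_iff (hinj : Function.Injective φ) {S : Set X} : fix φ S = ⊤ ↔ S ⊆ {1} := by
  constructor
  · intro h s hs
    refine hinj ?_
    rw [map_one]
    ext v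
    exact (h ▸ Subgroup.mem_top v : v ∈ fix φ S) s hs
  · intro h
    refine (Subgroup.eq_top_iff' _).2 fun v s hs => ?_
    rw [h hs, map_one, MulAut.one_apply]

theorem eq_one_of_fix_abelian (hinj : Function.Injective φ) (hirr : Irred φ) (hab : IsMulCommutative X)
    {x : X} {v : V} (hv : v ≠ 1) (hx : φ x v = v) : x = 1 := by
  rcases hirr (fix φ {x}) (fix_invariant φ fun y s hs => by
    rw [Set.mem_singleton_iff] at hs ⊢
    rw [hs, mul_assoc, mul_comm' x y, inv_mul_cancel_left]) with h | h
  · exact absurd (Subgroup.mem_bot.1 (h ▸ (mem_fix_singleton φ).2 hx)) hv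
  · exact (fix_eq_top_iff φ hinj).1 h (Set.mem_singleton x)

variable [Finite V]

theorem card_abelian_lt (hinj : Function.Injective φ) (hirr : Irred φ) (hab : IsMulCommutative X)
    [Nontrivial V] : Nat.card X < Nat.card V := by
  obtain ⟨v, hv⟩ := exists_ne (1 : V)
  have h1 : Function.Injective fun x : X => φ x v := by
    intro x y h
    refine (inv_mul_eq_one.1 (eq_one_of_fix_abelian φ hinj hirr hab hv ?_)).symm
    simp only at h
    rw [map_mul, MulAut.mul_apply, h, map_inv, MulAut.inv_apply_self]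
  rw [← Set.ncard_range_of_injective h1, ← Set.ncard_univ V]
  refine Set.ncard_lt_ncard ?_ Set.finite_univ
  rw [Set.ssubset_univ_iff]
  intro h
  obtain ⟨x, hx⟩ := (h ▸ Set.mem_univ (1 : V) : (1 : V) ∈ Set.range fun x : X => φ x v)
  exact hv ((φ x).injective (by simpa using hx))

theorem card_modEq_fix {q : ℕ} [Fact q.Prime] (Q : Subgroup X) (hQ : IsPGroup q Q) {W : Subgroup V}
    (hW : ∀ x ∈ Q, ∀ v ∈ W, φ x v ∈ W) :
    Nat.card W ≡ Nat.card ↥(W ⊓ fix φ (Q : Set X) : Subgroup V) [MOD q] := by
  let : MulAction Q W :=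
    { smul := fun x v => ⟨φ (x : X) v, hW _ x.2 v v.2⟩
      one_smul := fun v => Subtype.ext (by change φ ((1 : Q) : X) (v : V) = v; simp)
      mul_smul := fun x y v => Subtype.ext (by
        change φ ((x * y : Q) : X) (v : V) = φ (x : X) (φ (y : X) (v : V)); simp) }
  refine (hQ.card_modEq_card_fixedPoints W).trans (congrArg (· % q) ?_)
  exact Nat.card_congr
    { toFun := fun v => ⟨v.1.1, v.1.2, fun x hx => congrArg Subtype.val (v.2 (⟨x, hx⟩ : Q))⟩
      invFun := fun v => ⟨⟨v.1, v.2.1⟩, fun x => Subtype.ext (v.2.2 (x : X) x.2)⟩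
      left_inv := fun v => rfl
      right_inv := fun v => rfl }

theorem fix_ne_bot {p : ℕ} [Fact p.Prime] (Q : Subgroup X) (hQ : IsPGroup p Q)
    (hV : p ∣ Nat.card V) : fix φ (Q : Set X) ≠ ⊥ := by
  intro h
  have h1 := card_modEq_fix φ Q hQ (W := ⊤) (fun _ _ _ _ => Subgroup.mem_top _)
  rw [h, inf_bot_eq, Subgroup.card_top, Subgroup.card_bot] at h1
  have h2 : 0 ≡ 1 [MOD p] := (Nat.modEq_zero_iff_dvd.2 hV).symm.trans h1
  have hp : Fact p.Prime := ‹_›
  rw [Nat.ModEq, Nat.zero_mod, Nat.one_mod_eq_one.2 hp.out.ne_one] at h2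
  omega

/-- Semiregularity of a fixed-point-free element of prime order. -/
theorem card_modEq_one {q : ℕ} [Fact q.Prime] {a : X} (ha : a ^ q = 1)
    (hfpf : ∀ v, φ a v = v → v = 1) {W : Subgroup V} (hW : ∀ v ∈ W, φ a v ∈ W) :
    Nat.card W ≡ 1 [MOD q] := by
  have hQ : IsPGroup q (Subgroup.zpowers a) := by
    rintro ⟨x, hx⟩
    obtain ⟨k, rfl⟩ := Subgroup.mem_zpowers_iff.1 hx
    refine ⟨1, Subtype.ext ?_⟩
    simp only [pow_one, SubmonoidClass.coe_pow, OneMemClass.coe_one]
    rw [← zpow_natCast, ← zpow_mul, mul_comm, zpow_mul, zpow_natCast, ha, one_zpow]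
  refine (card_modEq_fix φ (Subgroup.zpowers a) hQ (W := W) ?_).trans (congrArg (· % q) ?_)
  · intro x hx v hv
    have : (x : X) ∈ Submonoid.powers a := by
      have hfin : IsOfFinOrder a := isOfFinOrder_iff_pow_eq_one.2 ⟨q, (Fact.out : q.Prime).pos, ha⟩
      exact hfin.mem_powers_iff_mem_zpowers.2 hx
    obtain ⟨k, rfl⟩ := Submonoid.mem_powers_iff _ _ |>.1 this
    induction k with
    | zero => simpa using hv
    | succ k ih =>
        rw [pow_succ', map_mul, MulAut.mul_apply]
        exact hW _ (ih (Subgroup.pow_mem _ (Subgroup.mem_zpowers a) k)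
          (Submonoid.pow_mem _ (Submonoid.mem_powers a) k))
  · rw [Subgroup.card_eq_one]
    exact (Subgroup.eq_bot_iff_forall _).2 fun v hv => hfpf v (hv.2 a (Subgroup.mem_zpowers a))

theorem card_le_mul_centralizer [Finite X] {q : ℕ} (hq : q.Prime) {a : X} (ha : orderOf a = q)
    (hn : (Subgroup.zpowers a).Normal) :
    Nat.card X ≤ (q - 1) * Nat.card (Subgroup.centralizer ({a} : Set X)) := by
  rw [← (Subgroup.centralizer ({a} : Set X)).index_mul_card]
  refine Nat.mul_le_mul_right _ ?_
  have hsub : ∀ x : X, x * a * x⁻¹ ∈ ((Subgroup.zpowers a : Subgroup X) : Set X) \ {1} := fun x =>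
    ⟨hn.conj_mem a (Subgroup.mem_zpowers a) x, fun h => by
      rw [Set.mem_singleton_iff, conj_eq_one_iff] at h
      rw [h, orderOf_one] at ha
      exact hq.ne_one ha.symm⟩
  have hcard : Nat.card ↥(((Subgroup.zpowers a : Subgroup X) : Set X) \ {1}) = q - 1 := by
    rw [Nat.card_coe_set_eq, Set.ncard_sdiff_singleton_of_mem (one_mem _), ← Nat.card_coe_set_eq]
    change Nat.card (Subgroup.zpowers a) - 1 = q - 1
    rw [Nat.card_zpowers, ha]
  rw [← hcard, Subgroup.index_eq_card]
  refine Nat.card_le_card_of_injective (Quotient.lift (fun x : X =>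
    (⟨x * a * x⁻¹, hsub x⟩ : ↥(((Subgroup.zpowers a : Subgroup X) : Set X) \ {1}))) ?_) ?_
  · intro x y hxy
    refine Subtype.ext ?_
    have h := QuotientGroup.leftRel_apply.1 hxy
    rw [Subgroup.mem_centralizer_singleton_iff] at h
    calc x * a * x⁻¹ = x * (a * (x⁻¹ * y)) * y⁻¹ := by group
      _ = x * ((x⁻¹ * y) * a) * y⁻¹ := by rw [h]
      _ = y * a * y⁻¹ := by group
  · intro x y h
    induction x using Quotient.inductionOn with
    | _ x => ?_
    induction y using Quotient.inductionOn with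
    | _ y => ?_
    refine Quotient.sound (QuotientGroup.leftRel_apply.2 (Subgroup.mem_centralizer_singleton_iff.2 ?_))
    have h' : x * a * x⁻¹ = y * a * y⁻¹ := congrArg Subtype.val h
    calc (x⁻¹ * y) * a = x⁻¹ * (y * a * y⁻¹) * y := by group
      _ = x⁻¹ * (x * a * x⁻¹) * y := by rw [h']
      _ = a * (x⁻¹ * y) := by group

/-- Centraliser of a fixed-point-free element of prime order `q`, with `p` of order `s` mod `q`. -/
theorem cent_bound [Finite X] {p q s n : ℕ} (hp : p.Prime) (hq : q.Prime) (hpq : p ≠ q) {a : X}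
    (ha : a ^ q = 1) (hfpf : ∀ v, φ a v = v → v = 1) (hinj : Function.Injective φ)
    (hV : Nat.card V = p ^ n) (hn : n ≠ 0) (hs : ∀ j, 0 < j → j < s → ¬ q ∣ p ^ j - 1) {d : ℕ}
    (hd : n < (d + 1) * s) :
    Nat.card (Subgroup.centralizer ({a} : Set X)) ≤ (Nat.card V - 1) ^ d := by
  have : Fact q.Prime := ⟨hq⟩
  suffices H : ∀ d (K : Subgroup V) (e : ℕ), (∀ v ∈ K, φ a v ∈ K) → Nat.card K = p ^ e →
      n < e + (d + 1) * s → ∀ T : Subgroup X, T ≤ Subgroup.centralizer {a} →
      (∀ t ∈ T, ∀ v ∈ K, φ t v = v) → Nat.card T ≤ (Nat.card V - 1) ^ d by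
    refine H d ⊥ 0 (fun v hv => ?_) (by simp) (by omega) _ le_rfl (fun t _ v hv => ?_)
    · rw [Subgroup.mem_bot] at hv ⊢
      simp [hv]
    · rw [Subgroup.mem_bot.1 hv, map_one]
  intro d
  induction d with
  | zero =>
      intro K e hK hKc hlt T _ hT
      have htriv : T = ⊥ := by
        by_cases hKtop : K = ⊤
        · refine (Subgroup.eq_bot_iff_forall _).2 fun t ht => hinj ?_
          rw [map_one]
          ext v
          exact hT t ht v (hKtop ▸ Subgroup.mem_top v)
        · exfalso
          have hle : e < n := by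
            refine (Nat.pow_lt_pow_iff_right hp.one_lt).1 ?_
            rw [← hKc, ← hV]
            exact lt_of_le_of_ne (Subgroup.card_le_card_group K)
              fun h => hKtop (Subgroup.eq_top_of_card_eq K h)
          have h1 := card_modEq_one φ ha hfpf hK
          have h2 := card_modEq_one φ ha hfpf (W := ⊤) fun _ _ => Subgroup.mem_top _
          rw [Subgroup.card_top, hV] at h2
          rw [hKc] at h1
          refine hs (n - e) (by omega) (by omega) ?_
          refine (Nat.modEq_iff_dvd' (Nat.one_le_pow _ _ hp.pos)).1 ?_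
          refine Nat.ModEq.symm ?_
          calc p ^ (n - e) = p ^ (n - e) * 1 := (mul_one _).symm
            _ ≡ p ^ (n - e) * p ^ e [MOD q] := Nat.ModEq.mul_left _ h1.symm
            _ = p ^ n := by rw [← pow_add, Nat.sub_add_cancel hle.le]
            _ ≡ 1 [MOD q] := h2
      simp [htriv]
  | succ d ih =>
      intro K e hK hKc hlt T hTC hT
      by_cases hKtop : K = ⊤
      · have : T = ⊥ := by
          refine (Subgroup.eq_bot_iff_forall _).2 fun t ht => hinj ?_
          rw [map_one]
          ext v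
          exact hT t ht v (hKtop ▸ Subgroup.mem_top v)
        rw [this, Subgroup.card_bot]
        refine Nat.one_le_pow _ _ ?_
        have : 1 < Nat.card V := by
          rw [hV]
          exact Nat.one_lt_pow hn hp.one_lt
        omega
      obtain ⟨v, hv⟩ : ∃ v, v ∉ K := by
        by_contra h
        exact hKtop ((Subgroup.eq_top_iff' K).2 fun x => not_not.1 (not_exists.1 h x))
      let : MulAction T V := MulAction.compHom V (φ.comp T.subtype)
      let U : Subgroup X := (MulAction.stabilizer T v).map T.subtype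
      have hU : Nat.card U = Nat.card (MulAction.stabilizer T v) :=
        Nat.card_congr (Subgroup.equivMapOfInjective _ _ T.subtype_injective).toEquiv.symm
      have hUT : U ≤ T := by rintro _ ⟨t, -, rfl⟩; exact t.2
      have hUv : ∀ u ∈ U, φ u v = v := by
        rintro _ ⟨t, ht, rfl⟩
        exact MulAction.mem_stabilizer_iff.1 ht
      let L := fix φ (U : Set X)
      have hKL : K ≤ L := fun w hw u hu => hT u (hUT hu) w hw
      have hLa : ∀ w ∈ L, φ a w ∈ L := fix_of_commute φ fun u hu =>
        (Subgroup.mem_centralizer_singleton_iff.1 (hTC (hUT hu))).symm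
      obtain ⟨f, -, hLf⟩ := (Nat.dvd_prime_pow hp).1 (hV ▸ Subgroup.card_subgroup_dvd_card L)
      have hef : e < f := by
        refine (Nat.pow_lt_pow_iff_right hp.one_lt).1 ?_
        rw [← hKc, ← hLf]
        refine lt_of_le_of_ne (Subgroup.card_le_of_le hKL) fun h => hv ?_
        exact Subgroup.eq_of_le_of_card_ge hKL h.ge ▸ hUv
      have hsf : s ≤ f - e := by
        by_contra hlt'
        have h1 := card_modEq_one φ ha hfpf hK
        have h2 := card_modEq_one φ ha hfpf hLa
        rw [hKc] at h1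
        rw [hLf] at h2
        refine hs (f - e) (by omega) (by omega) ?_
        refine (Nat.modEq_iff_dvd' (Nat.one_le_pow _ _ hp.pos)).1 ?_
        refine Nat.ModEq.symm ?_
        calc p ^ (f - e) = p ^ (f - e) * 1 := (mul_one _).symm
          _ ≡ p ^ (f - e) * p ^ e [MOD q] := Nat.ModEq.mul_left _ h1.symm
          _ = p ^ f := by rw [← pow_add, Nat.sub_add_cancel hef.le]
          _ ≡ 1 [MOD q] := h2
      have hlt2 : n < f + (d + 1) * s := by
        have : (d + 1 + 1) * s = (d + 1) * s + s := by ring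
        omega
      have h1 := ih L f hLa hLf hlt2 U (hUT.trans hTC) fun u hu w hw => hw u hu
      have h2 : Nat.card (MulAction.orbit T v) ≤ Nat.card V - 1 := by
        have hsub : MulAction.orbit T v ⊆ ({1} : Set V)ᶜ := by
          rintro _ ⟨t, rfl⟩ hmem
          apply hv
          rw [Set.mem_singleton_iff] at hmem
          change φ (t : X) v = 1 at hmem
          rw [EmbeddingLike.map_eq_one_iff] at hmem
          exact hmem ▸ one_mem K
        rw [Nat.card_coe_set_eq]
        refine (Set.ncard_le_ncard hsub (Set.toFinite _)).trans ?_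
        rw [Set.ncard_compl, Set.ncard_singleton]
      calc Nat.card T = Nat.card (MulAction.stabilizer T v) * Nat.card (MulAction.orbit T v) := by
            rw [Nat.card_coe_set_eq, ← MulAction.index_stabilizer, Subgroup.card_mul_index]
        _ ≤ _ := by rw [pow_succ]; exact Nat.mul_le_mul (hU ▸ h1) h2

end Cfsg.Agent.H21.LinClasses
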