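import Cfsg.Agent.H21.LinClasses.KBound
import Mathlib.GroupTheory.FiniteAbelian.Duality
import Mathlib.Analysis.Complex.Polynomial.Basic
import Mathlib.RingTheory.RootsOfUnity.AlgebraicallyClosed
import Mathlib.GroupTheory.GroupAction.Quotient
import Mathlib.Data.Fin.Tuple.Basic

/-!
Nondegenerate alternating pairings on finite abelian groups, groups preserving them, and
symplectic frames.
-/

namespace Cfsg.Agent.H21.LinClasses

/-- A nondegenerate alternating pairing with values in the complex units. -/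
structure Pairing (V : Type) [CommGroup V] where
  e : V →* V →* ℂˣ
  alt : ∀ x, e x x = 1
  nondeg : ∀ x, (∀ y, e x y = 1) → x = 1

namespace Pairing

variable {V : Type} [CommGroup V] (P : Pairing V)

theorem swap (x y : V) : P.e x y * P.e y x = 1 := by
  have h := P.alt (x * y)
  simp only [map_mul, MonoidHom.mul_apply, P.alt, one_mul, mul_one] at h
  rwa [mul_comm]

theorem eq_one_comm {x y : V} : P.e x y = 1 ↔ P.e y x = 1 := by
  have h := P.swap x y
  constructor <;> intro h' <;> simpa [h'] using h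

/-- The orthogonal complement. -/
def perp (W : Subgroup V) : Subgroup V where
  carrier := {x | ∀ w ∈ W, P.e x w = 1}
  one_mem' := fun w _ => by simp
  mul_mem' := fun {a b} ha hb w hw => by simp [ha w hw, hb w hw]
  inv_mem' := fun {a} ha w hw => by simp [ha w hw]

theorem mem_perp {W : Subgroup V} {x : V} : x ∈ P.perp W ↔ ∀ w ∈ W, P.e x w = 1 := Iff.rfl

theorem perp_le_perp {W W' : Subgroup V} (h : W ≤ W') : P.perp W' ≤ P.perp W :=
  fun _ hx w hw => hx w (h hw)

theorem le_perp_perp (W : Subgroup V) : W ≤ P.perp (P.perp W) :=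
  fun x hx _ hw => P.eq_one_comm.1 (hw x hx)

variable [Finite V]

theorem card_le_card_mul_card_perp (W : Subgroup V) :
    Nat.card V ≤ Nat.card W * Nat.card (P.perp W) := by
  let ψ : V →* (W →* ℂˣ) := (MonoidHom.compHom' W.subtype).comp P.e
  have hker : ψ.ker = P.perp W := by
    ext x
    constructor
    · intro hx w hw
      exact DFunLike.congr_fun (MonoidHom.mem_ker.1 hx) ⟨w, hw⟩
    · intro hx
      exact MonoidHom.mem_ker.2 (MonoidHom.ext fun w => hx w w.2)
  have : NeZero (Monoid.exponent W) := ⟨Monoid.exponent_ne_zero_of_finite⟩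
  have h : Nat.card ψ.range ≤ Nat.card W := by
    rw [← CommGroup.card_monoidHom_of_hasEnoughRootsOfUnity W ℂ]
    exact Subgroup.card_le_card_group _
  rw [← ψ.ker.index_mul_card, Subgroup.index_ker, hker]
  exact Nat.mul_le_mul_right _ h

theorem split_bijective {W : Subgroup V} (hW : W ⊓ P.perp W = ⊥) :
    Function.Bijective (fun a : W × P.perp W => (a.1 : V) * a.2) := by
  have hinj : Function.Injective (fun a : W × P.perp W => (a.1 : V) * a.2) := by
    rintro ⟨w, u⟩ ⟨w', u'⟩ h
    simp only at h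
    have h2 : (w' : V)⁻¹ * w = u' * (u : V)⁻¹ := by
      rw [eq_mul_inv_iff_mul_eq, mul_assoc, h, inv_mul_cancel_left]
    have hm : (w' : V)⁻¹ * w ∈ W ⊓ P.perp W :=
      ⟨W.mul_mem (W.inv_mem w'.2) w.2, h2 ▸ (P.perp W).mul_mem u'.2 ((P.perp W).inv_mem u.2)⟩
    rw [hW, Subgroup.mem_bot] at hm
    have hw : w = w' := Subtype.ext (inv_mul_eq_one.1 hm).symm
    subst hw
    exact Prod.ext rfl (Subtype.ext (mul_left_cancel h))
  refine (Nat.bijective_iff_injective_and_card _).2 ⟨hinj, le_antisymm ?_ ?_⟩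
  · exact Nat.card_le_card_of_injective _ hinj
  · rw [Nat.card_prod]
    exact P.card_le_card_mul_card_perp W

theorem card_split {W : Subgroup V} (hW : W ⊓ P.perp W = ⊥) :
    Nat.card W * Nat.card (P.perp W) = Nat.card V := by
  rw [← Nat.card_prod]
  exact Nat.card_eq_of_bijective _ (P.split_bijective hW)

/-- The pairing on a nondegenerate subgroup. -/
noncomputable def restrict (W : Subgroup V) (hW : W ⊓ P.perp W = ⊥) : Pairing W where
  e := (MonoidHom.compHom' W.subtype).comp (P.e.comp W.subtype)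
  alt := fun x => P.alt x
  nondeg := fun x hx => by
    have : (x : V) ∈ W ⊓ P.perp W := ⟨x.2, fun w hw => hx ⟨w, hw⟩⟩
    rw [hW, Subgroup.mem_bot] at this
    exact Subtype.ext this

omit [Finite V] in
theorem restrict_e (W : Subgroup V) (hW : W ⊓ P.perp W = ⊥) (x y : W) :
    (P.restrict W hW).e x y = P.e x y := rfl

theorem perp_inf_perp_perp {W : Subgroup V} (hW : W ⊓ P.perp W = ⊥) :
    P.perp W ⊓ P.perp (P.perp W) = ⊥ := by
  refine (Subgroup.eq_bot_iff_forall _).2 fun x hx => P.nondeg x fun v => ?_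
  obtain ⟨⟨w, u⟩, rfl⟩ := (P.split_bijective hW).2 v
  rw [map_mul, hx.1 w w.2, hx.2 u u.2, mul_one]

/-- A subgroup is totally isotropic. -/
def Isotropic (W : Subgroup V) : Prop := W ≤ P.perp W

/-- A group acting by isometries. -/
def Preserves {X : Type} [Group X] (φ : X →* MulAut V) : Prop :=
  ∀ x v w, P.e (φ x v) (φ x w) = P.e v w

/-- No nontrivial invariant totally isotropic subgroup. -/
def NoIsotropic {X : Type} [Group X] (φ : X →* MulAut V) : Prop :=
  ∀ W : Subgroup V, (∀ x, ∀ v ∈ W, φ x v ∈ W) → P.Isotropic W → W = ⊥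

theorem map_perp {X : Type} [Group X] {φ : X →* MulAut V} (hφ : P.Preserves φ) {W : Subgroup V}
    (hW : ∀ x, ∀ v ∈ W, φ x v ∈ W) : ∀ x, ∀ v ∈ P.perp W, φ x v ∈ P.perp W := by
  intro x v hv w hw
  have h := hv (φ x⁻¹ w) (hW x⁻¹ w hw)
  rwa [← hφ x, show φ x (φ x⁻¹ w) = w by rw [map_inv, MulAut.apply_inv_self]] at h

theorem inf_perp_eq_bot {X : Type} [Group X] {φ : X →* MulAut V} (hφ : P.Preserves φ)
    (hni : P.NoIsotropic φ) {W : Subgroup V} (hW : ∀ x, ∀ v ∈ W, φ x v ∈ W) :
    W ⊓ P.perp W = ⊥ :=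
  hni _ (fun x v hv => ⟨hW x v hv.1, P.map_perp hφ hW x v hv.2⟩) fun _ hx _ hw => hx.2 _ hw.1

end Pairing

/-- Restriction of automorphisms to an invariant subgroup. -/
def restrictHom {X V : Type} [Group X] [Group V] (φ : X →* MulAut V) (W : Subgroup V)
    (hW : ∀ x, ∀ v ∈ W, φ x v ∈ W) : X →* MulAut W where
  toFun x :=
    { toFun := fun v => ⟨φ x v, hW x v v.2⟩
      invFun := fun v => ⟨φ x⁻¹ v, hW x⁻¹ v v.2⟩
      left_inv := fun v => Subtype.ext (by simp)
      right_inv := fun v => Subtype.ext (by simp)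
      map_mul' := fun v w => Subtype.ext (by simp) }
  map_one' := MulEquiv.ext fun v => Subtype.ext (by simp)
  map_mul' x y := MulEquiv.ext fun v => Subtype.ext (by simp)

@[simp] theorem coe_restrictHom {X V : Type} [Group X] [Group V] (φ : X →* MulAut V) (W : Subgroup V)
    (hW : ∀ x, ∀ v ∈ W, φ x v ∈ W) (x : X) (v : W) : ((restrictHom φ W hW x v : W) : V) = φ x v :=
  rfl

/-- Order of the symplectic group of rank `2 m` over the field with `p` elements. -/
def symOrder (p m : ℕ) : ℕ := ∏ i ∈ Finset.range m, (p ^ (2 * (i + 1)) - 1) * p ^ (2 * i + 1)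

section Frames

variable {p : ℕ} (ζ : ℂˣ)

/-- Symplectic frames. -/
def Frames {V : Type} [CommGroup V] (P : Pairing V) (m : ℕ) : Type :=
  {s : Fin m → V × V // ∀ i j, P.e (s i).1 (s j).1 = 1 ∧ P.e (s i).2 (s j).2 = 1 ∧
    P.e (s i).1 (s j).2 = if i = j then ζ else 1}

instance {V : Type} [CommGroup V] [Finite V] (P : Pairing V) (m : ℕ) : Finite (Frames ζ P m) :=
  Subtype.finite

variable {V : Type} [CommGroup V] [Finite V] (P : Pairing V)

theorem value_pow_eq_one (hexp : ∀ v : V, v ^ p = 1) (x y : V) : P.e x y ^ p = 1 := by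
  rw [← map_pow, hexp, map_one]

theorem exists_unit_root (hp : p.Prime) : ∃ ζ : ℂˣ, IsPrimitiveRoot ζ p := by
  have : NeZero (p : ℂ) := ⟨Nat.cast_ne_zero.2 hp.ne_zero⟩
  have h := Complex.isPrimitiveRoot_exp p hp.ne_zero
  exact ⟨(h.isUnit hp.ne_zero).unit, IsPrimitiveRoot.coe_units_iff.1 (by rw [IsUnit.unit_spec]; exact h)⟩

theorem zpow_eq_one_of_dvd (hexp : ∀ v : V, v ^ p = 1) (x : V) {i : ℤ} (h : (p : ℤ) ∣ i) : x ^ i = 1 := by
  obtain ⟨k, rfl⟩ := h
  rw [zpow_mul, zpow_natCast, hexp, one_zpow]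

theorem plane (hp : p.Prime) {ζ : ℂˣ} (hζ : IsPrimitiveRoot ζ p) (hexp : ∀ v : V, v ^ p = 1)
    {x y : V} (hxy : P.e x y = ζ) :
    Subgroup.closure {x, y} ⊓ P.perp (Subgroup.closure {x, y}) = ⊥ ∧
      Nat.card (Subgroup.closure ({x, y} : Set V)) = p ^ 2 := by
  have hx : x ∈ Subgroup.closure ({x, y} : Set V) := Subgroup.subset_closure (by simp)
  have hy : y ∈ Subgroup.closure ({x, y} : Set V) := Subgroup.subset_closure (by simp)
  have hyx : P.e y x = ζ⁻¹ := by
    rw [eq_inv_iff_mul_eq_one, ← hxy, mul_comm]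
    exact P.swap x y
  have key : ∀ i j : ℤ, P.e (x ^ i * y ^ j) y = ζ ^ i ∧ P.e (x ^ i * y ^ j) x = (ζ ^ j)⁻¹ := by
    intro i j
    simp only [map_mul, map_zpow, MonoidHom.mul_apply, MonoidHom.zpow_apply, hxy, hyx, P.alt,
      one_zpow, mul_one, one_mul, inv_zpow, and_self]
  refine ⟨(Subgroup.eq_bot_iff_forall _).2 fun z hz => ?_, ?_⟩
  · obtain ⟨i, j, rfl⟩ := Subgroup.mem_closure_pair.1 hz.1
    have h1 := (key i j).1.symm.trans (hz.2 y hy)
    have h2 := (key i j).2.symm.trans (hz.2 x hx)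
    rw [inv_eq_one] at h2
    rw [zpow_eq_one_of_dvd hexp x ((hζ.zpow_eq_one_iff_dvd i).1 h1),
      zpow_eq_one_of_dvd hexp y ((hζ.zpow_eq_one_iff_dvd j).1 h2), one_mul]
  · rw [show p ^ 2 = Nat.card (Fin p × Fin p) by simp [sq]]
    symm
    refine Nat.card_eq_of_bijective
      (fun a : Fin p × Fin p => (⟨x ^ (a.1.val : ℤ) * y ^ (a.2.val : ℤ),
        mul_mem (zpow_mem hx _) (zpow_mem hy _)⟩ : Subgroup.closure ({x, y} : Set V))) ⟨?_, ?_⟩
    · rintro ⟨a, b⟩ ⟨c, d⟩ h
      have h' := congrArg Subtype.val h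
      simp only at h'
      have h1 := (key _ _).1.symm.trans ((congrArg (fun z => P.e z y) h').trans (key _ _).1)
      have h2 := inv_inj.1 ((key _ _).2.symm.trans ((congrArg (fun z => P.e z x) h').trans (key _ _).2))
      rw [zpow_natCast, zpow_natCast] at h1 h2
      exact Prod.ext (Fin.ext (hζ.pow_inj a.2 c.2 h1)) (Fin.ext (hζ.pow_inj b.2 d.2 h2))
    · rintro ⟨z, hz⟩
      obtain ⟨i, j, rfl⟩ := Subgroup.mem_closure_pair.1 hz
      have hpz : (0 : ℤ) < p := by exact_mod_cast hp.pos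
      refine ⟨(⟨(i % p).toNat, ?_⟩, ⟨(j % p).toNat, ?_⟩), Subtype.ext ?_⟩
      · have := Int.emod_lt_of_pos i hpz
        omega
      · have := Int.emod_lt_of_pos j hpz
        omega
      · simp only [Int.toNat_of_nonneg (Int.emod_nonneg _ hpz.ne'), Int.toNat_emod]
        have hmod : ∀ (z : V) (k : ℤ), z ^ (k % p) = z ^ k := fun z k => by
          conv_rhs => rw [← Int.mul_ediv_add_emod k p]
          rw [zpow_add, zpow_mul, zpow_natCast, hexp, one_zpow, one_mul]
        rw [hmod, hmod]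

theorem card_level (hp : p.Prime) {ζ : ℂˣ} (hζ : IsPrimitiveRoot ζ p) (hexp : ∀ v : V, v ^ p = 1)
    {x : V} (hx : x ≠ 1) : Nat.card {y // P.e x y = ζ} * p = Nat.card V := by
  have : Fact p.Prime := ⟨hp⟩
  have hle : (P.e x).range ≤ Subgroup.zpowers ζ := by
    rintro _ ⟨y, rfl⟩
    have : NeZero p := ⟨hp.ne_zero⟩
    rw [hζ.zpowers_eq, mem_rootsOfUnity]
    exact value_pow_eq_one P hexp x y
  have hzc : Nat.card (Subgroup.zpowers ζ) = p := by rw [Nat.card_zpowers, hζ.eq_orderOf]
  have hne : (P.e x).range ≠ ⊥ := fun h => hx (P.nondeg x fun y => by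
    have : P.e x y ∈ (P.e x).range := ⟨y, rfl⟩
    rwa [h, Subgroup.mem_bot] at this)
  have : Finite (Subgroup.zpowers ζ) := Nat.finite_of_card_ne_zero (by rw [hzc]; exact hp.ne_zero)
  have hrc : Nat.card (P.e x).range = p := by
    refine ((Nat.dvd_prime hp).1 (hzc ▸ Subgroup.card_dvd_of_le hle)).resolve_left fun h => hne ?_
    exact Subgroup.card_eq_one.1 h
  obtain ⟨y₀, hy₀⟩ : ζ ∈ (P.e x).range := by
    rw [Subgroup.eq_of_le_of_card_ge hle (le_of_eq (hzc.trans hrc.symm))]
    exact Subgroup.mem_zpowers ζ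
  have hfib : Nat.card {y // P.e x y = ζ} = Nat.card (P.e x).ker :=
    Nat.card_congr
      { toFun := fun y => ⟨y₀⁻¹ * y.1, by simp [hy₀, y.2]⟩
        invFun := fun k => ⟨y₀ * k.1, by simp [hy₀, MonoidHom.mem_ker.1 k.2]⟩
        left_inv := fun y => by simp
        right_inv := fun k => by simp }
  rw [hfib, ← (P.e x).ker.card_mul_index, Subgroup.index_ker, hrc]

theorem exists_partner (hp : p.Prime) {ζ : ℂˣ} (hζ : IsPrimitiveRoot ζ p) (hexp : ∀ v : V, v ^ p = 1)
    {x : V} (hx : x ≠ 1) : ∃ y, P.e x y = ζ := by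
  have h := card_level P hp hζ hexp hx
  have : Nat.card {y // P.e x y = ζ} ≠ 0 := fun h0 => Nat.card_pos.ne' (by rw [← h, h0, zero_mul])
  obtain ⟨y⟩ := (Nat.card_ne_zero.1 this).1
  exact ⟨y.1, y.2⟩

/-- The order is an even power of `p`. -/
theorem exists_card_eq (hp : p.Prime) (P : Pairing V) (hexp : ∀ v : V, v ^ p = 1) :
    ∃ m, Nat.card V = p ^ (2 * m) := by
  obtain ⟨ζ, hζ⟩ := exists_unit_root hp
  induction hn : Nat.card V using Nat.strong_induction_on generalizing V with
  | _ n ih =>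
  subst hn
  by_cases h : ∀ x : V, x = 1
  · have : Subsingleton V := ⟨fun a b => (h a).trans (h b).symm⟩
    exact ⟨0, by simp⟩
  push Not at h
  obtain ⟨x, hx⟩ := h
  obtain ⟨y, hy⟩ := exists_partner P hp hζ hexp hx
  obtain ⟨hU, hUc⟩ := plane P hp hζ hexp hy
  have hsplit := P.card_split hU
  rw [hUc] at hsplit
  have hlt : Nat.card (P.perp (Subgroup.closure {x, y})) < Nat.card V := by
    rw [← hsplit]
    exact lt_mul_left Nat.card_pos (Nat.one_lt_pow two_ne_zero hp.one_lt)
  obtain ⟨m, hm⟩ := ih _ hlt (P.restrict _ (P.perp_inf_perp_perp hU)) (fun v => Subtype.ext (hexp v)) rfl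
  exact ⟨m + 1, by rw [← hsplit, hm, ← pow_add]; ring_nf⟩

/-- Frames split off their first pair. -/
def framesSuccEquiv (ζ : ℂˣ) (P : Pairing V) (m : ℕ)
    (hU : ∀ a : Σ x : {x : V // x ≠ 1}, {y // P.e x.1 y = ζ},
      Subgroup.closure {a.1.1, a.2.1} ⊓ P.perp (Subgroup.closure {a.1.1, a.2.1}) = ⊥) (hζ1 : ζ ≠ 1) :
    Frames ζ P (m + 1) ≃
      Σ a : Σ x : {x : V // x ≠ 1}, {y // P.e x.1 y = ζ},
        Frames ζ (P.restrict _ (P.perp_inf_perp_perp (hU a))) m where
  toFun s :=
    ⟨⟨⟨(s.1 0).1, fun h => hζ1 (by simpa [h] using ((s.2 0 0).2.2).symm)⟩,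
      ⟨(s.1 0).2, by simpa using (s.2 0 0).2.2⟩⟩,
      ⟨fun i => (⟨(s.1 i.succ).1, by
          change (s.1 i.succ).1 ∈ P.perp _
          intro w hw
          induction hw using Subgroup.closure_induction with
          | mem z hz =>
              rcases hz with rfl | hz
              · exact (s.2 i.succ 0).1
              · rw [Set.mem_singleton_iff.1 hz]
                simpa [Fin.succ_ne_zero] using (s.2 i.succ 0).2.2
          | one => simp
          | mul a b _ _ ha hb => simp [ha, hb]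
          | inv a _ ha => simp [ha]⟩,
        ⟨(s.1 i.succ).2, by
          change (s.1 i.succ).2 ∈ P.perp _
          intro w hw
          induction hw using Subgroup.closure_induction with
          | mem z hz =>
              rcases hz with rfl | hz
              · exact P.eq_one_comm.1 (by simpa [(Fin.succ_ne_zero i).symm] using (s.2 0 i.succ).2.2)
              · rw [Set.mem_singleton_iff.1 hz]
                exact (s.2 i.succ 0).2.1
          | one => simp
          | mul a b _ _ ha hb => simp [ha, hb]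
          | inv a _ ha => simp [ha]⟩),
        fun i j => ⟨(s.2 _ _).1, (s.2 _ _).2.1, by
          simpa [Pairing.restrict_e, Fin.succ_inj] using (s.2 i.succ j.succ).2.2⟩⟩⟩
  invFun a :=
    ⟨Fin.cons (a.1.1.1, a.1.2.1) fun i => ((a.2.1 i).1.1, (a.2.1 i).2.1), by
      have hx : a.1.1.1 ∈ Subgroup.closure ({a.1.1.1, a.1.2.1} : Set V) := Subgroup.subset_closure (by simp)
      have hy : a.1.2.1 ∈ Subgroup.closure ({a.1.1.1, a.1.2.1} : Set V) := Subgroup.subset_closure (by simp)
      intro i j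
      refine Fin.cases ?_ (fun i => ?_) i <;> refine Fin.cases ?_ (fun j => ?_) j
      · exact ⟨P.alt _, P.alt _, by simpa using a.1.2.2⟩
      · simp only [Fin.cons_zero, Fin.cons_succ]
        exact ⟨P.eq_one_comm.1 ((a.2.1 j).1.2 _ hx), P.eq_one_comm.1 ((a.2.1 j).2.2 _ hy),
          by rw [if_neg (Fin.succ_ne_zero j).symm]; exact P.eq_one_comm.1 ((a.2.1 j).2.2 _ hx)⟩
      · simp only [Fin.cons_zero, Fin.cons_succ]
        exact ⟨(a.2.1 i).1.2 _ hx, (a.2.1 i).2.2 _ hy,
          by rw [if_neg (Fin.succ_ne_zero i)]; exact (a.2.1 i).1.2 _ hy⟩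
      · simp only [Fin.cons_succ, Fin.succ_inj]
        exact a.2.2 i j⟩
  left_inv s := Subtype.ext (funext fun i => by refine Fin.cases ?_ (fun i => ?_) i <;> simp)
  right_inv a := rfl

theorem card_frames (hp : p.Prime) {ζ : ℂˣ} (hζ : IsPrimitiveRoot ζ p) :
    ∀ (m : ℕ) {V : Type} [CommGroup V] [Finite V] (P : Pairing V), (∀ v : V, v ^ p = 1) →
      Nat.card V = p ^ (2 * m) → Nat.card (Frames ζ P m) = symOrder p m := by
  intro m
  induction m with
  | zero =>
      intro V _ _ P _ _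
      have : Unique (Frames ζ P 0) :=
        { default := ⟨fun i => i.elim0, fun i => i.elim0⟩
          uniq := fun s => Subtype.ext (funext fun i => i.elim0) }
      simp [symOrder]
  | succ m ih =>
      intro V _ _ P hexp hV
      classical
      have := Fintype.ofFinite V
      let pl : ∀ a : Σ x : {x : V // x ≠ 1}, {y // P.e x.1 y = ζ},
          Subgroup.closure {a.1.1, a.2.1} ⊓ P.perp (Subgroup.closure {a.1.1, a.2.1}) = ⊥ :=
        fun a => (plane P hp hζ hexp a.2.2).1
      rw [Nat.card_congr (framesSuccEquiv ζ P m pl (hζ.ne_one hp.one_lt)), Nat.card_sigma,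
        Finset.sum_const_nat (m := symOrder p m) (fun a _ => ?_), Finset.card_univ,
        ← Nat.card_eq_fintype_card, Nat.card_sigma,
        Finset.sum_const_nat (m := p ^ (2 * m + 1)) (fun x _ => ?_), Finset.card_univ,
        Fintype.card_subtype_compl, Fintype.card_subtype_eq, ← Nat.card_eq_fintype_card, hV]
      · rw [symOrder, symOrder, Finset.prod_range_succ, mul_comm]
      · refine Nat.eq_of_mul_eq_mul_right hp.pos ?_
        rw [card_level P hp hζ hexp x.2, hV, ← pow_succ]
        ring_nf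
      · refine ih _ (fun v => Subtype.ext (hexp v)) ?_
        have h := P.card_split (pl a)
        rw [(plane P hp hζ hexp a.2.2).2, hV, show 2 * (m + 1) = 2 + 2 * m by ring, pow_add] at h
        exact Nat.eq_of_mul_eq_mul_left (pow_pos hp.pos 2) h

theorem closure_frame (hp : p.Prime) {ζ : ℂˣ} (hζ : IsPrimitiveRoot ζ p) :
    ∀ (m : ℕ) {V : Type} [CommGroup V] [Finite V] (P : Pairing V), (∀ v : V, v ^ p = 1) →
      Nat.card V = p ^ (2 * m) → ∀ (s : Frames ζ P m) (L : Subgroup V),
      (∀ i, (s.1 i).1 ∈ L ∧ (s.1 i).2 ∈ L) → L = ⊤ := by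
  intro m
  induction m with
  | zero =>
      intro V _ _ P _ hV s L _
      refine Subgroup.eq_top_of_card_eq L (le_antisymm (Subgroup.card_le_card_group L) ?_)
      rw [hV]
      exact Nat.card_pos
  | succ m ih =>
      intro V _ _ P hexp hV s L hL
      let pl : ∀ a : Σ x : {x : V // x ≠ 1}, {y // P.e x.1 y = ζ},
          Subgroup.closure {a.1.1, a.2.1} ⊓ P.perp (Subgroup.closure {a.1.1, a.2.1}) = ⊥ :=
        fun a => (plane P hp hζ hexp a.2.2).1
      let a := framesSuccEquiv ζ P m pl (hζ.ne_one hp.one_lt) s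
      have h := P.card_split (pl a.1)
      rw [(plane P hp hζ hexp a.1.2.2).2, hV, show 2 * (m + 1) = 2 + 2 * m by ring, pow_add] at h
      have htop := ih _ (fun v => Subtype.ext (hexp v)) (Nat.eq_of_mul_eq_mul_left (pow_pos hp.pos 2) h)
        a.2 (L.subgroupOf _) (fun i => ⟨(hL i.succ).1, (hL i.succ).2⟩)
      rw [Subgroup.subgroupOf_eq_top] at htop
      refine (Subgroup.eq_top_iff' L).2 fun v => ?_
      obtain ⟨⟨w, u⟩, rfl⟩ := (P.split_bijective (pl a.1)).2 v
      refine mul_mem ?_ (htop u.2)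
      refine (Subgroup.closure_le L).2 ?_ w.2
      rintro z (rfl | hz)
      · exact (hL 0).1
      · rw [Set.mem_singleton_iff.1 hz]
        exact (hL 0).2

theorem card_dvd_of_free {X α : Type*} [Group X] [Finite X] [MulAction X α] [Finite α]
    (h : ∀ a : α, MulAction.stabilizer X a = ⊥) : Nat.card X ∣ Nat.card α := by
  classical
  have := Fintype.ofFinite (Quotient (MulAction.orbitRel X α))
  rw [Nat.card_congr (MulAction.selfEquivSigmaOrbitsQuotientStabilizer X α), Nat.card_sigma]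
  refine Finset.dvd_sum fun ω _ => ?_
  rw [h, ← Subgroup.index_eq_card, Subgroup.index_bot]

/-- A group of isometries has order dividing that of the symplectic group. -/
theorem card_dvd_symOrder (hp : p.Prime) (hexp : ∀ v : V, v ^ p = 1) {m : ℕ}
    (hV : Nat.card V = p ^ (2 * m)) {X : Type} [Group X] [Finite X] (φ : X →* MulAut V)
    (hφ : P.Preserves φ) (hinj : Function.Injective φ) : Nat.card X ∣ symOrder p m := by
  obtain ⟨ζ, hζ⟩ := exists_unit_root hp
  rw [← card_frames hp hζ m P hexp hV]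
  let : MulAction X (Frames ζ P m) :=
    { smul := fun x s => ⟨fun i => (φ x (s.1 i).1, φ x (s.1 i).2), fun i j => by
        simp only [hφ x]; exact s.2 i j⟩
      one_smul := fun s => Subtype.ext (funext fun i => Prod.ext
        (DFunLike.congr_fun (map_one φ) _) (DFunLike.congr_fun (map_one φ) _))
      mul_smul := fun x y s => Subtype.ext (funext fun i => Prod.ext
        (DFunLike.congr_fun (map_mul φ x y) _) (DFunLike.congr_fun (map_mul φ x y) _)) }
  refine card_dvd_of_free fun s => (Subgroup.eq_bot_iff_forall _).2 fun x hx => hinj ?_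
  have htop := closure_frame hp hζ m P hexp hV s
    (MonoidHom.eqLocus (φ x).toMonoidHom (MonoidHom.id V)) fun i => by
      have h := congrArg (fun t : Frames ζ P m => t.1 i) (MulAction.mem_stabilizer_iff.1 hx)
      exact ⟨congrArg Prod.fst h, congrArg Prod.snd h⟩
  rw [map_one]
  ext v
  exact (htop ▸ Subgroup.mem_top v : v ∈ MonoidHom.eqLocus (φ x).toMonoidHom (MonoidHom.id V))

end Frames

end Cfsg.Agent.H21.LinClasses
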