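import Mathlib.GroupTheory.CommutingProbability
import Mathlib.GroupTheory.QuotientGroup.Basic

/-!
`KB X n`: every subgroup of `X` has at most `n` conjugacy classes, and its calculus.
-/

namespace Cfsg.Agent.H21.LinClasses

/-- Every subgroup of `X` has at most `n` conjugacy classes. -/
def KB (X : Type*) [Group X] (n : ℕ) : Prop :=
  ∀ Y : Subgroup X, Nat.card (ConjClasses Y) ≤ n

variable {X : Type*} [Group X]

theorem card_conjClasses_le_card (X : Type*) [Group X] [Finite X] :
    Nat.card (ConjClasses X) ≤ Nat.card X :=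
  Nat.card_le_card_of_surjective ConjClasses.mk ConjClasses.mk_surjective

theorem card_conjClasses_of_surjective {Q : Type*} [Group Q] [Finite X] (f : X →* Q)
    (hf : Function.Surjective f) : Nat.card (ConjClasses Q) ≤ Nat.card (ConjClasses X) :=
  Nat.card_le_card_of_surjective (ConjClasses.map f) (ConjClasses.map_surjective hf)

/-- Class numbers along a homomorphism: `k(X) ≤ k(ker f) k(f X)`. -/
theorem card_conjClasses_le_ker_mul_range {Q : Type*} [Group Q] [Finite X] (f : X →* Q) :
    Nat.card (ConjClasses X) ≤ Nat.card (ConjClasses f.ker) * Nat.card (ConjClasses f.range) := by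
  classical
  have := Fintype.ofFinite X
  have : Finite f.range := Finite.of_surjective f.rangeRestrict f.rangeRestrict_surjective
  have := Fintype.ofFinite f.range
  let N := f.ker
  -- commuting pairs of `X` inside a given pair of cosets
  have key : ∀ a b : f.range,
      Nat.card {p : X × X // f.rangeRestrict p.1 = a ∧ f.rangeRestrict p.2 = b ∧ Commute p.1 p.2} ≤
        Nat.card {p : N × N // Commute p.1 p.2} := by
    intro a b
    -- first bound by pairs `(x, n)` with `x` in the coset `a`, `n` in `N`
    have h1 : Nat.card {p : X × X // f.rangeRestrict p.1 = a ∧ f.rangeRestrict p.2 = b ∧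
        Commute p.1 p.2} ≤ Nat.card {p : X × N // f.rangeRestrict p.1 = a ∧ Commute p.1 (p.2 : X)} := by
      by_cases hex : ∀ x : X, ∃ y : X, (∃ z, f.rangeRestrict z = b ∧ Commute x z) →
          f.rangeRestrict y = b ∧ Commute x y
      · choose y hy using hex
        refine Nat.card_le_card_of_injective (fun p => ⟨(p.1.1, ⟨(y p.1.1)⁻¹ * p.1.2, ?_⟩), p.2.1, ?_⟩) ?_
        · have h'' : f p.1.2 = f (y p.1.1) := congrArg Subtype.val
            (p.2.2.1.trans (hy p.1.1 ⟨p.1.2, p.2.2.1, p.2.2.2⟩).1.symm)
          simp [N, MonoidHom.mem_ker, h'']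
        · exact ((hy p.1.1 ⟨p.1.2, p.2.2.1, p.2.2.2⟩).2.inv_right).mul_right p.2.2.2
        · rintro ⟨⟨x, z⟩, hp⟩ ⟨⟨x', z'⟩, hp'⟩ h
          simp only [Subtype.mk.injEq, Prod.mk.injEq] at h
          obtain ⟨rfl, h⟩ := h
          exact Subtype.ext (Prod.ext rfl (mul_left_cancel h))
      · refine absurd (fun x => ?_) hex
        by_cases h : ∃ z, f.rangeRestrict z = b ∧ Commute x z
        · exact ⟨h.choose, fun _ => h.choose_spec⟩
        · exact ⟨1, fun h' => absurd h' h⟩
    -- then by commuting pairs of `N`
    refine h1.trans ?_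
    have hn : ∀ n : N, ∃ x : X, (∃ z, f.rangeRestrict z = a ∧ Commute z (n : X)) →
        f.rangeRestrict x = a ∧ Commute x (n : X) := fun n => by
      by_cases h : ∃ z, f.rangeRestrict z = a ∧ Commute z (n : X)
      · exact ⟨h.choose, fun _ => h.choose_spec⟩
      · exact ⟨1, fun h' => absurd h' h⟩
    choose x hx using hn
    refine Nat.card_le_card_of_injective
      (fun p => ⟨(⟨(x p.1.2)⁻¹ * p.1.1, ?_⟩, p.1.2), ?_⟩) ?_
    · have h'' : f p.1.1 = f (x p.1.2) := congrArg Subtype.val
        (p.2.1.trans (hx p.1.2 ⟨p.1.1, p.2.1, p.2.2⟩).1.symm)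
      simp [N, MonoidHom.mem_ker, h'']
    · exact Subtype.ext (((hx p.1.2 ⟨p.1.1, p.2.1, p.2.2⟩).2.inv_left).mul_left p.2.2).eq
    · rintro ⟨⟨z, n⟩, hp⟩ ⟨⟨z', n'⟩, hp'⟩ h
      have h2 : n = n' := congrArg (fun q => q.1.2) h
      subst h2
      have h1 : (x n)⁻¹ * z = (x n)⁻¹ * z' := congrArg (fun q => (q.1.1 : X)) h
      exact Subtype.ext (Prod.ext (mul_left_cancel h1) rfl)
  have hfib : Nat.card {p : X × X // Commute p.1 p.2} ≤
      Nat.card {q : f.range × f.range // Commute q.1 q.2} * Nat.card {p : N × N // Commute p.1 p.2} := by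
    let g : {p : X × X // Commute p.1 p.2} → {q : f.range × f.range // Commute q.1 q.2} :=
      fun p => ⟨(f.rangeRestrict p.1.1, f.rangeRestrict p.1.2), p.2.map f.rangeRestrict⟩
    rw [← Nat.card_congr (Equiv.sigmaFiberEquiv g), Nat.card_sigma]
    refine (Finset.sum_le_card_nsmul _ _ _ (fun q _ => ?_)).trans
      (by rw [Finset.card_univ, ← Nat.card_eq_fintype_card, smul_eq_mul])
    refine le_trans ?_ (key q.1.1 q.1.2)
    refine Nat.card_le_card_of_injective
      (fun p => ⟨p.1.1, congrArg (fun r => r.1.1) p.2, congrArg (fun r => r.1.2) p.2, p.1.2⟩) ?_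
    intro p p' h
    simp only [Subtype.mk.injEq] at h
    exact Subtype.ext (Subtype.ext h)
  rw [card_comm_eq_card_conjClasses_mul_card, card_comm_eq_card_conjClasses_mul_card,
    card_comm_eq_card_conjClasses_mul_card] at hfib
  have hcard : Nat.card X = Nat.card f.range * Nat.card N := by
    rw [← Subgroup.index_ker, mul_comm]
    exact f.ker.card_mul_index.symm
  rw [hcard] at hfib
  have hpos : 0 < Nat.card f.range * Nat.card N := Nat.mul_pos Nat.card_pos Nat.card_pos
  refine Nat.le_of_mul_le_mul_right ?_ hpos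
  calc Nat.card (ConjClasses X) * (Nat.card f.range * Nat.card N) ≤ _ := hfib
    _ = _ := by ring

/-- A nonabelian group has at most `5/8` as many classes as elements. -/
theorem eight_mul_card_conjClasses_le [Finite X] (h : ¬ IsMulCommutative X) :
    8 * Nat.card (ConjClasses X) ≤ 5 * Nat.card X := by
  classical
  have := Fintype.ofFinite X
  set Z := Subgroup.center X
  have hne : ¬ IsCyclic (X ⧸ Z) := fun hc => h
    ⟨⟨commutative_of_cyclic_center_quotient (QuotientGroup.mk' Z) (by rw [QuotientGroup.ker_mk'])⟩⟩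
  have hidx : 4 ≤ Z.index := by
    by_contra hlt
    rw [not_le, Subgroup.index_eq_card] at hlt
    apply hne
    interval_cases hk : Nat.card (X ⧸ Z)
    · exact absurd hk Nat.card_pos.ne'
    · have := (Nat.card_eq_one_iff_unique.1 hk).1
      exact isCyclic_of_subsingleton
    · exact isCyclic_of_prime_card (p := 2) hk
    · exact isCyclic_of_prime_card (p := 3) hk
  have hsum : Nat.card {p : X × X // Commute p.1 p.2} =
      ∑ x : X, Nat.card (Subgroup.centralizer ({x} : Set X)) := by
    rw [← Nat.card_sigma]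
    exact Nat.card_congr ⟨fun p => ⟨p.1.1, p.1.2, Subgroup.mem_centralizer_singleton_iff.2 p.2.eq.symm⟩,
      fun s => ⟨(s.1, s.2.1), (Subgroup.mem_centralizer_singleton_iff.1 s.2.2).symm⟩,
      fun p => rfl, fun s => rfl⟩
  have hle : ∀ x : X, 2 * Nat.card (Subgroup.centralizer ({x} : Set X)) ≤
      Nat.card X + (if x ∈ Z then Nat.card X else 0) := by
    intro x
    by_cases hx : x ∈ Z
    · rw [if_pos hx]
      have := Subgroup.card_le_card_group (Subgroup.centralizer ({x} : Set X))
      omega
    · rw [if_neg hx, Nat.add_zero]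
      have hi : 1 < (Subgroup.centralizer ({x} : Set X)).index := by
        refine Subgroup.one_lt_index_of_ne_top fun htop => hx ?_
        rw [Subgroup.centralizer_eq_top_iff_subset] at htop
        exact htop rfl
      calc 2 * Nat.card (Subgroup.centralizer ({x} : Set X))
          ≤ (Subgroup.centralizer ({x} : Set X)).index * Nat.card (Subgroup.centralizer ({x} : Set X)) :=
            Nat.mul_le_mul_right _ hi
        _ = Nat.card X := Subgroup.index_mul_card _
  have hall := Finset.sum_le_sum (fun x (_ : x ∈ (Finset.univ : Finset X)) => hle x)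
  rw [← Finset.mul_sum, ← hsum, card_comm_eq_card_conjClasses_mul_card, Finset.sum_add_distrib,
    Finset.sum_const, ← Finset.sum_filter, Finset.sum_const, Finset.card_univ, smul_eq_mul,
    smul_eq_mul, ← Nat.card_eq_fintype_card] at hall
  have hZ : (Finset.univ.filter (fun x => x ∈ Z)).card = Nat.card Z := by
    rw [← Fintype.card_subtype, ← Nat.card_eq_fintype_card]
  rw [hZ] at hall
  have hXZ : 4 * Nat.card Z ≤ Nat.card X := by
    rw [← Z.index_mul_card]
    exact Nat.mul_le_mul_right _ hidx
  have hX : 0 < Nat.card X := Nat.card_pos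
  refine Nat.le_of_mul_le_mul_right ?_ hX
  calc 8 * Nat.card (ConjClasses X) * Nat.card X = 4 * (2 * (Nat.card (ConjClasses X) * Nat.card X)) := by ring
    _ ≤ 4 * (Nat.card X * Nat.card X + Nat.card Z * Nat.card X) := Nat.mul_le_mul_left _ hall
    _ = 4 * Nat.card X * Nat.card X + (4 * Nat.card Z) * Nat.card X := by ring
    _ ≤ 4 * Nat.card X * Nat.card X + Nat.card X * Nat.card X := by
        exact Nat.add_le_add_left (Nat.mul_le_mul_right _ hXZ) _
    _ = 5 * Nat.card X * Nat.card X := by ring

namespace KB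

variable {Q : Type*} [Group Q] {a b n : ℕ}

theorem mono (h : KB X a) (hab : a ≤ b) : KB X b := fun Y => (h Y).trans hab

theorem of_card_le [Finite X] (h : Nat.card X ≤ n) : KB X n := fun Y =>
  (card_conjClasses_le_card Y).trans ((Subgroup.card_le_card_group Y).trans h)

theorem pos (h : KB X n) [Finite X] : 0 < n :=
  lt_of_lt_of_le Nat.card_pos (h ⊤)

theorem of_injective (f : X →* Q) (hf : Function.Injective f) (h : KB Q n) : KB X n := fun Y => by
  rw [Nat.card_congr (Equiv.ofBijective
    (ConjClasses.map (Y.equivMapOfInjective f hf).toMonoidHom) ?_)]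
  · exact h _
  · refine ⟨fun c d hcd => ?_, ConjClasses.map_surjective (Y.equivMapOfInjective f hf).surjective⟩
    obtain ⟨c, rfl⟩ := ConjClasses.exists_rep c
    obtain ⟨d, rfl⟩ := ConjClasses.exists_rep d
    change ConjClasses.mk _ = ConjClasses.mk _ at hcd
    rw [ConjClasses.mk_eq_mk_iff_isConj] at hcd ⊢
    have h' := MonoidHom.map_isConj (Y.equivMapOfInjective f hf).symm.toMonoidHom hcd
    simpa using h'

theorem of_surjective [Finite X] (f : X →* Q) (hf : Function.Surjective f) (h : KB X n) :
    KB Q n := fun Y => by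
  refine le_trans ?_ (h (Y.comap f))
  refine card_conjClasses_of_surjective (f.subgroupComap Y) ?_
  rintro ⟨y, hy⟩
  obtain ⟨x, rfl⟩ := hf y
  exact ⟨⟨x, hy⟩, rfl⟩

theorem of_ker [Finite X] (f : X →* Q) (hN : KB f.ker a) (hQ : KB Q b) : KB X (a * b) := fun Y => by
  refine (card_conjClasses_le_ker_mul_range (f.comp Y.subtype)).trans (Nat.mul_le_mul ?_ (hQ _))
  let g : (f.comp Y.subtype).ker →* f.ker :=
    (Y.subtype.comp (f.comp Y.subtype).ker.subtype).codRestrict f.ker fun y => y.2
  have hg : Function.Injective g := fun y y' h => by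
    have := congrArg Subtype.val h
    exact Subtype.ext (Subtype.ext this)
  exact (of_injective g hg hN ⊤).trans' (card_conjClasses_of_surjective
    Subgroup.topEquiv.toMonoidHom Subgroup.topEquiv.surjective)

theorem prod [Finite X] [Finite Q] (hX : KB X a) (hQ : KB Q b) : KB (X × Q) (a * b) := by
  refine of_ker (MonoidHom.snd X Q) ?_ hQ
  refine of_injective ((MonoidHom.fst X Q).comp (MonoidHom.snd X Q).ker.subtype) ?_ hX
  intro p p' h
  exact Subtype.ext (Prod.ext h ((MonoidHom.mem_ker.1 p.2).trans (MonoidHom.mem_ker.1 p'.2).symm))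

/-- Classes of a group with an injection into a finite product. -/
theorem of_pi {ι : Type*} {Q : ι → Type*} [∀ i, Group (Q i)] [∀ i, Finite (Q i)] {a : ι → ℕ}
    (s : Finset ι) : ∀ {X : Type*} [Group X] [Finite X] (f : ∀ i, X →* Q i),
      (∀ i ∈ s, KB (f i).range (a i)) → (∀ x, (∀ i ∈ s, f i x = 1) → x = 1) →
      KB X (∏ i ∈ s, a i) := by
  classical
  induction s using Finset.induction_on with
  | empty =>
      intro X _ _ f _ h
      refine of_card_le ?_
      have : Subsingleton X := ⟨fun x y => by rw [h x (by simp), h y (by simp)]⟩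
      simpa using Finite.card_le_one_iff_subsingleton.2 this
  | insert i s his ih =>
      intro X _ _ f hK h
      rw [Finset.prod_insert his, mul_comm]
      refine of_ker (f i).rangeRestrict ?_ (hK i (Finset.mem_insert_self i s))
      rw [MonoidHom.ker_rangeRestrict]
      refine ih (fun j => (f j).comp (f i).ker.subtype) (fun j hj => ?_) ?_
      · refine of_injective (Subgroup.inclusion ?_) (Subgroup.inclusion_injective _)
          (hK j (Finset.mem_insert_of_mem hj))
        rintro y ⟨x, rfl⟩
        exact ⟨x, rfl⟩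
      · intro x hx
        refine Subtype.ext (h x fun j hj => ?_)
        rcases Finset.mem_insert.1 hj with rfl | hj
        · exact x.2
        · exact hx j hj

end KB

end Cfsg.Agent.H21.LinClasses
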