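import Cfsg.Agent.H21.LinClasses.Central
import Mathlib.LinearAlgebra.Eigenspace.Pi
import Mathlib.LinearAlgebra.Eigenspace.Semisimple
import Mathlib.LinearAlgebra.Eigenspace.Triangularizable
import Mathlib.LinearAlgebra.DirectSum.Finsupp
import Mathlib.LinearAlgebra.Dimension.Constructions
import Mathlib.FieldTheory.Separable
import Mathlib.Analysis.Complex.Polynomial.Basic
import Mathlib.LinearAlgebra.Matrix.GeneralLinearGroup.Defs

/-!
`k(H F(G) / F(G)) ≤ 3 ^ (r - 1)` for finite solvable subgroups `G` of `GL_r(ℂ)`.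
-/

namespace Cfsg.Agent.H21.LinClasses

attribute [local instance] H19.fitting_normal

open Module

/-- The general statement. -/
theorem kb_linear : ∀ (r : ℕ) (M : Type) [AddCommGroup M] [Module ℂ M] [FiniteDimensional ℂ M]
    (G : Type) [Group G] [Finite G] [Group.IsSolvable G] (ρ : G →* (M ≃ₗ[ℂ] M)),
    Function.Injective ρ → Module.finrank ℂ M = r → 1 ≤ r →
    KB (G ⧸ Cfsg.fittingSubgroup G) (3 ^ (r - 1)) := by
  classical
  intro r
  induction r using Nat.strong_induction_on with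
  | _ r ih =>
  intro M _ _ _ G _ _ _ ρ hρ hdim hr
  have hM : Nontrivial M := Module.nontrivial_of_finrank_pos (R := ℂ) (by omega)
  by_cases hA : ∀ A : Subgroup G, A.Normal → IsMulCommutative A → ∀ a ∈ A, ∃ c : ℂ, ∀ v, ρ a v = c • v
  · exact hdim ▸ kb_linear_central ρ hρ hA
  push Not at hA
  obtain ⟨A, hAn, hAc, a₀, ha₀, hns⟩ := hA
  let f : A → Module.End ℂ M := fun a => (ρ (a : G)).toLinearMap
  have hcomm : ∀ a b : A, Commute (f a) (f b) := fun a b => by
    have h := congrArg (fun z : A => (ρ (z : G)).toLinearMap) (mul_comm' a b)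
    simp only [Subgroup.coe_mul, map_mul] at h
    exact h
  have hss : ∀ a, (f a).IsSemisimple := by
    intro a
    have hn : orderOf (a : G) ≠ 0 := (orderOf_pos (a : G)).ne'
    refine Module.End.isSemisimple_of_squarefree_aeval_eq_zero
      (p := Polynomial.X ^ orderOf (a : G) - 1)
      ((Polynomial.X_pow_sub_one_separable_iff.2 (Nat.cast_ne_zero.2 hn)).squarefree) ?_
    rw [map_sub, map_pow, Polynomial.aeval_X, map_one, sub_eq_zero]
    have hpow : ∀ k, f a ^ k = (ρ ((a : G) ^ k)).toLinearMap := by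
      intro k
      induction k with
      | zero => simp; rfl
      | succ k ihk => rw [pow_succ, pow_succ, map_mul, ihk]; rfl
    rw [hpow, pow_orderOf_eq_one, map_one]
    rfl
  have hgen : ∀ a μ, (f a).maxGenEigenspace μ = (f a).eigenspace μ := fun a μ =>
    (hss a).isFinitelySemisimple.maxGenEigenspace_eq_eigenspace μ
  have hind : iSupIndep fun χ : A → ℂ => ⨅ a, (f a).maxGenEigenspace (χ a) :=
    Module.End.independent_iInf_maxGenEigenspace_of_forall_mapsTo f fun i j φ =>
      Module.End.mapsTo_maxGenEigenspace_of_comm (hcomm j i) φ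
  have htop : ⨆ χ : A → ℂ, ⨅ a, (f a).maxGenEigenspace (χ a) = ⊤ :=
    Module.End.iSup_iInf_maxGenEigenspace_eq_top_of_iSup_maxGenEigenspace_eq_top_of_commute f
      (fun i j _ => hcomm i j) fun a => Module.End.iSup_maxGenEigenspace_eq_top (f a)
  simp only [hgen] at hind htop
  let W : (A → ℂ) → Submodule ℂ M := fun χ => ⨅ a, (f a).eigenspace (χ a)
  have hW : ∀ χ v, v ∈ W χ ↔ ∀ a : A, ρ (a : G) v = χ a • v := fun χ v => by
    simp [W, Submodule.mem_iInf, Module.End.mem_eigenspace_iff, f]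
  let Ω := {χ : A → ℂ // W χ ≠ ⊥}
  let : Fintype Ω := hind.fintypeNeBotOfFiniteDimensional
  have hindΩ : iSupIndep fun ω : Ω => W ω.1 := hind.comp Subtype.val_injective
  have htopΩ : ⨆ ω : Ω, W ω.1 = ⊤ := by
    rw [← htop]
    refine le_antisymm (iSup_le fun ω => le_iSup W ω.1) (iSup_le fun χ => ?_)
    by_cases h : W χ = ⊥
    · exact h.le.trans bot_le
    · exact le_iSup (fun ω : Ω => W ω.1) ⟨χ, h⟩
  have hsum : ∑ ω : Ω, Module.finrank ℂ (W ω.1) = r := by
    have hint := DirectSum.isInternal_submodule_of_iSupIndep_of_iSup_eq_top hindΩ htopΩ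
    rw [← hdim, ← (LinearEquiv.ofBijective (DirectSum.coeLinearMap fun ω : Ω => W ω.1) hint).finrank_eq,
      Module.finrank_directSum]
  have hpos : ∀ ω : Ω, 1 ≤ Module.finrank ℂ (W ω.1) := fun ω => Submodule.one_le_finrank_iff.2 ω.2
  have htwo : 2 ≤ Fintype.card Ω := by
    by_contra h
    rw [not_le] at h
    have hne : Nonempty Ω := by
      by_contra he
      rw [not_nonempty_iff] at he
      rw [iSup_of_empty] at htopΩ
      exact bot_ne_top htopΩ
    obtain ⟨ω⟩ := hne
    have : Subsingleton Ω := Fintype.card_le_one_iff_subsingleton.1 (by omega)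
    have hWtop : W ω.1 = ⊤ := by
      rw [← htopΩ]
      exact le_antisymm (le_iSup (fun ω : Ω => W ω.1) ω) (iSup_le fun ω' => by rw [Subsingleton.elim ω' ω])
    obtain ⟨v, hv⟩ := hns (ω.1 ⟨a₀, ha₀⟩)
    exact hv ((hW ω.1 v).1 (hWtop ▸ Submodule.mem_top) ⟨a₀, ha₀⟩)
  -- the action on the components
  let tw : G → (A → ℂ) → (A → ℂ) := fun g χ a => χ ⟨g⁻¹ * a * g, by
    simpa using hAn.conj_mem a a.2 g⁻¹⟩
  have htwW : ∀ g χ v, v ∈ W χ → ρ g v ∈ W (tw g χ) := by
    intro g χ v hv
    rw [hW] at hv ⊢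
    intro a
    have h := hv ⟨g⁻¹ * a * g, by simpa using hAn.conj_mem a a.2 g⁻¹⟩
    rw [← LinearEquiv.mul_apply, ← map_mul, show (a : G) * g = g * (g⁻¹ * a * g) by group, map_mul,
      LinearEquiv.mul_apply, h, map_smul]
  have htwne : ∀ g χ, W χ ≠ ⊥ → W (tw g χ) ≠ ⊥ := by
    intro g χ h hb
    obtain ⟨v, hv, hv0⟩ := Submodule.exists_mem_ne_zero_of_ne_bot h
    have h' := htwW g χ v hv
    rw [hb, Submodule.mem_bot, LinearEquiv.map_eq_zero_iff] at h'
    exact hv0 h'
  have htwone : ∀ χ, tw 1 χ = χ := fun χ => funext fun a => congrArg χ (Subtype.ext (by simp))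
  have htwmul : ∀ g h χ, tw (g * h) χ = tw g (tw h χ) := fun g h χ =>
    funext fun a => congrArg χ (Subtype.ext (by simp [mul_assoc]))
  let toPerm : G →* Equiv.Perm Ω :=
    { toFun := fun g =>
        { toFun := fun ω => ⟨tw g ω.1, htwne g _ ω.2⟩
          invFun := fun ω => ⟨tw g⁻¹ ω.1, htwne g⁻¹ _ ω.2⟩
          left_inv := fun ω => Subtype.ext (by
            change tw g⁻¹ (tw g ω.1) = ω.1
            rw [← htwmul, inv_mul_cancel, htwone])
          right_inv := fun ω => Subtype.ext (by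
            change tw g (tw g⁻¹ ω.1) = ω.1
            rw [← htwmul, mul_inv_cancel, htwone]) }
      map_one' := Equiv.ext fun ω => Subtype.ext (htwone _)
      map_mul' := fun g h => Equiv.ext fun ω => Subtype.ext (htwmul g h _) }
  set K := toPerm.ker with hKdef
  have hKW : ∀ (k : K) (ω : Ω) v, v ∈ W ω.1 → ρ (k : G) v ∈ W ω.1 := by
    intro k ω v hv
    have h := congrArg (fun e : Equiv.Perm Ω => (e ω).1) (MonoidHom.mem_ker.1 k.2)
    change tw (k : G) ω.1 = ω.1 at h
    exact h ▸ htwW (k : G) ω.1 v hv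
  let res : ∀ ω : Ω, K →* (W ω.1 ≃ₗ[ℂ] W ω.1) := fun ω =>
    { toFun := fun k =>
        { toFun := fun v => ⟨ρ (k : G) v, hKW k ω v v.2⟩
          invFun := fun v => ⟨ρ ((k⁻¹ : K) : G) v, hKW k⁻¹ ω v v.2⟩
          map_add' := fun x y => Subtype.ext (map_add _ _ _)
          map_smul' := fun c x => Subtype.ext (map_smul _ _ _)
          left_inv := fun v => Subtype.ext (by
            change ρ ((k⁻¹ : K) : G) (ρ (k : G) v) = v
            rw [← LinearEquiv.mul_apply, ← map_mul, ← Subgroup.coe_mul, inv_mul_cancel, OneMemClass.coe_one,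
              map_one]; rfl)
          right_inv := fun v => Subtype.ext (by
            change ρ (k : G) (ρ ((k⁻¹ : K) : G) v) = v
            rw [← LinearEquiv.mul_apply, ← map_mul, ← Subgroup.coe_mul, mul_inv_cancel, OneMemClass.coe_one,
              map_one]; rfl) }
      map_one' := LinearEquiv.ext fun v => Subtype.ext (by
        change ρ ((1 : K) : G) v = v
        rw [OneMemClass.coe_one, map_one]; rfl)
      map_mul' := fun k l => LinearEquiv.ext fun v => Subtype.ext (by
        change ρ ((k * l : K) : G) v = ρ (k : G) (ρ (l : G) v)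
        rw [Subgroup.coe_mul, map_mul]; rfl) }
  have hjoint : ∀ k : K, (∀ ω, res ω k = 1) → k = 1 := by
    intro k hk
    refine Subtype.ext (hρ ?_)
    rw [OneMemClass.coe_one, map_one]
    refine LinearEquiv.toLinearMap_injective (LinearMap.ext fun v => ?_)
    have hle : (⊤ : Submodule ℂ M) ≤ LinearMap.eqLocus (ρ (k : G)).toLinearMap LinearMap.id := by
      rw [← htopΩ]
      exact iSup_le fun ω w hw => congrArg (fun e : W ω.1 ≃ₗ[ℂ] W ω.1 => (e ⟨w, hw⟩ : M)) (hk ω)
    exact hle (Submodule.mem_top (x := v))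
  have hlt : ∀ ω : Ω, Module.finrank ℂ (W ω.1) < r := by
    intro ω
    obtain ⟨ω', hω'⟩ := Fintype.exists_ne_of_one_lt_card (by omega) ω
    have h1 := Finset.add_sum_erase Finset.univ (fun ω : Ω => Module.finrank ℂ (W ω.1)) (Finset.mem_univ ω)
    have h2 := Finset.single_le_sum (f := fun ω : Ω => Module.finrank ℂ (W ω.1)) (fun _ _ => Nat.zero_le _)
      (Finset.mem_erase.2 ⟨hω', Finset.mem_univ ω'⟩)
    have h3 := hpos ω'
    rw [← hsum, ← h1]
    omega
  have hsolv : ∀ ω, Group.IsSolvable (res ω).range := fun ω =>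
    Group.isSolvable_of_surjective (res ω).rangeRestrict_surjective
  have hfin : ∀ ω, Finite (res ω).range := fun ω => Finite.of_surjective _ (res ω).rangeRestrict_surjective
  let ψ : ∀ ω, K →* (res ω).range ⧸ Cfsg.fittingSubgroup (res ω).range := fun ω =>
    (QuotientGroup.mk' _).comp (res ω).rangeRestrict
  let L : Subgroup K := ⨅ ω, (ψ ω).ker
  have hLn : L.Normal := Subgroup.normal_iInf_normal fun ω => inferInstance
  have hψL : ∀ ω, L ≤ (ψ ω).ker := fun ω => iInf_le _ ω
  have hKL : KB (K ⧸ L) (∏ ω ∈ (Finset.univ : Finset Ω), 3 ^ (Module.finrank ℂ (W ω.1) - 1)) := by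
    refine KB.of_pi Finset.univ (fun ω => QuotientGroup.lift L (ψ ω) (hψL ω)) (fun ω _ => ?_) ?_
    · exact KB.of_injective (Subgroup.subtype _) (Subgroup.subtype_injective _)
        (ih _ (hlt ω) (W ω.1) (res ω).range (res ω).range.subtype (Subgroup.subtype_injective _) rfl (hpos ω))
    · intro x hx
      induction x using QuotientGroup.induction_on with
      | _ k =>
        rw [QuotientGroup.eq_one_iff, Subgroup.mem_iInf]
        exact fun ω => MonoidHom.mem_ker.2 (hx ω (Finset.mem_univ ω))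
  have hLF : ∀ k ∈ L, (k : G) ∈ Cfsg.fittingSubgroup G := by
    have hLnil : Group.IsNilpotent L := by
      let η : L →* ∀ ω, Cfsg.fittingSubgroup (res ω).range := Pi.monoidHom fun ω =>
        ((res ω).rangeRestrict.comp L.subtype).codRestrict _ fun k =>
          (QuotientGroup.eq_one_iff _).1 (MonoidHom.mem_ker.1 (hψL ω k.2))
      have : ∀ ω, Group.IsNilpotent (Cfsg.fittingSubgroup (res ω).range) := fun ω => H19.fitting_isNilpotent
      refine Subgroup.isNilpotent_of_ker_le_center η fun k hk => ?_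
      have hk1 : k = 1 := Subtype.ext (hjoint (k : K) fun ω => by
        have h := congrFun (MonoidHom.mem_ker.1 hk) ω
        exact congrArg (fun z : Cfsg.fittingSubgroup (res ω).range => ((z : (res ω).range) : W ω.1 ≃ₗ[ℂ] W ω.1)) h)
      rw [hk1]
      exact one_mem _
    have hle := H19.le_fitting hLn hLnil
    intro k hk
    exact H19.map_fitting_le K ⟨k, hle hk, rfl⟩
  -- assembling
  set F := Cfsg.fittingSubgroup G
  set q := QuotientGroup.mk' F with hqdef
  have hN : (K.map q).Normal := Subgroup.Normal.map inferInstance q (QuotientGroup.mk'_surjective F)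
  have hker : KB (QuotientGroup.mk' (K.map q)).ker (∏ ω ∈ (Finset.univ : Finset Ω), 3 ^ (Module.finrank ℂ (W ω.1) - 1)) := by
    rw [QuotientGroup.ker_mk']
    refine KB.of_surjective (QuotientGroup.lift L
      ((q.comp K.subtype).codRestrict (K.map q) fun k => ⟨k, k.2, rfl⟩) fun k hk => ?_) ?_ hKL
    · exact MonoidHom.mem_ker.2 (Subtype.ext ((QuotientGroup.eq_one_iff (k : G)).2 (hLF k hk)))
    · rintro ⟨_, k, hk, rfl⟩
      exact ⟨QuotientGroup.mk' L ⟨k, hk⟩, rfl⟩
  have : Group.IsSolvable toPerm.range := Group.isSolvable_of_surjective toPerm.rangeRestrict_surjective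
  have : Nonempty Ω := Fintype.card_pos_iff.1 (by omega)
  let h : G →* (G ⧸ F) ⧸ K.map q := (QuotientGroup.mk' (K.map q)).comp q
  have hKh : toPerm.rangeRestrict.ker ≤ h.ker := by
    rw [MonoidHom.ker_rangeRestrict]
    intro k hk
    exact MonoidHom.mem_ker.2 ((QuotientGroup.eq_one_iff _).2 ⟨k, hk, rfl⟩)
  have hq : KB ((G ⧸ F) ⧸ K.map q) (3 ^ (Fintype.card Ω - 1)) := by
    rw [← Nat.card_eq_fintype_card]
    refine KB.of_surjective
      (MonoidHom.liftOfSurjective toPerm.rangeRestrict toPerm.rangeRestrict_surjective ⟨h, hKh⟩) ?_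
      (KB.of_perm toPerm.range.subtype toPerm.range.subtype_injective)
    intro y
    obtain ⟨x, rfl⟩ := QuotientGroup.mk_surjective y
    obtain ⟨g, rfl⟩ := QuotientGroup.mk_surjective x
    exact ⟨toPerm.rangeRestrict g, MonoidHom.liftOfRightInverse_comp_apply _ _ _ ⟨h, hKh⟩ g⟩
  refine (KB.of_ker (QuotientGroup.mk' (K.map q)) hker hq).mono ?_
  rw [Finset.prod_pow_eq_pow_sum, ← pow_add]
  refine Nat.pow_le_pow_right (by norm_num) ?_
  have hsub : ∑ ω : Ω, Module.finrank ℂ (W ω.1) =
      (∑ ω : Ω, (Module.finrank ℂ (W ω.1) - 1)) + Fintype.card Ω := by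
    rw [← Finset.card_univ, Finset.card_eq_sum_ones, ← Finset.sum_add_distrib]
    exact Finset.sum_congr rfl fun ω _ => (Nat.sub_add_cancel (hpos ω)).symm
  omega

/-- The bound for subgroups of a finite solvable linear group. -/
theorem card_conjClasses_mod_fitting (r : ℕ) (hr : 1 ≤ r) (G : Subgroup (GL (Fin r) ℂ)) [Finite ↥G]
    (hsolv : Group.IsSolvable ↥G) [hF : (Cfsg.fittingSubgroup ↥G).Normal] (H : Subgroup ↥G) :
    Nat.card (ConjClasses (↥H ⧸ (Cfsg.fittingSubgroup ↥G).subgroupOf H)) ≤ 3 ^ (r - 1) := by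
  have : Group.IsSolvable ↥G := hsolv
  let e : GL (Fin r) ℂ ≃* ((Fin r → ℂ) ≃ₗ[ℂ] (Fin r → ℂ)) :=
    Matrix.GeneralLinearGroup.toLin.trans (LinearMap.GeneralLinearGroup.generalLinearEquiv ℂ (Fin r → ℂ))
  have hk := kb_linear r (Fin r → ℂ) ↥G (e.toMonoidHom.comp G.subtype)
    (e.injective.comp G.subtype_injective) (Module.finrank_fin_fun ℂ) hr
  let f : (↥H ⧸ (Cfsg.fittingSubgroup ↥G).subgroupOf H) →* ↥G ⧸ Cfsg.fittingSubgroup ↥G :=
    QuotientGroup.map _ _ H.subtype fun x hx => hx
  have hf : Function.Injective f := by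
    rw [injective_iff_map_eq_one]
    intro x
    induction x using QuotientGroup.induction_on with
    | _ x => exact fun hx => (QuotientGroup.eq_one_iff x).2 ((QuotientGroup.eq_one_iff (x : ↥G)).1 hx)
  exact le_trans (card_conjClasses_of_surjective
    (Subgroup.topEquiv (G := ↥H ⧸ (Cfsg.fittingSubgroup ↥G).subgroupOf H)).toMonoidHom
    Subgroup.topEquiv.surjective) (KB.of_injective f hf hk ⊤)

end Cfsg.Agent.H21.LinClasses
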