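import Cfsg.Agent.H21.LinClasses.KBound
import Cfsg.Agent.H19.MinimalNormal
import Mathlib.GroupTheory.Perm.Basic
import Mathlib.GroupTheory.PGroup
import Mathlib.Algebra.BigOperators.Group.Finset.Basic

/-!
A solvable permutation group of degree `n` has at most `3 ^ (n - 1)` classes in each subgroup.
-/

namespace Cfsg.Agent.H21.LinClasses

open scoped Pointwise

/-- A faithful group of automorphisms of an elementary abelian group of order `p ^ d`. -/
theorem card_le_prod_of_faithful_aut {A : Type*} [Group A] [Finite A] {p d : ℕ} (hp : p.Prime)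
    (hA : Nat.card A = p ^ d) {S : Type*} [Group S] [Finite S] (φ : S →* MulAut A)
    (hφ : Function.Injective φ) :
    Nat.card S ≤ ∏ i ∈ Finset.range d, (p ^ d - p ^ (d - (i + 1))) := by
  have : Fact p.Prime := ⟨hp⟩
  suffices H : ∀ j ≤ d, ∀ (K : Subgroup A), p ^ (d - j) ≤ Nat.card K → ∀ T : Subgroup S,
      (∀ t ∈ T, ∀ v ∈ K, φ t v = v) →
      Nat.card T ≤ ∏ i ∈ Finset.range j, (p ^ d - p ^ (d - (i + 1))) by
    have h := H d le_rfl ⊥ (by simp) ⊤ (fun t _ v hv => by simp [Subgroup.mem_bot.1 hv])
    rwa [Subgroup.card_top] at h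
  intro j
  induction j with
  | zero =>
      intro _ K hK T hT
      have hKtop : K = ⊤ := by
        refine Subgroup.eq_top_of_card_eq _ (le_antisymm (Subgroup.card_le_card_group K) ?_)
        rwa [hA]
      have : T = ⊥ := by
        refine (Subgroup.eq_bot_iff_forall _).2 fun t ht => hφ ?_
        ext v
        simpa using hT t ht v (hKtop ▸ Subgroup.mem_top v)
      simp [this]
  | succ j ih =>
      intro hj K hK T hT
      rw [Finset.prod_range_succ]
      by_cases hKtop : K = ⊤
      · have : T = ⊥ := by
          refine (Subgroup.eq_bot_iff_forall _).2 fun t ht => hφ ?_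
          ext v
          simpa using hT t ht v (hKtop ▸ Subgroup.mem_top v)
        rw [this, Subgroup.card_bot]
        refine Nat.mul_pos (Finset.prod_pos fun i hi => ?_) ?_ <;>
          refine Nat.sub_pos_of_lt (Nat.pow_lt_pow_right hp.one_lt ?_)
        · have := Finset.mem_range.1 hi
          omega
        · omega
      obtain ⟨v, hv⟩ : ∃ v, v ∉ K := by
        by_contra h
        exact hKtop ((Subgroup.eq_top_iff' K).2 fun x => not_not.1 (not_exists.1 h x))
      let : MulAction T A := MulAction.compHom A (φ.comp T.subtype)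
      have hsmul : ∀ (t : T) (a : A), t • a = φ (t : S) a := fun t a => rfl
      let U : Subgroup S := (MulAction.stabilizer T v).map T.subtype
      have hU : Nat.card U = Nat.card (MulAction.stabilizer T v) :=
        Nat.card_congr (Subgroup.equivMapOfInjective _ _ T.subtype_injective).toEquiv.symm
      let L : Subgroup A := ⨅ u : U, MonoidHom.eqLocus (φ (u : S)).toMonoidHom (MonoidHom.id A)
      have hKL : K ≤ L := le_iInf fun u a ha => by
        obtain ⟨t, -, ht⟩ := u.2
        change φ (u : S) a = a
        rw [← ht]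
        exact hT _ t.2 a ha
      have hvL : v ∈ L := Subgroup.mem_iInf.2 fun u => by
        obtain ⟨t, ht, ht'⟩ := u.2
        change φ (u : S) v = v
        rw [← ht']
        exact MulAction.mem_stabilizer_iff.1 ht
      have hL : p ^ (d - j) ≤ Nat.card L := by
        obtain ⟨e, he, hLe⟩ := (Nat.dvd_prime_pow hp).1 (hA ▸ Subgroup.card_subgroup_dvd_card L)
        have hlt : Nat.card K < Nat.card L := by
          refine lt_of_le_of_ne (Subgroup.card_le_of_le hKL) fun h => hv ?_
          exact Subgroup.eq_of_le_of_card_ge hKL h.ge ▸ hvL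
        rw [hLe] at hlt ⊢
        have : p ^ (d - (j + 1)) < p ^ e := lt_of_le_of_lt hK hlt
        rw [Nat.pow_lt_pow_iff_right hp.one_lt] at this
        exact Nat.pow_le_pow_right hp.pos (by omega)
      have h1 := ih (by omega) L hL U fun u hu a ha => Subgroup.mem_iInf.1 ha ⟨u, hu⟩
      have h2 : Nat.card (MulAction.orbit T v) ≤ p ^ d - p ^ (d - (j + 1)) := by
        have hsub : MulAction.orbit T v ⊆ (K : Set A)ᶜ := by
          rintro _ ⟨t, rfl⟩ hmem
          apply hv
          have h := hT _ (inv_mem t.2) _ hmem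
          simp only [hsmul, map_inv, MulAut.inv_apply_self] at h
          rw [h]
          exact hmem
        rw [Nat.card_coe_set_eq]
        refine (Set.ncard_le_ncard hsub (Set.toFinite _)).trans ?_
        rw [Set.ncard_compl, hA, ← Nat.card_coe_set_eq]
        exact Nat.sub_le_sub_left hK _
      calc Nat.card T = Nat.card (MulAction.stabilizer T v) * Nat.card (MulAction.orbit T v) := by
            rw [Nat.card_coe_set_eq, ← MulAction.index_stabilizer, Subgroup.card_mul_index]
        _ ≤ _ := Nat.mul_le_mul (hU ▸ h1) h2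

theorem two_mul_le_two_pow_bound (d : ℕ) (hd : 4 ≤ d) : 2 * (d * (d + 1)) ≤ 3 * (2 ^ d - 1) := by
  induction d, hd using Nat.le_induction with
  | base => decide
  | succ d hd ih =>
      have : 1 ≤ 2 ^ d := Nat.one_le_two_pow
      rw [pow_succ]
      have h1 : (d + 1) * (d + 1 + 1) = d * (d + 1) + 2 * (d + 1) := by ring
      have h2 : 4 * (d + 1) ≤ d * (d + 1) := Nat.mul_le_mul_right _ hd
      omega

/-- The arithmetic for affine permutation groups. -/
theorem affine_bound {p d : ℕ} (hp : p.Prime) :
    p ^ d * ∏ i ∈ Finset.range d, (p ^ d - p ^ (d - (i + 1))) ≤ 3 ^ (p ^ d - 1) := by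
  have hle : p ^ d * ∏ i ∈ Finset.range d, (p ^ d - p ^ (d - (i + 1))) ≤ p ^ (d * (d + 1)) := by
    refine (Nat.mul_le_mul_left _ (Finset.prod_le_pow_card _ _ (p ^ d) fun i _ => Nat.sub_le _ _)).trans ?_
    rw [Finset.card_range, ← pow_mul, ← pow_add]
    exact le_of_eq (by ring)
  rcases lt_trichotomy p 3 with h3 | rfl | h3
  · have : p = 2 := le_antisymm (by omega) hp.two_le
    subst this
    by_cases hd : d < 4
    · interval_cases d <;> decide
    refine hle.trans ?_
    refine le_of_pow_le_pow_left₀ (n := 3) (by norm_num) (Nat.zero_le _) ?_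
    calc (2 ^ (d * (d + 1))) ^ 3 = 8 ^ (d * (d + 1)) := by
          rw [← pow_mul, mul_comm, pow_mul]; norm_num
      _ ≤ 9 ^ (d * (d + 1)) := Nat.pow_le_pow_left (by norm_num) _
      _ = 3 ^ (2 * (d * (d + 1))) := by rw [pow_mul 3 2]; norm_num
      _ ≤ 3 ^ (3 * (2 ^ d - 1)) := Nat.pow_le_pow_right (by norm_num) (two_mul_le_two_pow_bound d (by omega))
      _ = _ := by rw [← pow_mul, mul_comm]
  · refine hle.trans (Nat.pow_le_pow_right (by norm_num) ?_)
    induction d with
    | zero => simp
    | succ d ih =>
        have h1 : d + 1 ≤ 3 ^ d := Nat.lt_pow_self (by norm_num)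
        have h2 : 1 ≤ 3 ^ d := Nat.one_le_pow _ _ (by norm_num)
        have ih' := ih (by
          refine (Nat.mul_le_mul_left _ (Finset.prod_le_pow_card _ _ (3 ^ d) fun i _ => Nat.sub_le _ _)).trans ?_
          rw [Finset.card_range, ← pow_mul, ← pow_add]
          exact le_of_eq (by ring))
        rw [pow_succ]
        have h3 : (d + 1) * (d + 1 + 1) = d * (d + 1) + 2 * (d + 1) := by ring
        omega
  · have h5 : 5 ≤ p := by
      rcases eq_or_lt_of_le (show 4 ≤ p by omega) with rfl | h
      · exact absurd hp (by decide)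
      · omega
    refine hle.trans ?_
    have hp2 : ∀ k, 5 ≤ k → k ^ 2 ≤ 3 ^ (k - 1) := by
      intro k hk
      induction k, hk using Nat.le_induction with
      | base => decide
      | succ k hk ih =>
          rw [show k + 1 - 1 = (k - 1) + 1 by omega, pow_succ 3]
          nlinarith [Nat.mul_le_mul hk (le_refl k)]
    refine le_of_pow_le_pow_left₀ (n := 2) (by norm_num) (Nat.zero_le _) ?_
    calc (p ^ (d * (d + 1))) ^ 2 = (p ^ 2) ^ (d * (d + 1)) := by rw [← pow_mul, mul_comm, pow_mul]
      _ ≤ (3 ^ (p - 1)) ^ (d * (d + 1)) := Nat.pow_le_pow_left (hp2 p h5) _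
      _ = 3 ^ ((p - 1) * (d * (d + 1))) := (pow_mul 3 (p - 1) _).symm
      _ ≤ 3 ^ ((p ^ d - 1) * 2) := by
          refine Nat.pow_le_pow_right (by norm_num) ?_
          clear hle
          induction d with
          | zero => simp
          | succ d ih =>
              have h1 : d + 1 ≤ p ^ d := Nat.lt_pow_self (by omega)
              obtain ⟨c, hc⟩ : ∃ c, p = c + 1 := ⟨p - 1, by omega⟩
              obtain ⟨u, hu⟩ : ∃ u, p ^ d = u + 1 := ⟨p ^ d - 1, by omega⟩
              rw [hu] at ih h1
              have h2 : p ^ (d + 1) - 1 = u + c * (u + 1) := by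
                rw [pow_succ, hu, hc]
                refine Nat.sub_eq_of_eq_add ?_
                ring
              rw [h2]
              subst hc
              simp only [Nat.add_sub_cancel] at ih ⊢
              nlinarith [Nat.mul_le_mul_left c h1]
      _ = _ := by rw [pow_mul]

/-- A solvable group with a faithful action on `n` points has at most `3 ^ (n - 1)` classes
in each of its subgroups. -/
theorem KB.of_perm {Ω : Type} [Finite Ω] [Nonempty Ω] {X : Type} [Group X] [Finite X]
    [Group.IsSolvable X] (f : X →* Equiv.Perm Ω) (hf : Function.Injective f) :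
    KB X (3 ^ (Nat.card Ω - 1)) := by
  classical
  induction hn : Nat.card Ω using Nat.strong_induction_on generalizing Ω X with
  | _ n ih =>
  subst hn
  rcases subsingleton_or_nontrivial X with hX | hX
  · refine KB.of_card_le ((Finite.card_le_one_iff_subsingleton.2 hX).trans ?_)
    exact Nat.one_le_pow _ _ (by norm_num)
  obtain ⟨A, p, hA, hA0, hAc, hp, hpA, hexp⟩ := H19.exists_normal_elementary (G := X)
  have : Fact p.Prime := ⟨hp⟩
  let r : Setoid Ω :=
    { r := fun u v => ∃ a ∈ A, f a u = v
      iseqv :=
        { refl := fun u => ⟨1, one_mem A, by simp⟩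
          symm := fun {u v} ⟨a, ha, h⟩ => ⟨a⁻¹, inv_mem ha, by rw [map_inv, ← h]; simp⟩
          trans := fun {u v w} ⟨a, ha, h⟩ ⟨b, hb, h'⟩ => ⟨b * a, mul_mem hb ha, by
            rw [map_mul, Equiv.Perm.mul_apply, h, h']⟩ } }
  let B := Quotient r
  have : Finite B := Quotient.finite _
  have : Nonempty B := ⟨Quotient.mk r (Classical.arbitrary Ω)⟩
  have hcongr : ∀ (x : X) (u v : Ω), r.r u v → r.r (f x u) (f x v) := by
    rintro x u v ⟨a, ha, rfl⟩
    exact ⟨x * a * x⁻¹, hA.conj_mem a ha x, by
      simp only [map_mul, Equiv.Perm.mul_apply, map_inv, Equiv.Perm.coe_inv, Equiv.symm_apply_apply]⟩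
  let q : X →* Equiv.Perm B :=
    { toFun := fun x =>
        { toFun := Quotient.map (f x) fun u v => hcongr x u v
          invFun := Quotient.map (f x⁻¹) fun u v => hcongr x⁻¹ u v
          left_inv := fun b => Quotient.inductionOn b fun u => by
            simp only [Quotient.map_mk, map_inv, Equiv.Perm.coe_inv, Equiv.symm_apply_apply]
          right_inv := fun b => Quotient.inductionOn b fun u => by
            simp only [Quotient.map_mk, map_inv, Equiv.Perm.coe_inv, Equiv.apply_symm_apply] }
      map_one' := Equiv.ext fun b => Quotient.inductionOn b fun u => by simp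
      map_mul' := fun x y => Equiv.ext fun b => Quotient.inductionOn b fun u => by simp }
  by_cases htrans : Nat.card B = 1
  · -- `A` is regular
    obtain ⟨ω⟩ := ‹Nonempty Ω›
    have hBsub : Subsingleton B := (Nat.card_eq_one_iff_unique.1 htrans).1
    have hall : ∀ v, ∃ a ∈ A, f a ω = v := fun v =>
      Quotient.exact (Subsingleton.elim (⟦ω⟧ : B) ⟦v⟧)
    have hfree : ∀ x : X, f x ω = ω → (∀ a ∈ A, Commute x a) → x = 1 := by
      intro x hx hc
      refine hf (Equiv.ext fun v => ?_)
      obtain ⟨a, ha, rfl⟩ := hall v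
      rw [map_one, Equiv.Perm.one_apply, ← Equiv.Perm.mul_apply, ← map_mul, (hc a ha).eq, map_mul,
        Equiv.Perm.mul_apply, hx]
    have hbij : Function.Bijective fun a : A => f (a : X) ω := by
      refine ⟨fun a b hab => ?_, fun v => ?_⟩
      · change f (a : X) ω = f (b : X) ω at hab
        refine Subtype.ext (Eq.symm (inv_mul_eq_one.1 (hfree _ ?_ fun c hc => ?_)))
        · rw [map_mul, Equiv.Perm.mul_apply, hab, ← Equiv.Perm.mul_apply, ← map_mul, inv_mul_cancel]
          simp
        · exact congrArg Subtype.val (mul_comm' ((b⁻¹ * a : A)) ⟨c, hc⟩)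
      · obtain ⟨a, ha, h⟩ := hall v
        exact ⟨⟨a, ha⟩, h⟩
    have hcard : Nat.card Ω = Nat.card A := (Nat.card_eq_of_bijective _ hbij).symm
    obtain ⟨d, hd⟩ := IsPGroup.iff_card.1 hpA
    let : MulAction X Ω := MulAction.compHom Ω f
    have hsmul : ∀ (x : X) (v : Ω), x • v = f x v := fun _ _ => rfl
    let S := MulAction.stabilizer X ω
    let φ : S →* MulAut A := MulAut.conjNormal.comp S.subtype
    have hφ : Function.Injective φ := by
      rw [injective_iff_map_eq_one]
      intro s hs
      refine Subtype.ext (hfree _ (MulAction.mem_stabilizer_iff.1 s.2) fun a ha => ?_)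
      have h := congrArg (fun g : MulAut A => ((g ⟨a, ha⟩ : A) : X)) hs
      simp only [φ, MonoidHom.comp_apply, Subgroup.coe_subtype, MulAut.one_apply,
        MulAut.conjNormal_apply] at h
      exact mul_inv_eq_iff_eq_mul.1 h
    refine KB.of_card_le ?_
    have h1 := card_le_prod_of_faithful_aut hp hd φ hφ
    have h2 : Nat.card X ≤ Nat.card Ω * Nat.card S := by
      rw [← S.index_mul_card]
      refine Nat.mul_le_mul_right _ ?_
      rw [show S = MulAction.stabilizer X ω from rfl, MulAction.index_stabilizer, ← Nat.card_coe_set_eq]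
      exact Finite.card_subtype_le _
    rw [hcard, hd] at h2 ⊢
    exact h2.trans ((Nat.mul_le_mul_left _ h1).trans (affine_bound hp))
  · have hBpos : 0 < Nat.card B := Nat.card_pos
    have hBlt : Nat.card B < Nat.card Ω := by
      refine lt_of_le_of_ne (Nat.card_le_card_of_surjective _ (Quotient.mk_surjective (s := r))) ?_
      intro heq
      have hinj : Function.Injective (Quotient.mk r) :=
        ((Nat.bijective_iff_surjective_and_card _).2 ⟨Quotient.mk_surjective, heq.symm⟩).1
      refine hA0 ((Subgroup.eq_bot_iff_forall A).2 fun a ha => hf (Equiv.ext fun u => ?_))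
      rw [map_one]
      exact (hinj (Quotient.sound ⟨a, ha, rfl⟩)).symm
    have : Group.IsSolvable q.range := Group.isSolvable_of_surjective q.rangeRestrict_surjective
    have hk : KB q.range (3 ^ (Nat.card B - 1)) := ih _ hBlt q.range.subtype q.range.subtype_injective rfl
    have := Fintype.ofFinite B
    let fib : B → Type := fun b => {u : Ω // Quotient.mk r u = b}
    have hne : ∀ b, Nonempty (fib b) := fun b => ⟨⟨b.out, Quotient.out_eq b⟩⟩
    have hmem : ∀ (b : B) (x : q.ker) (u : Ω), Quotient.mk r u = b ↔ Quotient.mk r (f (x : X) u) = b := by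
      intro b x u
      have h := congrArg (fun g : Equiv.Perm B => g ⟦u⟧) (MonoidHom.mem_ker.1 x.2)
      change Quotient.mk r (f (x : X) u) = Quotient.mk r u at h
      rw [h]
    let res : ∀ b, q.ker →* Equiv.Perm (fib b) := fun b =>
      { toFun := fun x => (f (x : X)).subtypePerm fun u => (hmem b x u).symm
        map_one' := Equiv.ext fun u => Subtype.ext (by simp)
        map_mul' := fun x y => Equiv.ext fun u => Subtype.ext (by simp) }
    have hN : KB q.ker (∏ b ∈ (Finset.univ : Finset B), 3 ^ (Nat.card (fib b) - 1)) := by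
      refine KB.of_pi Finset.univ res (fun b _ => ?_) fun x hx => ?_
      · have : Group.IsSolvable (res b).range := Group.isSolvable_of_surjective (res b).rangeRestrict_surjective
        refine ih _ ?_ (res b).range.subtype (res b).range.subtype_injective rfl
        have hlt : ∃ c, c ≠ b := by
          by_contra h
          refine htrans (Nat.card_eq_one_iff_unique.2 ⟨⟨fun c c' => ?_⟩, ⟨b⟩⟩)
          exact (not_not.1 (not_exists.1 h c)).trans (not_not.1 (not_exists.1 h c')).symm
        obtain ⟨c, hc⟩ := hlt
        exact Finite.card_subtype_lt (x := c.out) (by rw [Quotient.out_eq]; exact hc)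
      · refine Subtype.ext (hf (Equiv.ext fun u => ?_))
        have h := congrArg (fun g : Equiv.Perm (fib ⟦u⟧) => (g ⟨u, rfl⟩).1) (hx ⟦u⟧ (Finset.mem_univ _))
        simpa [res, Equiv.Perm.subtypePerm_apply, fib] using h
    have hX' := KB.of_ker q.rangeRestrict (by rw [MonoidHom.ker_rangeRestrict]; exact hN) hk
    refine hX'.mono ?_
    rw [Finset.prod_pow_eq_pow_sum, ← pow_add]
    refine Nat.pow_le_pow_right (by norm_num) ?_
    have hsum : Nat.card Ω = ∑ b : B, Nat.card (fib b) := by
      rw [← Nat.card_sigma, Nat.card_congr (Equiv.sigmaFiberEquiv (Quotient.mk r))]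
    have hsub : ∑ b : B, Nat.card (fib b) = (∑ b : B, (Nat.card (fib b) - 1)) + Nat.card B := by
      rw [Nat.card_eq_fintype_card (α := B), ← Finset.card_univ, Finset.card_eq_sum_ones,
        ← Finset.sum_add_distrib]
      exact Finset.sum_congr rfl fun b _ => (Nat.sub_add_cancel (Nat.card_pos (α := fib b))).symm
    omega

end Cfsg.Agent.H21.LinClasses
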