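import Cfsg.Agent.H21.LinClasses.Form

/-!
Isometries of a symplectic 2-group commuting with a fixed-point-free isometry of order 3:
the quadratic function `v ↦ e(v, a v)`.
-/

namespace Cfsg.Agent.H21.LinClasses

variable {V : Type} [CommGroup V] [Finite V]

/-- Number of anisotropic vectors in dimension `2 m`. -/
def anisoCount : ℕ → ℕ
  | 0 => 0
  | m + 1 => 3 * (4 ^ m - anisoCount m) + anisoCount m

/-- The order bound for the centraliser. -/
def unitBound : ℕ → ℕ
  | 0 => 1
  | m + 1 => anisoCount (m + 1) * unitBound m

theorem sign_values (P : Pairing V) (h2 : ∀ v : V, v ^ 2 = 1) (x y : V) :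
    P.e x y = 1 ∨ P.e x y = -1 := by
  have h := value_pow_eq_one P h2 x y
  rw [← Units.val_eq_one, Units.val_pow_eq_pow_val, sq_eq_one_iff] at h
  rcases h with h | h
  · exact Or.inl (Units.ext h)
  · exact Or.inr (Units.ext (by simpa using h))

theorem primitive_neg_one : IsPrimitiveRoot (-1 : ℂˣ) 2 := by
  rw [← IsPrimitiveRoot.coe_units_iff, Units.val_neg, Units.val_one]
  exact IsPrimitiveRoot.neg_one 0 (by norm_num)

/-- Everything known about the count and the centraliser, by induction on the rank. -/
theorem unitary_two : ∀ (m : ℕ) {V : Type} [CommGroup V] [Finite V] (P : Pairing V),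
    (∀ v : V, v ^ 2 = 1) → Nat.card V = 4 ^ m → ∀ a : MulAut V,
    (∀ v w, P.e (a v) (a w) = P.e v w) → (∀ v, v * a v * a (a v) = 1) → (∀ v, a (a (a v)) = v) →
    Nat.card {v : V // P.e v (a v) ≠ 1} = anisoCount m ∧
    ∀ {C : Type} [Group C] [Finite C] (φ : C →* MulAut V), Function.Injective φ → P.Preserves φ →
      (∀ c v, φ c (a v) = a (φ c v)) → Nat.card C ≤ unitBound m := by
  intro m
  induction m with
  | zero =>
      intro V _ _ P _ hV a _ _ _
      have hsub : Subsingleton V := (Nat.card_eq_one_iff_unique.1 (by simpa using hV)).1
      refine ⟨?_, fun {C} _ _ φ hinj _ _ => ?_⟩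
      · have : IsEmpty {v : V // P.e v (a v) ≠ 1} :=
          ⟨fun v => v.2 (by rw [Subsingleton.elim v.1 1, map_one, map_one, MonoidHom.one_apply])⟩
        simp [anisoCount]
      · have : Subsingleton C := ⟨fun x y => hinj (MulEquiv.ext fun v => Subsingleton.elim _ _)⟩
        simp [unitBound]
  | succ m ih =>
      intro V _ _ P h2 hV a hpres hnorm h3
      classical
      have haa : ∀ v, a (a v) = v * a v := by
        intro v
        have h := hnorm v
        rw [mul_eq_one_iff_eq_inv'] at h
        rw [h, inv_eq_iff_mul_eq_one, ← sq, h2]
      -- an anisotropic vector exists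
      have hpolar : ∀ u v : V, P.e (u * v) (a (u * v)) = P.e u (a u) * P.e v (a v) * P.e u v := by
        intro u v
        have h1 : P.e v (a u) = P.e u (a (a v)) := by
          have e1 : P.e v (a u) = P.e (a (a v)) u := by
            calc P.e v (a u) = P.e (a (a (a v))) (a u) := by rw [h3]
              _ = _ := hpres _ _
          have hsq : P.e u (a (a v)) * P.e u (a (a v)) = 1 := by
            rw [← sq]; exact value_pow_eq_one P h2 _ _
          rw [e1]
          exact mul_right_cancel ((P.swap (a (a v)) u).trans hsq.symm)
        rw [haa] at h1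
        simp only [map_mul, MonoidHom.mul_apply] at h1 ⊢
        rw [h1]
        have hsq : P.e u (a v) * P.e u (a v) = 1 := by
          rw [← sq]; exact value_pow_eq_one P h2 _ _
        calc P.e u (a u) * (P.e u v * P.e u (a v)) * (P.e u (a v) * P.e v (a v))
            = P.e u (a u) * P.e v (a v) * P.e u v * (P.e u (a v) * P.e u (a v)) := by
              simp only [mul_assoc, mul_comm, mul_left_comm]
          _ = _ := by rw [hsq, mul_one]
      have hne : ∃ x : V, x ≠ 1 := by
        by_contra h
        push Not at h
        have : Subsingleton V := ⟨fun x y => (h x).trans (h y).symm⟩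
        rw [Nat.card_of_subsingleton (1 : V)] at hV
        exact absurd hV (Nat.one_lt_pow (by omega) (by norm_num)).ne
      obtain ⟨v, hv⟩ : ∃ v, P.e v (a v) ≠ 1 := by
        by_contra h
        push Not at h
        obtain ⟨x, hx⟩ := hne
        exact hx (P.nondeg x fun y => by
          have h' := hpolar x y
          rw [h, h, h, one_mul, one_mul] at h'
          exact h'.symm)
      have hv' : P.e v (a v) = -1 := (sign_values P h2 _ _).resolve_left hv
      obtain ⟨hU, hUc⟩ := plane P Nat.prime_two primitive_neg_one h2 hv'
      set U := Subgroup.closure ({v, a v} : Set V) with hUdef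
      have hvU : v ∈ U := Subgroup.subset_closure (by simp)
      have havU : a v ∈ U := Subgroup.subset_closure (by simp)
      have hUa : ∀ u ∈ U, a u ∈ U := by
        intro u hu
        induction hu using Subgroup.closure_induction with
        | mem z hz =>
            rcases hz with rfl | hz
            · exact havU
            · rw [Set.mem_singleton_iff.1 hz, haa]
              exact mul_mem hvU havU
        | one => simp
        | mul x y _ _ hx hy => rw [map_mul]; exact mul_mem hx hy
        | inv x _ hx => rw [map_inv]; exact inv_mem hx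
      set W := P.perp U
      have hWa : ∀ w ∈ W, a w ∈ W := by
        intro w hw u hu
        have : u = a (a (a u)) := (h3 u).symm
        rw [this, hpres]
        exact hw _ (hUa _ (hUa _ hu))
      let aW : MulAut W :=
        { toFun := fun w => ⟨a w, hWa w w.2⟩
          invFun := fun w => ⟨a (a w), hWa _ (hWa w w.2)⟩
          left_inv := fun w => Subtype.ext (h3 _)
          right_inv := fun w => Subtype.ext (h3 _)
          map_mul' := fun x y => Subtype.ext (map_mul a _ _) }
      have hWc : Nat.card W = 4 ^ m := by
        have h := P.card_split hU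
        rw [hUc, hV, show (2 : ℕ) ^ 2 = 4 by norm_num, pow_succ'] at h
        exact Nat.eq_of_mul_eq_mul_left (by norm_num) h
      obtain ⟨ihN, ihC⟩ := ih (P.restrict W (P.perp_inf_perp_perp hU)) (fun w => Subtype.ext (h2 _)) hWc aW
        (fun x y => hpres _ _) (fun x => Subtype.ext (hnorm _)) (fun x => Subtype.ext (h3 _))
      -- values on `U`
      have hUv : ∀ u : U, P.e (u : V) (a u) ≠ 1 ↔ u ≠ 1 := by
        intro u
        constructor
        · rintro h rfl
          simp at h
        · intro hu
          obtain ⟨i, j, hij⟩ := Subgroup.mem_closure_pair.1 u.2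
          have hred : ∀ (z : V) (k : ℤ), z ^ k = 1 ∨ z ^ k = z := by
            intro z k
            rcases Int.emod_two_eq_zero_or_one k with hk | hk <;>
              [left; right] <;> conv_lhs => rw [← Int.mul_ediv_add_emod k 2, hk]
            · rw [zpow_add, zpow_mul, zpow_ofNat, h2, one_zpow, one_mul, zpow_zero]
            · rw [zpow_add, zpow_mul, zpow_ofNat, h2, one_zpow, one_mul, zpow_one]
          have hu' : (u : V) ≠ 1 := fun h => hu (Subtype.ext h)
          rw [← hij] at hu' ⊢
          rcases hred v i with hi | hi <;> rcases hred (a v) j with hj | hj <;> rw [hi, hj] at hu' ⊢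
          · exact absurd (one_mul 1) hu'
          · rw [one_mul, hpres]; exact hv
          · rw [mul_one]; exact hv
          · rw [← haa, hpres, hpres]; exact hv
      have hcount : Nat.card {x : V // P.e x (a x) ≠ 1} = anisoCount (m + 1) := by
        have e1 : {x : V // P.e x (a x) ≠ 1} ≃ {x : U × W // P.e (x.1 : V) (a x.1) * P.e (x.2 : V) (a x.2) ≠ 1} :=
          ((Equiv.ofBijective _ (P.split_bijective hU)).subtypeEquiv fun x => by
            change _ ↔ P.e ((x.1 : V) * x.2) (a ((x.1 : V) * x.2)) ≠ 1
            rw [hpolar, P.eq_one_comm.1 (x.2.2 _ x.1.2), mul_one]).symm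
        rw [Nat.card_congr e1]
        have hsign : ∀ x : U × W, P.e (x.1 : V) (a x.1) * P.e (x.2 : V) (a x.2) ≠ 1 ↔
            ((x.1 ≠ 1 ∧ ¬ P.e (x.2 : V) (a x.2) ≠ 1) ∨ (¬ x.1 ≠ 1 ∧ P.e (x.2 : V) (a x.2) ≠ 1)) := by
          intro x
          rw [← hUv]
          have hne1 : (-1 : ℂˣ) ≠ 1 := fun h => hv (hv'.trans h)
          rcases sign_values P h2 (x.1 : V) (a x.1) with h | h <;>
            rcases sign_values P h2 (x.2 : V) (a x.2) with h' | h' <;> simp [h, h', hne1]
        rw [Nat.card_congr (Equiv.subtypeEquivRight hsign)]
        have := Fintype.ofFinite U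
        have := Fintype.ofFinite W
        rw [Nat.card_eq_fintype_card, Fintype.card_subtype, Finset.filter_or,
          Finset.card_union_of_disjoint, ← Finset.univ_product_univ,
          Finset.filter_product (fun u : U => u ≠ 1) (fun w : W => ¬ P.e (w : V) (a w) ≠ 1),
          Finset.filter_product (fun u : U => ¬ u ≠ 1) (fun w : W => P.e (w : V) (a w) ≠ 1),
          Finset.card_product, Finset.card_product]
        · have hN : (Finset.univ.filter fun w : W => P.e (w : V) (a w) ≠ 1).card = anisoCount m := by
            rw [← Fintype.card_subtype, ← Nat.card_eq_fintype_card, ← ihN]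
            rfl
          have hU1 : (Finset.univ.filter fun u : U => u ≠ 1).card = 3 := by
            rw [Finset.filter_ne', Finset.card_erase_of_mem (Finset.mem_univ _), Finset.card_univ,
              ← Nat.card_eq_fintype_card, hUc]
            rfl
          have hW0 := Finset.card_filter_add_card_filter_not (s := (Finset.univ : Finset W))
            (fun w : W => P.e (w : V) (a w) ≠ 1)
          rw [hN, Finset.card_univ, ← Nat.card_eq_fintype_card, hWc] at hW0
          have hU0 : (Finset.univ.filter fun u : U => ¬ u ≠ 1).card = 1 := by
            rw [Finset.card_eq_one]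
            exact ⟨1, by ext u; simp⟩
          rw [hU1, hU0, hN, one_mul, anisoCount]
          omega
        · rw [Finset.disjoint_filter]
          rintro x - ⟨h1, -⟩ ⟨h1', -⟩
          exact h1' h1
      refine ⟨hcount, fun {C} _ _ φ hinj hφ hcomm => ?_⟩
      let : MulAction C V := MulAction.compHom V φ
      have horb : Nat.card (MulAction.orbit C v) ≤ anisoCount (m + 1) := by
        rw [← hcount]
        refine Nat.card_le_card_of_injective (fun w => ⟨w.1, ?_⟩) fun w w' h => Subtype.ext (congrArg (fun z => z.1) h)
        obtain ⟨c, hc⟩ := w.2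
        change φ c v = _ at hc
        rw [← hc, ← hcomm, hφ]
        exact hv
      let S := MulAction.stabilizer C v
      have hS : ∀ c : S, ∀ u ∈ U, φ (c : C) u = u := by
        intro c u hu
        induction hu using Subgroup.closure_induction with
        | mem z hz =>
            have hcv : φ (c : C) v = v := MulAction.mem_stabilizer_iff.1 c.2
            rcases hz with rfl | hz
            · exact hcv
            · rw [Set.mem_singleton_iff.1 hz, hcomm, hcv]
        | one => simp
        | mul x y _ _ hx hy => rw [map_mul, hx, hy]
        | inv x _ hx => rw [map_inv, hx]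
      have hSW : ∀ (c : S), ∀ w ∈ W, (φ.comp S.subtype) c w ∈ W := by
        intro c w hw u hu
        rw [← hS c u hu]
        change P.e (φ (c : C) w) (φ (c : C) u) = 1
        rw [hφ]
        exact hw u hu
      have h1 := ihC (restrictHom (φ.comp S.subtype) W hSW) (fun c c' h => by
        refine Subtype.ext (hinj (MulEquiv.ext fun x => ?_))
        obtain ⟨⟨u, w⟩, rfl⟩ := (P.split_bijective hU).2 x
        rw [map_mul, map_mul, hS c u u.2, hS c' u u.2]
        congr 1
        exact congrArg (fun g : MulAut W => (g w : V)) h)
        (fun c x y => hφ _ _ _) (fun c w => Subtype.ext (hcomm _ _))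
      calc Nat.card C = Nat.card S * Nat.card (MulAction.orbit C v) := by
            rw [Nat.card_coe_set_eq, ← MulAction.index_stabilizer, Subgroup.card_mul_index]
        _ ≤ unitBound m * anisoCount (m + 1) := Nat.mul_le_mul h1 horb
        _ = unitBound (m + 1) := by rw [unitBound, mul_comm]

end Cfsg.Agent.H21.LinClasses
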