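import Cfsg.Agent.H21.LinClasses.Fixed
import Cfsg.Agent.H21.LinClasses.UnitaryTwo
import Cfsg.Agent.H19.Hall

/-!
Class bounds for small irreducible symplectic groups.
-/

namespace Cfsg.Agent.H21.LinClasses

variable {V X : Type} [CommGroup V] [Finite V] [Group X] [Finite X] (φ : X →* MulAut V)

theorem kb_small (hinj : Function.Injective φ) (hirr : Irred φ) [Nontrivial V] {N : ℕ}
    (h5 : 5 * Nat.card X < 8 * (N + 1)) (h2 : Nat.card X ≤ 2 * N) (hV : Nat.card V ≤ N + 1) :
    KB X N := by
  intro Y
  by_cases hY : IsMulCommutative Y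
  · refine (card_conjClasses_le_card Y).trans ?_
    by_cases htop : Y = ⊤
    · subst htop
      have : IsMulCommutative X := ⟨⟨fun x y => congrArg Subtype.val
        (mul_comm' (⟨x, Subgroup.mem_top x⟩ : (⊤ : Subgroup X)) ⟨y, Subgroup.mem_top y⟩)⟩⟩
      have := card_abelian_lt φ hinj hirr this
      rw [Subgroup.card_top]
      omega
    · have h := Y.card_mul_index
      have h1 := Subgroup.one_lt_index_of_ne_top htop
      nlinarith
  · have := eight_mul_card_conjClasses_le hY
    have := Subgroup.card_le_card_group Y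
    omega

section Three

variable {φ} (P : Pairing V)

include P

/-- In rank 2 over three elements, elements of order 3 have centralisers of order at most 6. -/
theorem card_centralizer_three (hinj : Function.Injective φ) (hφ : P.Preserves φ)
    (hexp : ∀ v : V, v ^ 3 = 1) (hV : Nat.card V = 9) {t : X} (ht : orderOf t = 3) :
    Nat.card (Subgroup.centralizer ({t} : Set X)) ≤ 6 := by
  classical
  have : Fact (Nat.Prime 3) := ⟨Nat.prime_three⟩
  have hQ : IsPGroup 3 (Subgroup.zpowers t) := IsPGroup.of_card (n := 1) (by rw [Nat.card_zpowers, ht, pow_one])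
  have hne := fix_ne_bot φ (Subgroup.zpowers t) hQ (hV ▸ by norm_num)
  obtain ⟨x, hx, hx1⟩ := (Subgroup.bot_or_exists_ne_one _).resolve_left hne
  have hxt : φ t x = x := hx t (Subgroup.mem_zpowers t)
  obtain ⟨ζ, hζ⟩ := exists_unit_root Nat.prime_three
  obtain ⟨y, hy⟩ := exists_partner P Nat.prime_three hζ hexp hx1
  have htop : Subgroup.closure ({x, y} : Set V) = ⊤ :=
    Subgroup.eq_top_of_card_eq _ (by rw [(plane P Nat.prime_three hζ hexp hy).2, hV]; norm_num)
  set C := Subgroup.centralizer ({t} : Set X)
  let F := fix φ ({t} : Set X)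
  have hFc : Nat.card F ≤ 3 := by
    obtain ⟨e, he, hFe⟩ := (Nat.dvd_prime_pow Nat.prime_three).1
      (show Nat.card F ∣ 3 ^ 2 by rw [show (3 : ℕ) ^ 2 = Nat.card V by rw [hV]; norm_num]
                                  exact Subgroup.card_subgroup_dvd_card F)
    have : Nat.card F ≠ 9 := fun h => by
      have := (fix_eq_top_iff φ hinj).1 (Subgroup.eq_top_of_card_eq F (h.trans hV.symm)) (Set.mem_singleton t)
      rw [Set.mem_singleton_iff] at this
      rw [this, orderOf_one] at ht
      omega
    interval_cases e <;> omega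
  let : MulAction C V := MulAction.compHom V (φ.comp C.subtype)
  have horb : Nat.card (MulAction.orbit C x) ≤ 2 := by
    have hsub : MulAction.orbit C x ⊆ (F : Set V) \ {1} := by
      rintro _ ⟨c, rfl⟩
      refine ⟨fix_of_commute φ (fun s hs => ?_) x ((mem_fix_singleton φ).2 hxt), fun h => hx1 ?_⟩
      · rw [Set.mem_singleton_iff.1 hs]
        exact (Subgroup.mem_centralizer_singleton_iff.1 c.2)
      · change φ (c : X) x = 1 at h
        exact (φ (c : X)).injective (by simpa using h)
    rw [Nat.card_coe_set_eq]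
    refine (Set.ncard_le_ncard hsub (Set.toFinite _)).trans ?_
    rw [Set.ncard_sdiff_singleton_of_mem (one_mem F), ← Nat.card_coe_set_eq]
    change Nat.card F - 1 ≤ 2
    omega
  have hst : Nat.card (MulAction.stabilizer C x) ≤ 3 := by
    have hl := card_level P Nat.prime_three hζ hexp hx1
    have : Nat.card {z // P.e x z = ζ} = 3 := by omega
    rw [← this]
    refine Nat.card_le_card_of_injective (fun c => ⟨φ ((c : C) : X) y, ?_⟩) ?_
    · have hc : φ ((c : C) : X) x = x := MulAction.mem_stabilizer_iff.1 c.2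
      exact (congrArg (fun z => P.e z (φ ((c : C) : X) y)) hc.symm).trans ((hφ _ _ _).trans hy)
    · intro c c' h
      have h1 : φ ((c : C) : X) y = φ ((c' : C) : X) y := congrArg Subtype.val h
      refine Subtype.ext (Subtype.ext (hinj (MulEquiv.ext fun v => ?_)))
      have hv : v ∈ Subgroup.closure ({x, y} : Set V) := htop ▸ Subgroup.mem_top v
      induction hv using Subgroup.closure_induction with
      | mem z hz =>
          rcases hz with rfl | hz
          · rw [show φ ((c : C) : X) z = z from MulAction.mem_stabilizer_iff.1 c.2,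
              show φ ((c' : C) : X) z = z from MulAction.mem_stabilizer_iff.1 c'.2]
          · rw [Set.mem_singleton_iff.1 hz, h1]
      | one => simp
      | mul a b _ _ ha hb => simp [ha, hb]
      | inv a _ ha => simp [ha]
  calc Nat.card C = Nat.card (MulAction.stabilizer C x) * Nat.card (MulAction.orbit C x) := by
        rw [Nat.card_coe_set_eq, ← MulAction.index_stabilizer, Subgroup.card_mul_index]
    _ ≤ 3 * 2 := Nat.mul_le_mul hst horb

theorem involution_central_three (hinj : Function.Injective φ) (hφ : P.Preserves φ)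
    (hexp : ∀ v : V, v ^ 3 = 1) (hV : Nat.card V = 9) {b : X} (hb : b ^ 2 = 1) (hb1 : b ≠ 1) :
    b ∈ Subgroup.center X := by
  obtain ⟨ζ, hζ⟩ := exists_unit_root Nat.prime_three
  have hbb : ∀ v, φ b (φ b v) = v := fun v => by
    rw [← MulAut.mul_apply, ← map_mul, ← sq, hb, map_one, MulAut.one_apply]
  have hfpf : ∀ x, φ b x = x → x = 1 := by
    intro x hx
    by_contra hx1
    obtain ⟨y, hy⟩ := exists_partner P Nat.prime_three hζ hexp hx1
    have htop : Subgroup.closure ({x, y} : Set V) = ⊤ :=
      Subgroup.eq_top_of_card_eq _ (by rw [(plane P Nat.prime_three hζ hexp hy).2, hV]; norm_num)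
    set u := y⁻¹ * φ b y
    have hu : u ∈ Subgroup.closure ({x, y} : Set V) := htop ▸ Subgroup.mem_top u
    obtain ⟨i, j, hij⟩ := Subgroup.mem_closure_pair.1 hu
    have h1 : P.e x u = 1 := by
      have : P.e x (φ b y) = ζ := by conv_lhs => rw [← hx, hφ, hy]
      simp [u, map_mul, map_inv, this, hy]
    rw [← hij] at h1
    simp only [map_mul, map_zpow, P.alt, one_zpow, one_mul, hy] at h1
    have hj : y ^ j = 1 := zpow_eq_one_of_dvd hexp y ((hζ.zpow_eq_one_iff_dvd j).1 h1)
    rw [hj, mul_one] at hij
    have hby : φ b y = y * x ^ i := by rw [hij]; simp [u]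
    have h2 := hbb y
    rw [hby, map_mul, map_zpow, hx, hby, mul_assoc, mul_eq_left, ← mul_zpow, ← sq] at h2
    have h3 : x ^ i = 1 := by
      have h4 : (x ^ i) ^ 3 = 1 := hexp _
      have h5 : (x ^ i) ^ 2 = 1 := by
        rw [← h2]; simp [sq, mul_zpow]
      rw [pow_succ, h5, one_mul] at h4
      exact h4
    rw [h3, mul_one] at hby
    refine hb1 (hinj ?_)
    rw [map_one]
    ext v
    have hv : v ∈ Subgroup.closure ({x, y} : Set V) := htop ▸ Subgroup.mem_top v
    induction hv using Subgroup.closure_induction with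
    | mem z hz =>
        rcases hz with rfl | hz
        · exact hx
        · rw [Set.mem_singleton_iff.1 hz]; exact hby
    | one => simp
    | mul a c _ _ ha hc => rw [map_mul, ha, hc]; simp
    | inv a _ ha => rw [map_inv, ha]; simp
  have hinv : ∀ v, φ b v = v⁻¹ := fun v => by
    refine eq_inv_of_mul_eq_one_left (hfpf _ ?_)
    rw [map_mul, hbb, mul_comm]
  rw [Subgroup.mem_center_iff]
  intro g
  refine hinj ?_
  ext v
  simp [hinv]

/-- Groups of order dividing 24 in rank 2 over three elements. -/
theorem kb_three (hinj : Function.Injective φ) (hφ : P.Preserves φ) (hirr : Irred φ)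
    (hexp : ∀ v : V, v ^ 3 = 1) (hV : Nat.card V = 9) : KB X 9 := by
  classical
  have hnt : Nontrivial V := Finite.one_lt_card_iff_nontrivial.1 (by omega)
  have hd : Nat.card X ∣ 24 :=
    card_dvd_symOrder P Nat.prime_three hexp (m := 1) (by rw [hV]; norm_num) φ hφ hinj
  have hle := Nat.le_of_dvd (by norm_num) hd
  by_cases h12 : Nat.card X ≤ 12
  · exact kb_small φ hinj hirr (by omega) (by omega) (by omega)
  have hX : Nat.card X = 24 := by
    obtain ⟨c, hc⟩ := hd
    rcases c with _ | _ | c
    · omega
    · omega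
    · nlinarith
  intro Y
  have : Fact (Nat.Prime 3) := ⟨Nat.prime_three⟩
  have hC := fun (t : X) (ht : orderOf t = 3) => card_centralizer_three P hinj hφ hexp hV ht
  by_cases htop : Y = ⊤
  · subst htop
    refine (card_conjClasses_of_surjective (Subgroup.topEquiv (G := X)).symm.toMonoidHom
      (Subgroup.topEquiv (G := X)).symm.surjective).trans ?_
    have := Fintype.ofFinite X
    obtain ⟨t, ht⟩ := exists_prime_orderOf_dvd_card' (G := X) 3 (by rw [hX]; norm_num)
    have hcent : ∀ g : X, g ∉ Subgroup.center X →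
        Nat.card (Subgroup.centralizer ({g} : Set X)) ≤ 8 := by
      intro g hg
      have hd' := Subgroup.card_subgroup_dvd_card (Subgroup.centralizer ({g} : Set X))
      rw [hX] at hd'
      by_cases h3 : 3 ∣ Nat.card (Subgroup.centralizer ({g} : Set X))
      · obtain ⟨⟨s, hs⟩, hso⟩ := exists_prime_orderOf_dvd_card' (G := Subgroup.centralizer ({g} : Set X)) 3 h3
        rw [Subgroup.orderOf_mk] at hso
        have hgs : g ∈ Subgroup.centralizer ({s} : Set X) :=
          Subgroup.mem_centralizer_singleton_iff.2 (Subgroup.mem_centralizer_singleton_iff.1 hs).symm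
        have hss : s ∈ Subgroup.centralizer ({s} : Set X) := Subgroup.mem_centralizer_singleton_iff.2 rfl
        have h1 := hC s hso
        have hog : orderOf g ∣ Nat.card (Subgroup.centralizer ({s} : Set X)) :=
          Subgroup.orderOf_dvd_natCard _ hgs
        have hos : 3 ∣ Nat.card (Subgroup.centralizer ({s} : Set X)) :=
          hso ▸ Subgroup.orderOf_dvd_natCard _ hss
        have hpos := Nat.card_pos (α := Subgroup.centralizer ({s} : Set X))
        have hg1 : orderOf g ≠ 1 := fun h => hg (by rw [orderOf_eq_one_iff.1 h]; exact one_mem _)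
        have hg2 : orderOf g ≠ 2 := fun h => hg (involution_central_three P hinj hφ hexp hV
          (h ▸ pow_orderOf_eq_one g) (fun e => hg1 (orderOf_eq_one_iff.2 e)))
        have hogle := Nat.le_of_dvd hpos hog
        have hg3 : orderOf g = 3 ∨ orderOf g = 6 := by
          interval_cases hcs : Nat.card (Subgroup.centralizer ({s} : Set X)) <;>
            interval_cases hgo : orderOf g <;> omega
        rcases hg3 with h | h
        · exact (hC g h).trans (by norm_num)
        · refine le_trans (Subgroup.card_le_of_le ?_) ((hC (g ^ 2) ?_).trans (by norm_num))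
          · intro z hz
            rw [Subgroup.mem_centralizer_singleton_iff] at hz ⊢
            exact (Commute.pow_right hz 2).eq
          · rw [orderOf_pow, h]
            rfl
      · have hco : Nat.Coprime (Nat.card (Subgroup.centralizer ({g} : Set X))) 3 :=
          (Nat.Prime.coprime_iff_not_dvd Nat.prime_three).2 h3 |>.symm
        exact Nat.le_of_dvd (by norm_num) (hco.dvd_of_dvd_mul_right (by simpa using hd'))
    have hZ : Nat.card (Subgroup.center X) ≤ 2 := by
      have hzt : Subgroup.center X ≤ Subgroup.centralizer ({t} : Set X) :=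
        fun z hz => Subgroup.mem_centralizer_singleton_iff.2 ((Subgroup.mem_center_iff.1 hz t).symm)
      have h3 : ¬ 3 ∣ Nat.card (Subgroup.center X) := by
        intro h
        obtain ⟨⟨z, hz⟩, hzo⟩ := exists_prime_orderOf_dvd_card' (G := Subgroup.center X) 3 h
        rw [Subgroup.orderOf_mk] at hzo
        have h1 := hC z hzo
        rw [Subgroup.centralizer_eq_top_iff_subset.2 (by simpa using hz), Subgroup.card_top] at h1
        omega
      have h1 := hC t ht
      have hzd := Subgroup.card_dvd_of_le hzt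
      have htd : 3 ∣ Nat.card (Subgroup.centralizer ({t} : Set X)) :=
        ht ▸ Subgroup.orderOf_dvd_natCard _ (Subgroup.mem_centralizer_singleton_iff.2 rfl)
      have h6 := Nat.Coprime.mul_dvd_of_dvd_of_dvd
        ((Nat.Prime.coprime_iff_not_dvd Nat.prime_three).2 h3) htd hzd
      have := Nat.le_of_dvd Nat.card_pos h6
      omega
    have hsum : Nat.card (ConjClasses X) * Nat.card X =
        ∑ g : X, Nat.card (Subgroup.centralizer ({g} : Set X)) := by
      rw [← card_comm_eq_card_conjClasses_mul_card, ← Nat.card_sigma]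
      exact Nat.card_congr ⟨fun p => ⟨p.1.1, p.1.2, Subgroup.mem_centralizer_singleton_iff.2 p.2.eq.symm⟩,
        fun s => ⟨(s.1, s.2.1), (Subgroup.mem_centralizer_singleton_iff.1 s.2.2).symm⟩,
        fun p => rfl, fun s => rfl⟩
    have hle' : ∀ g : X, Nat.card (Subgroup.centralizer ({g} : Set X)) ≤
        8 + if g ∈ Subgroup.center X then 16 else 0 := by
      intro g
      by_cases hg : g ∈ Subgroup.center X
      · rw [if_pos hg]
        have := Subgroup.card_le_card_group (Subgroup.centralizer ({g} : Set X))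
        omega
      · rw [if_neg hg]
        exact hcent g hg
    have hall := Finset.sum_le_sum (fun g (_ : g ∈ (Finset.univ : Finset X)) => hle' g)
    rw [← hsum, Finset.sum_add_distrib, Finset.sum_const, ← Finset.sum_filter, Finset.sum_const,
      Finset.card_univ, smul_eq_mul, smul_eq_mul, ← Nat.card_eq_fintype_card, hX,
      ← Fintype.card_subtype, ← Nat.card_eq_fintype_card] at hall
    change _ ≤ _ + Nat.card (Subgroup.center X) * 16 at hall
    omega
  · by_cases hY : IsMulCommutative Y
    · refine (card_conjClasses_le_card Y).trans ?_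
      have hi := Y.card_mul_index
      rw [hX] at hi
      by_contra hlt
      rw [not_le] at hlt
      have hY12 : Nat.card Y = 12 := by
        have h1 := Subgroup.one_lt_index_of_ne_top htop
        have hdY : Nat.card Y ∣ 24 := ⟨_, hi.symm⟩
        have : Nat.card Y ≤ 12 := by nlinarith
        interval_cases Nat.card Y <;> omega
      obtain ⟨⟨t, htY⟩, ht⟩ := exists_prime_orderOf_dvd_card' (G := Y) 3 (by rw [hY12]; norm_num)
      rw [Subgroup.orderOf_mk] at ht
      have h1 : Y ≤ Subgroup.centralizer {t} := fun z hz => Subgroup.mem_centralizer_singleton_iff.2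
        (congrArg Subtype.val (mul_comm' (⟨z, hz⟩ : Y) ⟨t, htY⟩))
      have := (Subgroup.card_le_of_le h1).trans (hC t ht)
      omega
    · have := eight_mul_card_conjClasses_le hY
      have hi := Y.card_mul_index
      have h1 := Subgroup.one_lt_index_of_ne_top htop
      nlinarith

omit P in
theorem symOrder_three_two : symOrder 3 2 = 51840 := rfl

/-- Irreducible solvable groups in rank 4 over three elements have order at most 10368. -/
theorem card_le_three_four [Group.IsSolvable X] (hinj : Function.Injective φ) (hφ : P.Preserves φ)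
    (hirr : Irred φ) (hexp : ∀ v : V, v ^ 3 = 1) (hV : Nat.card V = 81) : Nat.card X ≤ 10368 := by
  have : Fact (Nat.Prime 3) := ⟨Nat.prime_three⟩
  have : Fact (Nat.Prime 5) := ⟨Nat.prime_five⟩
  have hd : Nat.card X ∣ 51840 :=
    card_dvd_symOrder P Nat.prime_three hexp (m := 2) (by rw [hV]; norm_num) φ hφ hinj
  by_cases h5 : 5 ∣ Nat.card X
  swap
  · have hco : Nat.Coprime (Nat.card X) 5 := ((Nat.Prime.coprime_iff_not_dvd Nat.prime_five).2 h5).symm
    exact Nat.le_of_dvd (by norm_num) (hco.dvd_of_dvd_mul_right (show Nat.card X ∣ 10368 * 5 from hd))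
  by_cases h3 : 3 ∣ Nat.card X
  swap
  · have hco : Nat.Coprime (Nat.card X) 81 := by
      rw [show (81 : ℕ) = 3 ^ 4 by norm_num]
      exact Nat.Coprime.pow_right 4 ((Nat.Prime.coprime_iff_not_dvd Nat.prime_three).2 h3).symm
    exact (Nat.le_of_dvd (by norm_num) (hco.dvd_of_dvd_mul_right (show Nat.card X ∣ 640 * 81 from hd))).trans (by norm_num)
  exfalso
  obtain ⟨b, n, hn3, hn⟩ := Nat.exists_eq_pow_mul_and_not_dvd (Nat.card_pos (α := X)).ne' 3 (by norm_num)
  have h5n : 5 ∣ n := (Nat.Coprime.dvd_of_dvd_mul_left (Nat.Coprime.pow_right b (by norm_num)) (hn ▸ h5))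
  obtain ⟨n', rfl⟩ := h5n
  have h25 : ¬ 5 ∣ n' := fun ⟨c, hc⟩ => by
    have : 25 ∣ 51840 := (Dvd.intro (3 ^ b * c) (by rw [hn, hc]; ring)).trans hd
    norm_num at this
  obtain ⟨H, hH⟩ := H19.hall_exists (G := X) (m := 3 ^ b * 5) (n := n') (by rw [hn]; ring)
    (Nat.Coprime.mul_left (Nat.Coprime.pow_left _ ((Nat.Prime.coprime_iff_not_dvd Nat.prime_three).2
      fun h => hn3 (h.mul_left 5))) ((Nat.Prime.coprime_iff_not_dvd Nat.prime_five).2 h25))
  obtain ⟨⟨x, hxH⟩, hx⟩ := exists_prime_orderOf_dvd_card' (G := H) 5 (hH ▸ Dvd.intro_left _ rfl)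
  rw [Subgroup.orderOf_mk] at hx
  let Q : Sylow 3 H := default
  have hQc : Nat.card Q = 3 ^ b := by
    rw [Sylow.card_eq_multiplicity, hH, Nat.factorization_mul (by positivity) (by norm_num),
      Nat.prime_three.factorization_pow]
    simp [Nat.prime_five.factorization, Finsupp.single_apply]
  have hidx : Q.index = 5 := by
    have h := Q.toSubgroup.card_mul_index
    rw [hH] at h
    change Nat.card Q * _ = _ at h
    rw [hQc] at h
    exact Nat.eq_of_mul_eq_mul_left (pow_pos (by norm_num) b) h
  have hone : Nat.card (Sylow 3 H) = 1 := by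
    have h1 : Nat.card (Sylow 3 H) ∣ 5 := hidx ▸ Q.card_dvd_index
    have h2 := card_sylow_modEq_one 3 H
    rcases (Nat.dvd_prime Nat.prime_five).1 h1 with h | h
    · exact h
    · rw [h] at h2; exact absurd h2 (by decide)
  have : Subsingleton (Sylow 3 H) := (Nat.card_eq_one_iff_unique.1 hone).1
  have hQn : (Q : Subgroup H).Normal := Q.normal_of_subsingleton
  set Q' := (Q : Subgroup H).map H.subtype
  have hQp : IsPGroup 3 Q' := Q.2.map _
  have hQne : Q' ≠ ⊥ := by
    intro h
    have hb : b ≠ 0 := by
      rintro rfl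
      rw [pow_zero, one_mul] at hn
      exact hn3 (hn ▸ h3)
    have h1 : Nat.card Q' = Nat.card Q :=
      (Nat.card_congr (Subgroup.equivMapOfInjective _ _ H.subtype_injective).toEquiv).symm
    rw [h, Subgroup.card_bot, hQc] at h1
    exact absurd h1 (Nat.one_lt_pow hb (by norm_num)).ne
  have hinv : ∀ v ∈ fix φ (Q' : Set X), φ x v ∈ fix φ (Q' : Set X) := by
    intro v hv s hs
    obtain ⟨⟨s', hs'⟩, hsQ, rfl⟩ := hs
    have hc : (⟨x, hxH⟩ : H)⁻¹ * ⟨s', hs'⟩ * ⟨x, hxH⟩ ∈ (Q : Subgroup H) := by
      simpa using hQn.conj_mem _ hsQ (⟨x, hxH⟩ : H)⁻¹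
    have h := hv _ ⟨_, hc, rfl⟩
    simp only [Subgroup.coe_subtype, Subgroup.coe_mul, Subgroup.coe_inv, map_mul, map_inv,
      MulAut.mul_apply] at h
    have h' := congrArg (φ x) h
    rwa [MulAut.apply_inv_self] at h'
  have hx5 : x ^ 5 = 1 := hx ▸ pow_orderOf_eq_one x
  have hcases : ∀ W : Subgroup V, ∃ k ≤ 4, Nat.card W = 3 ^ k := fun W =>
    (Nat.dvd_prime_pow Nat.prime_three).1
      (show Nat.card W ∣ 3 ^ 4 by rw [show (3 : ℕ) ^ 4 = Nat.card V by rw [hV]; norm_num]
                                  exact Subgroup.card_subgroup_dvd_card W)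
  have hfpf : ∀ v, φ x v = v → v = 1 := by
    have h := card_modEq_fix φ (Subgroup.zpowers x)
      (IsPGroup.of_card (n := 1) (by rw [Nat.card_zpowers, hx, pow_one])) (W := (⊤ : Subgroup V))
      (fun _ _ _ _ => Subgroup.mem_top _)
    rw [top_inf_eq, Subgroup.card_top, hV] at h
    obtain ⟨k, hk4, hk⟩ := hcases (fix φ (Subgroup.zpowers x : Set X))
    rw [hk] at h
    have hk' : k = 0 ∨ k = 4 := by interval_cases k <;> revert h <;> decide
    rcases hk' with rfl | rfl
    · intro v hv
      have hmem : v ∈ fix φ (Subgroup.zpowers x : Set X) := by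
        rintro s ⟨i, rfl⟩
        have : x ∈ (MulAction.stabilizer (MulAut V) v).comap φ := hv
        exact (zpow_mem this i :)
      have hbot : fix φ (Subgroup.zpowers x : Set X) = ⊥ := Subgroup.card_eq_one.1 (by simpa using hk)
      rw [hbot, Subgroup.mem_bot] at hmem
      exact hmem
    · have htop := Subgroup.eq_top_of_card_eq _ (hk.trans (by rw [hV]; norm_num))
      have := (fix_eq_top_iff φ hinj).1 htop (Subgroup.mem_zpowers x)
      rw [Set.mem_singleton_iff] at this
      rw [this, orderOf_one] at hx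
      omega
  have hm := card_modEq_one φ hx5 hfpf hinv
  obtain ⟨k, hk4, hk⟩ := hcases (fix φ (Q' : Set X))
  rw [hk] at hm
  have hk0 : fix φ (Q' : Set X) ≠ ⊥ := fix_ne_bot φ Q' hQp (hV ▸ by norm_num)
  have hk' : k = 0 ∨ k = 4 := by interval_cases k <;> revert hm <;> decide
  rcases hk' with rfl | rfl
  · exact hk0 (Subgroup.card_eq_one.1 (by simpa using hk))
  · refine hQne ((Subgroup.eq_bot_iff_forall _).2 fun s hs => ?_)
    exact (fix_eq_top_iff φ hinj).1 (Subgroup.eq_top_of_card_eq _ (hk.trans (by rw [hV]; norm_num))) hs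

end Three

end Cfsg.Agent.H21.LinClasses
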