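import Cfsg.Agent.H21.LinClasses.Small
import Mathlib.Tactic.NormNum.Prime

/-!
Solvable symplectic groups over two elements with a normal fixed-point-free subgroup of prime order.
-/

namespace Cfsg.Agent.H21.LinClasses

variable {V X : Type} [CommGroup V] [Finite V] [Group X] [Finite X] {φ : X →* MulAut V}
variable (P : Pairing V)

theorem norm_eq_one_three {a : X} (ha : a ^ 3 = 1) (hfpf : ∀ v, φ a v = v → v = 1) (v : V) :
    v * φ a v * φ a (φ a v) = 1 := by
  refine hfpf _ ?_
  have h3 : φ a (φ a (φ a v)) = v := by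
    rw [← MulAut.mul_apply, ← map_mul, ← MulAut.mul_apply, ← map_mul, ← pow_three', ha, map_one, MulAut.one_apply]
  rw [map_mul, map_mul, h3]
  simp only [mul_assoc, mul_comm, mul_left_comm]

/-- Centraliser bound for `q = 3`. -/
theorem card_centralizer_q_three (hinj : Function.Injective φ) (hφ : P.Preserves φ)
    (h2 : ∀ v : V, v ^ 2 = 1) {m : ℕ} (hV : Nat.card V = 2 ^ (2 * m)) {a : X} (ha : a ^ 3 = 1)
    (hfpf : ∀ v, φ a v = v → v = 1) :
    Nat.card (Subgroup.centralizer ({a} : Set X)) ≤ unitBound m := by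
  have h3 : ∀ v, φ a (φ a (φ a v)) = v := fun v => by
    rw [← MulAut.mul_apply, ← map_mul, ← MulAut.mul_apply, ← map_mul, ← pow_three', ha, map_one, MulAut.one_apply]
  refine (unitary_two m P h2 (by rw [hV, pow_mul]; norm_num) (φ a) (fun v w => hφ a v w)
    (norm_eq_one_three ha hfpf) h3).2 (φ.comp (Subgroup.centralizer ({a} : Set X)).subtype)
    (hinj.comp Subtype.val_injective) (fun c => hφ c) fun c v => ?_
  change φ (c : X) (φ a v) = φ a (φ (c : X) v)
  rw [← MulAut.mul_apply, ← map_mul, Subgroup.mem_centralizer_singleton_iff.1 c.2, map_mul, MulAut.mul_apply]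

include P

/-- Centraliser bound for `q = 5` in rank 4. -/
theorem card_centralizer_five (hinj : Function.Injective φ) (hφ : P.Preserves φ)
    (h2 : ∀ v : V, v ^ 2 = 1) (hV : Nat.card V = 16) {a : X} (ha : orderOf a = 5)
    (hfpf : ∀ v, φ a v = v → v = 1) :
    Nat.card (Subgroup.centralizer ({a} : Set X)) ≤ 10 := by
  classical
  have : Fact (Nat.Prime 5) := ⟨Nat.prime_five⟩
  have : Fact (Nat.Prime 3) := ⟨Nat.prime_three⟩
  have ha5 : a ^ 5 = 1 := ha ▸ pow_orderOf_eq_one a
  set C := Subgroup.centralizer ({a} : Set X)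
  let ψ : C →* MulAut V := φ.comp C.subtype
  have hsemi : ∀ (c : C) (v : V), v ≠ 1 → φ (c : X) v = v → c = 1 := by
    intro c v hv hc
    refine Subtype.ext (hinj ?_)
    have hF : ∀ w ∈ fix φ ({(c : X)} : Set X), φ a w ∈ fix φ ({(c : X)} : Set X) :=
      fix_of_commute φ fun s hs => by
        rw [Set.mem_singleton_iff.1 hs]
        exact (Subgroup.mem_centralizer_singleton_iff.1 c.2).symm
    have h1 := card_modEq_one φ ha5 hfpf hF
    obtain ⟨k, hk4, hk⟩ := (Nat.dvd_prime_pow Nat.prime_two).1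
      (show Nat.card (fix φ ({(c : X)} : Set X)) ∣ 2 ^ 4 by
        rw [show (2 : ℕ) ^ 4 = Nat.card V by rw [hV]; norm_num]; exact Subgroup.card_subgroup_dvd_card _)
    rw [hk] at h1
    have hk' : k = 0 ∨ k = 4 := by interval_cases k <;> revert h1 <;> decide
    rcases hk' with rfl | rfl
    · exact absurd (Subgroup.mem_bot.1 ((Subgroup.card_eq_one.1 (by simpa using hk) :
        fix φ ({(c : X)} : Set X) = ⊥) ▸ (mem_fix_singleton φ).2 hc)) hv
    · have := (fix_eq_top_iff φ hinj).1
        (Subgroup.eq_top_of_card_eq _ (hk.trans (by rw [hV]; norm_num))) (Set.mem_singleton (c : X))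
      rw [Set.mem_singleton_iff.1 this]
      simp
  obtain ⟨v, hv⟩ : ∃ v : V, v ≠ 1 := by
    have : Nontrivial V := Finite.one_lt_card_iff_nontrivial.1 (by omega)
    exact exists_ne 1
  have horbinj : Function.Injective fun c : C => (⟨φ (c : X) v, fun h => hv ((φ (c : X)).injective
      ((Set.mem_singleton_iff.1 h).trans (map_one _).symm))⟩ : ↥({1} : Set V)ᶜ) := by
    intro c c' h
    have h' : φ (c : X) v = φ (c' : X) v := congrArg Subtype.val h
    refine (inv_mul_eq_one.1 (hsemi (c'⁻¹ * c) v hv ?_)).symm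
    rw [Subgroup.coe_mul, map_mul, MulAut.mul_apply, h', Subgroup.coe_inv, map_inv, MulAut.inv_apply_self]
  have hle : Nat.card C ≤ 15 := by
    refine (Nat.card_le_card_of_injective _ horbinj).trans (le_of_eq ?_)
    rw [Nat.card_coe_set_eq, Set.ncard_compl, Set.ncard_singleton, hV]
  by_contra hgt
  rw [not_le] at hgt
  have hd : Nat.card C ∣ 720 := (Subgroup.card_subgroup_dvd_card C).trans
    (card_dvd_symOrder P Nat.prime_two h2 (m := 2) (by rw [hV]; norm_num) φ hφ hinj)
  have h5 : 5 ∣ Nat.card C := ha ▸ Subgroup.orderOf_dvd_natCard C (Subgroup.mem_centralizer_singleton_iff.2 rfl)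
  have hC : Nat.card C = 15 := by interval_cases Nat.card C <;> omega
  let a' : C := ⟨a, Subgroup.mem_centralizer_singleton_iff.2 rfl⟩
  have hcent : a' ∈ Subgroup.center C :=
    Subgroup.mem_center_iff.2 fun c => Subtype.ext (Subgroup.mem_centralizer_singleton_iff.1 c.2)
  have hab : ∀ x y : C, x * y = y * x := by
    have h1 : 5 ∣ Nat.card (Subgroup.center C) := by
      have h := Subgroup.orderOf_dvd_natCard _ hcent
      rwa [← Subgroup.orderOf_coe, ha] at h
    have hi := (Subgroup.center C).card_mul_index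
    rw [hC] at hi
    have : IsCyclic (C ⧸ Subgroup.center C) := by
      obtain ⟨k, hk⟩ := h1
      rw [hk] at hi
      rw [Subgroup.index_eq_card] at hi
      have hle3 : Nat.card (C ⧸ Subgroup.center C) ∣ 3 := ⟨k, by
        rw [mul_assoc, mul_comm k] at hi; omega⟩
      rcases (Nat.dvd_prime Nat.prime_three).1 hle3 with h | h
      · have := (Nat.card_eq_one_iff_unique.1 h).1
        exact isCyclic_of_subsingleton
      · exact isCyclic_of_prime_card h
    exact commutative_of_cyclic_center_quotient (QuotientGroup.mk' (Subgroup.center C))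
      (by rw [QuotientGroup.ker_mk'])
  obtain ⟨b, hb⟩ := exists_prime_orderOf_dvd_card' (G := C) 3 (hC ▸ by norm_num)
  have hb3 : (b : X) ^ 3 = 1 := by
    rw [← Subgroup.coe_pow, ← hb, pow_orderOf_eq_one]; rfl
  have hbf : ∀ w, φ (b : X) w = w → w = 1 := fun w hw => by
    by_contra hw1
    rw [hsemi b w hw1 hw, orderOf_one] at hb
    omega
  have h33 : ∀ w, φ (b : X) (φ (b : X) (φ (b : X) w)) = w := fun w => by
    rw [← MulAut.mul_apply, ← map_mul, ← MulAut.mul_apply, ← map_mul, ← pow_three', hb3, map_one, MulAut.one_apply]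
  have hN : Nat.card {w : V // P.e w (φ (b : X) w) ≠ 1} = 6 :=
    (unitary_two 2 P h2 (by rw [hV]; norm_num) (φ (b : X)) (fun x y => hφ _ x y)
      (norm_eq_one_three hb3 hbf) h33).1.trans rfl
  have hsurj : ∀ w : V, w ≠ 1 → ∃ c : C, φ (c : X) v = w := by
    intro w hw
    have hbij : Function.Bijective fun c : C => (⟨φ (c : X) v, fun h => hv ((φ (c : X)).injective
        ((Set.mem_singleton_iff.1 h).trans (map_one _).symm))⟩ : ↥({1} : Set V)ᶜ) :=
      (Nat.bijective_iff_injective_and_card _).2 ⟨horbinj, by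
        rw [hC, Nat.card_coe_set_eq, Set.ncard_compl, Set.ncard_singleton, hV]⟩
    obtain ⟨c, hc⟩ := hbij.2 ⟨w, by simpa using hw⟩
    exact ⟨c, congrArg Subtype.val hc⟩
  have hconst : ∀ w : V, w ≠ 1 → P.e w (φ (b : X) w) = P.e v (φ (b : X) v) := by
    intro w hw
    obtain ⟨c, rfl⟩ := hsurj w hw
    rw [← MulAut.mul_apply, ← map_mul, ← Subgroup.coe_mul, hab b c, Subgroup.coe_mul, map_mul,
      MulAut.mul_apply, hφ]
  by_cases hq : P.e v (φ (b : X) v) = 1
  · have : IsEmpty {w : V // P.e w (φ (b : X) w) ≠ 1} := ⟨fun w => by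
      by_cases h1 : w.1 = 1
      · exact w.2 (by rw [h1, map_one, map_one, MonoidHom.one_apply])
      · exact w.2 ((hconst w.1 h1).trans hq)⟩
    simp at hN
  · have : Nat.card {w : V // P.e w (φ (b : X) w) ≠ 1} = Nat.card ↥({1} : Set V)ᶜ :=
      Nat.card_congr (Equiv.subtypeEquivRight fun w => by
        constructor
        · intro h h1
          rw [Set.mem_singleton_iff] at h1
          exact h (by rw [h1, map_one, map_one, MonoidHom.one_apply])
        · intro h
          rw [hconst w (fun e => h e)]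
          exact hq)
    rw [hN, Nat.card_coe_set_eq, Set.ncard_compl, Set.ncard_singleton, hV] at this
    omega

/-- Centraliser bound for `q = 7` in rank 6. -/
theorem card_centralizer_seven (hinj : Function.Injective φ) (hφ : P.Preserves φ)
    (h2 : ∀ v : V, v ^ 2 = 1) (hV : Nat.card V = 64) {a : X} (ha : a ^ 7 = 1)
    (hfpf : ∀ v, φ a v = v → v = 1) :
    Nat.card (Subgroup.centralizer ({a} : Set X)) ≤ 63 := by
  classical
  have : Fact (Nat.Prime 7) := ⟨by norm_num⟩
  set f : V → V := fun v => φ a v with hfdef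
  have hf : ∀ x y, f (x * y) = f x * f y := fun x y => map_mul (φ a) x y
  let g1 : V →* V := MonoidHom.mk' (fun v => v * f v * f (f (f v))) fun x y => by
    simp only [hf]; simp only [mul_assoc, mul_comm, mul_left_comm]
  let g2 : V →* V := MonoidHom.mk' (fun v => v * f (f v) * f (f (f v))) fun x y => by
    simp only [hf]; simp only [mul_assoc, mul_comm, mul_left_comm]
  have h7 : ∀ v, f (f (f (f (f (f (f v)))))) = v := by
    intro v
    simp only [f, ← MulAut.mul_apply, ← map_mul]
    rw [show a * (a * (a * (a * (a * (a * a))))) = a ^ 7 by simp only [pow_succ, pow_zero, one_mul, mul_assoc],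
      ha, map_one, MulAut.one_apply]
  have hnorm : ∀ v, v * f v * f (f v) * f (f (f v)) * f (f (f (f v))) * f (f (f (f (f v)))) *
      f (f (f (f (f (f v))))) = 1 := fun v => hfpf _ (by
        change f _ = _
        simp only [hf, h7]
        simp only [mul_assoc, mul_comm, mul_left_comm])
  have hsq : ∀ v : V, v * v = 1 := fun v => by rw [← sq, h2]
  have hcan : ∀ v w : V, v * (v * w) = w := fun v w => by rw [← mul_assoc, hsq, one_mul]
  have hcomp : ∀ v, g1 (g2 v) = 1 := by
    intro v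
    rw [← hnorm v]
    change (v * f (f v) * f (f (f v))) * f (v * f (f v) * f (f (f v))) * f (f (f (v * f (f v) * f (f (f v))))) = _
    simp only [hf]
    simp only [mul_assoc, mul_comm, mul_left_comm, hcan, hsq, mul_one]
  have hcomp' : ∀ v, g2 (g1 v) = 1 := by
    intro v
    rw [← hnorm v]
    change (v * f v * f (f (f v))) * f (f (v * f v * f (f (f v)))) * f (f (f (v * f v * f (f (f v))))) = _
    simp only [hf]
    simp only [mul_assoc, mul_comm, mul_left_comm, hcan, hsq, mul_one]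
  have hadj : ∀ x y, P.e (g1 x) (f (f (f y))) = P.e x (g2 y) := by
    intro x y
    change P.e (x * f x * f (f (f x))) (f (f (f y))) = P.e x (y * f (f y) * f (f (f y)))
    have hp : ∀ u w, P.e (f u) (f w) = P.e u w := fun u w => hφ a u w
    simp only [map_mul, MonoidHom.mul_apply]
    rw [hp x (f (f y)), hp (f (f x)) (f (f y)), hp (f x) (f y), hp x y]
    simp only [mul_assoc, mul_comm, mul_left_comm]
  have hboth : ∀ v, g1 v = 1 → g2 v = 1 → v = 1 := by
    intro v e1 e2
    change v * f v * f (f (f v)) = 1 at e1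
    change v * f (f v) * f (f (f v)) = 1 at e2
    have h1 : f v = f (f v) := mul_left_cancel (mul_right_cancel (e1.trans e2.symm))
    exact hfpf v ((φ a).injective h1).symm
  obtain ⟨v0, hv0⟩ : ∃ v : V, v ≠ 1 := by
    have : Nontrivial V := Finite.one_lt_card_iff_nontrivial.1 (by omega)
    exact exists_ne 1
  have hg1 : g1.ker ≠ ⊤ := fun htop => hv0 (by
    have hall : ∀ v, g1 v = 1 := fun v => MonoidHom.mem_ker.1 (htop ▸ Subgroup.mem_top v)
    refine hboth v0 (hall v0) (P.nondeg _ fun x => P.eq_one_comm.1 ?_)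
    rw [← hadj, hall, map_one, MonoidHom.one_apply])
  have hg2 : g2.ker ≠ ⊤ := fun htop => hv0 (by
    have hall : ∀ v, g2 v = 1 := fun v => MonoidHom.mem_ker.1 (htop ▸ Subgroup.mem_top v)
    refine hboth v0 (P.nondeg _ fun w => ?_) (hall v0)
    have hw : w = f (f (f (f (f (f (f w)))))) := (h7 w).symm
    rw [hw, hadj, hall, map_one])
  have hne1 : g1.ker ≠ ⊥ := fun h => hg2 ((Subgroup.eq_top_iff' _).2 fun v => by
    have : g2 v ∈ g1.ker := hcomp v
    rw [h, Subgroup.mem_bot] at this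
    exact this)
  have hne2 : g2.ker ≠ ⊥ := fun h => hg1 ((Subgroup.eq_top_iff' _).2 fun v => by
    have : g1 v ∈ g2.ker := hcomp' v
    rw [h, Subgroup.mem_bot] at this
    exact this)
  have hinv1 : ∀ v ∈ g1.ker, φ a v ∈ g1.ker := fun v hv => MonoidHom.mem_ker.2 (by
    have : g1 (f v) = f (g1 v) := by
      change f v * f (f v) * f (f (f (f v))) = f (v * f v * f (f (f v)))
      simp only [hf]
    rw [this, MonoidHom.mem_ker.1 hv]
    exact map_one (φ a))
  have hinv2 : ∀ v ∈ g2.ker, φ a v ∈ g2.ker := fun v hv => MonoidHom.mem_ker.2 (by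
    have : g2 (f v) = f (g2 v) := by
      change f v * f (f (f v)) * f (f (f (f v))) = f (v * f (f v) * f (f (f v)))
      simp only [hf]
    rw [this, MonoidHom.mem_ker.1 hv]
    exact map_one (φ a))
  have hsizes : ∀ W : Subgroup V, (∀ v ∈ W, φ a v ∈ W) → W = ⊥ ∨ 8 ≤ Nat.card W := by
    intro W hW
    have h := card_modEq_one φ ha hfpf hW
    obtain ⟨k, hk6, hk⟩ := (Nat.dvd_prime_pow Nat.prime_two).1
      (show Nat.card W ∣ 2 ^ 6 by
        rw [show (2 : ℕ) ^ 6 = Nat.card V by rw [hV]; norm_num]; exact Subgroup.card_subgroup_dvd_card W)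
    rw [hk] at h ⊢
    rcases Nat.lt_or_ge k 3 with hk3 | hk3
    · left
      have : k = 0 := by interval_cases k <;> revert h <;> decide
      subst this
      exact Subgroup.card_eq_one.1 (by simpa using hk)
    · right
      calc 8 = 2 ^ 3 := by norm_num
        _ ≤ 2 ^ k := Nat.pow_le_pow_right (by norm_num) hk3
  have hinjmul : Function.Injective fun x : g1.ker × g2.ker => (x.1 : V) * x.2 := by
    rintro ⟨x, y⟩ ⟨x', y'⟩ h
    simp only at h
    have e1 : (x' : V)⁻¹ * x = y' * (y : V)⁻¹ := by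
      rw [eq_mul_inv_iff_mul_eq, mul_assoc, h, inv_mul_cancel_left]
    have := hboth _ (MonoidHom.mem_ker.1 (g1.ker.mul_mem (g1.ker.inv_mem x'.2) x.2))
      (e1 ▸ MonoidHom.mem_ker.1 (g2.ker.mul_mem y'.2 (g2.ker.inv_mem y.2)))
    have hx : x = x' := Subtype.ext (inv_mul_eq_one.1 this).symm
    subst hx
    exact Prod.ext rfl (Subtype.ext (mul_left_cancel h))
  have hprod := Nat.card_le_card_of_injective _ hinjmul
  rw [Nat.card_prod, hV] at hprod
  have h1' := (hsizes _ hinv1).resolve_left hne1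
  have h2' := (hsizes _ hinv2).resolve_left hne2
  have hc1 : Nat.card g1.ker = 8 := by nlinarith
  have hc2 : Nat.card g2.ker = 8 := by nlinarith
  have hbij : Function.Bijective fun x : g1.ker × g2.ker => (x.1 : V) * x.2 :=
    (Nat.bijective_iff_injective_and_card _).2 ⟨hinjmul, by rw [Nat.card_prod, hc1, hc2, hV]⟩
  obtain ⟨⟨v1, hv1⟩, hv1'⟩ := (Subgroup.bot_or_exists_ne_one g1.ker).resolve_left hne1 |> fun ⟨x, hx, hx'⟩ =>
    (⟨⟨x, hx⟩, hx'⟩ : ∃ x : g1.ker, (x : V) ≠ 1)
  obtain ⟨⟨v2, hv2⟩, hv2'⟩ := (Subgroup.bot_or_exists_ne_one g2.ker).resolve_left hne2 |> fun ⟨x, hx, hx'⟩ =>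
    (⟨⟨x, hx⟩, hx'⟩ : ∃ x : g2.ker, (x : V) ≠ 1)
  set C := Subgroup.centralizer ({a} : Set X)
  have hC : ∀ (c : C) (v : V), φ (c : X) (f v) = f (φ (c : X) v) := fun c v => by
    change φ (c : X) (φ a v) = φ a (φ (c : X) v)
    rw [← MulAut.mul_apply, ← map_mul, Subgroup.mem_centralizer_singleton_iff.1 c.2, map_mul, MulAut.mul_apply]
  have hg1c : ∀ (c : C) v, v ∈ g1.ker → φ (c : X) v ∈ g1.ker := fun c v hv => MonoidHom.mem_ker.2 (by
    have : g1 (φ (c : X) v) = φ (c : X) (g1 v) := by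
      change _ * f _ * f (f (f _)) = φ (c : X) (v * f v * f (f (f v)))
      simp only [map_mul, hC]
    rw [this, MonoidHom.mem_ker.1 hv, map_one])
  have hg2c : ∀ (c : C) v, v ∈ g2.ker → φ (c : X) v ∈ g2.ker := fun c v hv => MonoidHom.mem_ker.2 (by
    have : g2 (φ (c : X) v) = φ (c : X) (g2 v) := by
      change _ * f (f _) * f (f (f _)) = φ (c : X) (v * f (f v) * f (f (f v)))
      simp only [map_mul, hC]
    rw [this, MonoidHom.mem_ker.1 hv, map_one])
  let F : C → {x : g1.ker // x ≠ 1} × {x : g2.ker // x ≠ 1} := fun c =>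
    (⟨⟨φ (c : X) v1, hg1c c v1 hv1⟩, fun h => hv1' ((φ (c : X)).injective
        ((congrArg Subtype.val h : φ (c : X) v1 = 1).trans (map_one _).symm))⟩,
     ⟨⟨φ (c : X) v2, hg2c c v2 hv2⟩, fun h => hv2' ((φ (c : X)).injective
        ((congrArg Subtype.val h : φ (c : X) v2 = 1).trans (map_one _).symm))⟩)
  have hFinj : Function.Injective F := by
    intro c c' h
    have e1 : φ (c : X) v1 = φ (c' : X) v1 := congrArg (fun x => ((x.1.1 : g1.ker) : V)) h
    have e2 : φ (c : X) v2 = φ (c' : X) v2 := congrArg (fun x => ((x.2.1 : g2.ker) : V)) h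
    let L := MonoidHom.eqLocus (φ (c : X)).toMonoidHom (φ (c' : X)).toMonoidHom
    have hLa : ∀ v ∈ L, φ a v ∈ L := fun v (hv : φ (c : X) v = φ (c' : X) v) =>
      (hC c v).trans ((congrArg f hv).trans (hC c' v).symm)
    have key : ∀ (W : Subgroup V), (∀ v ∈ W, φ a v ∈ W) → Nat.card W = 8 → ∀ w ∈ W, w ≠ 1 → w ∈ L → W ≤ L := by
      intro W hWa hWc w hw hw1 hwL
      rcases hsizes (W ⊓ L) (fun v hv => ⟨hWa v hv.1, hLa v hv.2⟩) with h | h
      · exact absurd (Subgroup.mem_bot.1 (h ▸ (⟨hw, hwL⟩ : w ∈ W ⊓ L))) hw1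
      · exact inf_eq_left.1 (Subgroup.eq_of_le_of_card_ge inf_le_left (by omega))
    have hL1 := key _ hinv1 hc1 v1 hv1 hv1' e1
    have hL2 := key _ hinv2 hc2 v2 hv2 hv2' e2
    refine Subtype.ext (hinj (MulEquiv.ext fun v => ?_))
    obtain ⟨⟨x, y⟩, rfl⟩ := hbij.2 v
    exact L.mul_mem (hL1 x.2) (hL2 y.2)
  refine (Nat.card_le_card_of_injective F hFinj).trans ?_
  have : ∀ (W : Subgroup V), Nat.card W = 8 → Nat.card {x : W // x ≠ 1} = 7 := fun W hW => by
    have := Fintype.ofFinite W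
    rw [Nat.card_eq_fintype_card, Fintype.card_subtype_compl, Fintype.card_subtype_eq,
      ← Nat.card_eq_fintype_card, hW]
  rw [Nat.card_prod, this _ hc1, this _ hc2]
  norm_num

/-- The possible primes and the resulting order bounds. -/
theorem card_le_two (hinj : Function.Injective φ) (hφ : P.Preserves φ) (h2 : ∀ v : V, v ^ 2 = 1)
    {m : ℕ} (hm : 2 ≤ m) (hm5 : m ≤ 5) (hV : Nat.card V = 2 ^ (2 * m)) {q : ℕ} (hq : q.Prime)
    {a : X} (ha : orderOf a = q) (hn : (Subgroup.zpowers a).Normal)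
    (hfpf : ∀ v, φ a v = v → v = 1) :
    (m = 2 → Nat.card X ≤ 43) ∧ (m ≠ 2 → Nat.card X ≤ 3 ^ (2 ^ m - 1)) := by
  have : Fact q.Prime := ⟨hq⟩
  have haq : a ^ q = 1 := ha ▸ pow_orderOf_eq_one a
  have hX := card_le_mul_centralizer hq ha hn
  have hdiv : q ∣ 2 ^ (2 * m) - 1 := by
    have h := card_modEq_one φ haq hfpf (W := ⊤) fun _ _ => Subgroup.mem_top _
    rw [Subgroup.card_top, hV] at h
    exact (Nat.modEq_iff_dvd' Nat.one_le_two_pow).1 h.symm
  have hqle : q ≤ 2 ^ (2 * m) - 1 := Nat.le_of_dvd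
    (Nat.sub_pos_of_lt (Nat.one_lt_two_pow (by omega))) hdiv
  have hq2 : q ≠ 2 := fun h => by
    subst h
    rw [← even_iff_two_dvd, Nat.even_sub Nat.one_le_two_pow] at hdiv
    have : Even (2 ^ (2 * m)) := (Nat.even_pow).2 ⟨even_two, by omega⟩
    exact absurd (hdiv.1 this) (by decide)
  have bound : ∀ (s d : ℕ), 2 * m < (d + 1) * s → (∀ j, 0 < j → j < s → ¬ q ∣ 2 ^ j - 1) →
      Nat.card X ≤ (q - 1) * (2 ^ (2 * m) - 1) ^ d := fun s d hd hs => by
    refine hX.trans (Nat.mul_le_mul_left _ ?_)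
    rw [← hV]
    exact cent_bound φ Nat.prime_two hq (Ne.symm hq2) haq hfpf hinj hV (by omega) hs hd
  have three : q = 3 → Nat.card X ≤ 2 * unitBound m := fun h => by
    subst h
    exact hX.trans (Nat.mul_le_mul_left _ (card_centralizer_q_three P hinj hφ h2 hV haq hfpf))
  have hlist : (m = 2 → q = 3 ∨ q = 5) ∧ (m = 3 → q = 3 ∨ q = 7) ∧ (m = 4 → q = 3 ∨ q = 5 ∨ q = 17) ∧
      (m = 5 → q = 3 ∨ q = 11 ∨ q = 31) := by
    have key : ∀ N : ℕ, N ≠ 0 → q ∣ N → q ∈ N.primeFactors := fun N h0 h =>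
      Nat.mem_primeFactors.2 ⟨hq, h, h0⟩
    have hdvd : ∀ {N : ℕ}, N = 2 ^ (2 * m) - 1 → q ∣ N := fun h => h ▸ hdiv
    refine ⟨fun h => ?_, fun h => ?_, fun h => ?_, fun h => ?_⟩
    · have h15 : q ∣ 3 * 5 := hdvd (by rw [h]; norm_num)
      rcases hq.dvd_mul.1 h15 with h | h
      · exact Or.inl ((Nat.prime_dvd_prime_iff_eq hq Nat.prime_three).1 h)
      · exact Or.inr ((Nat.prime_dvd_prime_iff_eq hq Nat.prime_five).1 h)
    · have h63 : q ∣ 3 * 3 * 7 := hdvd (by rw [h]; norm_num)
      simp only [hq.dvd_mul, or_assoc] at h63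
      rcases h63 with h | h | h
      · exact Or.inl ((Nat.prime_dvd_prime_iff_eq hq Nat.prime_three).1 h)
      · exact Or.inl ((Nat.prime_dvd_prime_iff_eq hq Nat.prime_three).1 h)
      · exact Or.inr ((Nat.prime_dvd_prime_iff_eq hq (by norm_num)).1 h)
    · have h255 : q ∣ 3 * 5 * 17 := hdvd (by rw [h]; norm_num)
      simp only [hq.dvd_mul, or_assoc] at h255
      rcases h255 with h | h | h
      · exact Or.inl ((Nat.prime_dvd_prime_iff_eq hq Nat.prime_three).1 h)
      · exact Or.inr (Or.inl ((Nat.prime_dvd_prime_iff_eq hq Nat.prime_five).1 h))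
      · exact Or.inr (Or.inr ((Nat.prime_dvd_prime_iff_eq hq (by norm_num)).1 h))
    · have h1023 : q ∣ 3 * 11 * 31 := hdvd (by rw [h]; norm_num)
      simp only [hq.dvd_mul, or_assoc] at h1023
      rcases h1023 with h | h | h
      · exact Or.inl ((Nat.prime_dvd_prime_iff_eq hq Nat.prime_three).1 h)
      · exact Or.inr (Or.inl ((Nat.prime_dvd_prime_iff_eq hq (by norm_num)).1 h))
      · exact Or.inr (Or.inr ((Nat.prime_dvd_prime_iff_eq hq (by norm_num)).1 h))
  refine ⟨fun h => ?_, fun h => ?_⟩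
  · subst h
    rcases hlist.1 rfl with rfl | rfl
    · exact (three rfl).trans (by decide)
    · exact hX.trans ((Nat.mul_le_mul_left _ (card_centralizer_five P hinj hφ h2 hV ha hfpf)).trans (by norm_num))
  · have hj : ∀ (s : ℕ), (∀ j ∈ Finset.range s, 0 < j → ¬ q ∣ 2 ^ j - 1) →
        ∀ j, 0 < j → j < s → ¬ q ∣ 2 ^ j - 1 := fun s hs j h0 hlt => hs j (Finset.mem_range.2 hlt) h0
    interval_cases m
    · exact absurd rfl h
    · rcases hlist.2.1 rfl with rfl | rfl
      · exact (three rfl).trans (by decide)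
      · exact hX.trans ((Nat.mul_le_mul_left _ (card_centralizer_seven P hinj hφ h2 hV haq hfpf)).trans (by norm_num))
    · rcases hlist.2.2.1 rfl with rfl | rfl | rfl
      · exact (three rfl).trans (by decide)
      · exact (bound 4 2 (by norm_num) (hj 4 (by decide))).trans (by norm_num)
      · exact (bound 8 1 (by norm_num) (hj 8 (by decide))).trans (by norm_num)
    · rcases hlist.2.2.2 rfl with rfl | rfl | rfl
      · exact (three rfl).trans (by decide)
      · exact (bound 10 1 (by norm_num) (hj 10 (by decide))).trans (by norm_num)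
      · exact (bound 5 2 (by norm_num) (hj 5 (by decide))).trans (by norm_num)

end Cfsg.Agent.H21.LinClasses
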