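import Cfsg.Agent.H21.LinClasses.SmallTwo
import Cfsg.Agent.H21.LinClasses.PermBound

/-!
Solvable groups of isometries of a finite symplectic module without invariant isotropic subgroups:
`k(H) ≤ 3 ^ (r - 1)` for every subgroup `H`, where `|V| = r ^ 2`.
-/

namespace Cfsg.Agent.H21.LinClasses

theorem symOrder_le_pow {p : ℕ} (hp : 0 < p) (m : ℕ) : symOrder p m ≤ p ^ (m * (2 * m + 1)) := by
  induction m with
  | zero => simp [symOrder]
  | succ m ih =>
      rw [symOrder, Finset.prod_range_succ, show (m + 1) * (2 * (m + 1) + 1) =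
        m * (2 * m + 1) + (2 * (m + 1) + (2 * m + 1)) by ring, pow_add p (m * (2 * m + 1))]
      exact Nat.mul_le_mul ih ((Nat.mul_le_mul_right _ (Nat.sub_le _ _)).trans_eq (pow_add _ _ _).symm)

theorem symOrder_le {p m : ℕ} (hp : p.Prime) (hm : 1 ≤ m) (h2 : p = 2 → 6 ≤ m) (h3 : p = 3 → 3 ≤ m)
    (h5 : p = 5 → 2 ≤ m) : symOrder p m ≤ 3 ^ (p ^ m - 1) := by
  refine (symOrder_le_pow hp.pos m).trans ?_
  have main : ∀ a b : ℕ, b ≠ 0 → p ^ b ≤ 3 ^ a → a * (m * (2 * m + 1)) ≤ b * (p ^ m - 1) →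
      p ^ (m * (2 * m + 1)) ≤ 3 ^ (p ^ m - 1) := by
    intro a b hb hpb h
    refine le_of_pow_le_pow_left₀ (n := b) hb (Nat.zero_le _) ?_
    rw [← pow_mul, ← pow_mul, mul_comm _ b, pow_mul, mul_comm _ b]
    refine (Nat.pow_le_pow_left hpb _).trans ?_
    rw [← pow_mul]
    exact Nat.pow_le_pow_right (by norm_num) h
  by_cases hp2 : p = 2
  · subst hp2
    refine main 2 3 (by norm_num) (by norm_num) ?_
    clear main
    induction m, h2 rfl using Nat.le_induction with
    | base => norm_num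
    | succ n hn ih =>
        have h1 : 4 * n + 3 ≤ 2 ^ n := by
          clear ih h2 h3 h5 hm
          induction n, hn using Nat.le_induction with
          | base => norm_num
          | succ k hk ih => rw [pow_succ]; omega
        have h2' := ih (by omega) (fun _ => hn) (fun h => absurd h (by norm_num)) (fun h => absurd h (by norm_num))
        rw [pow_succ, show (n + 1) * (2 * (n + 1) + 1) = n * (2 * n + 1) + (4 * n + 3) by ring]
        omega
  by_cases hp3 : p = 3
  · subst hp3
    refine main 1 1 one_ne_zero (by norm_num) ?_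
    clear main
    induction m, h3 rfl using Nat.le_induction with
    | base => norm_num
    | succ n hn ih =>
        have h1 : 4 * n + 3 ≤ 3 ^ n := by
          clear ih h2 h3 h5 hm
          induction n, hn using Nat.le_induction with
          | base => norm_num
          | succ k hk ih => rw [pow_succ]; omega
        have h2' := ih (by omega) (fun h => absurd h (by norm_num)) (fun _ => hn) (fun h => absurd h (by norm_num))
        rw [pow_succ, show (n + 1) * (2 * (n + 1) + 1) = n * (2 * n + 1) + (4 * n + 3) by ring]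
        omega
  by_cases hp5 : p = 5
  · subst hp5
    refine main 3 2 two_ne_zero (by norm_num) ?_
    clear main
    induction m, h5 rfl using Nat.le_induction with
    | base => norm_num
    | succ n hn ih =>
        have h1 : 4 * n + 3 ≤ 5 ^ n := by
          clear ih h2 h3 h5 hm
          induction n, hn using Nat.le_induction with
          | base => norm_num
          | succ k hk ih => rw [pow_succ]; omega
        have h2' := ih (by omega) (fun h => absurd h (by norm_num)) (fun h => absurd h (by norm_num)) (fun _ => hn)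
        rw [pow_succ, show (n + 1) * (2 * (n + 1) + 1) = n * (2 * n + 1) + (4 * n + 3) by ring]
        omega
  have hp7 : 7 ≤ p := by
    by_contra h
    rw [not_le] at h
    interval_cases p <;> first | omega | exact absurd hp (by norm_num)
  obtain ⟨c, rfl⟩ : ∃ c, p = c + 1 := ⟨p - 1, by omega⟩
  refine main c 3 (by norm_num) ?_ ?_
  · have hc : 6 ≤ c := by omega
    clear main hp hp7 h2 h3 h5 hp2 hp3 hp5
    induction c, hc using Nat.le_induction with
    | base => norm_num
    | succ k hk ih =>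
        rw [pow_succ 3]
        nlinarith [Nat.mul_le_mul hk hk]
  · clear main
    induction m, hm using Nat.le_induction with
    | base => simp; omega
    | succ n hn ih =>
        have h1 : 4 * n + 3 ≤ 3 * (c + 1) ^ n := by
          refine le_trans ?_ (Nat.mul_le_mul_left 3 (Nat.pow_le_pow_left (show 7 ≤ c + 1 by omega) n))
          clear ih h2 h3 h5
          induction n, hn using Nat.le_induction with
          | base => norm_num
          | succ k hk ih => rw [pow_succ]; omega
        have h2' := ih (fun h => absurd h hp2) (fun h => absurd h hp3) (fun h => absurd h hp5)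
        obtain ⟨u, hu⟩ : ∃ u, (c + 1) ^ n = u + 1 := ⟨(c + 1) ^ n - 1, by
          have := Nat.one_le_pow n (c + 1) (by omega); omega⟩
        rw [hu, Nat.add_sub_cancel] at h2'
        rw [hu] at h1
        have h4 : (c + 1) ^ (n + 1) - 1 = u + c * (u + 1) := by
          rw [pow_succ, hu]
          refine Nat.sub_eq_of_eq_add ?_
          ring
        rw [h4]
        nlinarith [Nat.mul_le_mul_left c h1]

section Norms

variable {V X : Type} [CommGroup V] [Group X] (φ : X →* MulAut V)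

theorem norm_fixed {c : X} {q : ℕ} (hc : c ^ q = 1) (v : V) :
    φ c (∏ i ∈ Finset.range q, φ (c ^ i) v) = ∏ i ∈ Finset.range q, φ (c ^ i) v := by
  rw [map_prod]
  have h1 : ∏ i ∈ Finset.range q, φ c (φ (c ^ i) v) = ∏ i ∈ Finset.range q, φ (c ^ (i + 1)) v :=
    Finset.prod_congr rfl fun i _ => by rw [pow_succ', map_mul, MulAut.mul_apply]
  rw [h1]
  rcases q with _ | n
  · simp
  rw [Finset.prod_range_succ, Finset.prod_range_succ' (fun i => φ (c ^ i) v), hc, pow_zero]

/-- An elementary abelian group acting semiregularly on an elementary abelian 2-group is cyclic. -/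
theorem semiregular_cyclic [Finite V] [Nontrivial V] [Finite X] {q : ℕ} (hq : q.Prime) (hq2 : q ≠ 2)
    (h2 : ∀ v : V, v ^ 2 = 1) {A : Subgroup X} (hAc : IsMulCommutative A) (hexp : ∀ x ∈ A, x ^ q = 1)
    (hfpf : ∀ a ∈ A, a ≠ 1 → ∀ v, φ a v = v → v = 1) {a : X} (ha : a ∈ A) (ha1 : a ≠ 1) :
    A = Subgroup.zpowers a := by
  have hqf : Fact q.Prime := ⟨hq⟩
  refine le_antisymm (fun b hb => ?_) (Subgroup.zpowers_le.2 ha)
  by_contra hbn
  obtain ⟨v, hv⟩ := exists_ne (1 : V)
  have hcomm : Commute a b := congrArg Subtype.val (mul_comm' (⟨a, ha⟩ : A) ⟨b, hb⟩)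
  have hzero : ∀ c ∈ A, c ≠ 1 → ∀ w, ∏ i ∈ Finset.range q, φ (c ^ i) w = 1 := fun c hc hc1 w =>
    hfpf c hc hc1 _ (norm_fixed φ (hexp c hc) w)
  have hall : ∀ i, a ^ i * b ∈ A ∧ a ^ i * b ≠ 1 := fun i =>
    ⟨mul_mem (pow_mem ha i) hb, fun h => hbn (by
      rw [← inv_eq_iff_mul_eq_one.2 h]
      exact inv_mem (pow_mem (Subgroup.mem_zpowers a) i))⟩
  have hprod : ∏ k ∈ Finset.range q, ∏ i ∈ Finset.range q, φ ((a ^ i * b) ^ k) v = 1 := by
    rw [Finset.prod_comm]
    exact Finset.prod_eq_one fun i _ => hzero _ (hall i).1 (hall i).2 v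
  rw [Finset.prod_eq_single 0 (fun k hk hk0 => ?_) (fun h => absurd (Finset.mem_range.2 hq.pos) h)] at hprod
  · simp only [pow_zero, map_one, MulAut.one_apply, Finset.prod_const, Finset.card_range] at hprod
    obtain ⟨t, ht⟩ := hq.odd_of_ne_two hq2
    rw [ht, pow_succ, pow_mul, h2, one_pow, one_mul] at hprod
    exact hv hprod
  · have hk' : a ^ k ≠ 1 := fun h => by
      have h1 : orderOf a = q := orderOf_eq_prime (hexp a ha) ha1
      exact absurd (Nat.le_of_dvd (Nat.pos_of_ne_zero hk0) (h1 ▸ orderOf_dvd_of_pow_eq_one h))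
        (by have := Finset.mem_range.1 hk; omega)
    rw [← hzero _ (pow_mem ha k) hk' (φ (b ^ k) v)]
    refine Finset.prod_congr rfl fun i _ => ?_
    rw [← MulAut.mul_apply, ← map_mul, (hcomm.pow_left i).mul_pow, ← pow_mul, ← pow_mul, mul_comm k i]

end Norms

section Blocks

variable {V X : Type} [CommGroup V] [Finite V] [Group X] [Finite X] {φ : X →* MulAut V} (P : Pairing V)

/-- Pairing with a fixed vector only sees the norm. -/
theorem pairing_norm (hφ : P.Preserves φ) (h2 : ∀ v : V, v ^ 2 = 1) (B : Subgroup X) [Fintype B]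
    (hodd : Odd (Fintype.card B)) {u : V} (hu : u ∈ fix φ (B : Set X)) (v : V) :
    P.e u v = P.e u (∏ b : B, φ (b : X) v) := by
  rw [map_prod]
  have h : ∀ b : B, P.e u (φ (b : X) v) = P.e u v := fun b => by
    conv_lhs => rw [← hu _ b.2]
    exact hφ _ u v
  rw [Finset.prod_congr rfl (fun b _ => h b), Finset.prod_const, Finset.card_univ]
  obtain ⟨t, ht⟩ := hodd
  rw [ht, pow_succ, pow_mul, value_pow_eq_one P h2, one_pow, one_mul]

theorem prod_mem_fix (B : Subgroup X) [Fintype B] (v : V) :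
    (∏ b : B, φ (b : X) v) ∈ fix φ (B : Set X) := by
  intro c hc
  rw [map_prod]
  refine Fintype.prod_equiv (Equiv.mulLeft (⟨c, hc⟩ : B)) _ _ fun b => ?_
  simp [map_mul]

end Blocks

/-- The bound for groups of isometries without invariant isotropic subgroups. -/
theorem kb_symplectic {V : Type} [CommGroup V] [Finite V] (P : Pairing V) {X : Type} [Group X]
    [Finite X] [Group.IsSolvable X] (φ : X →* MulAut V) (hinj : Function.Injective φ)
    (hφ : P.Preserves φ) (hni : P.NoIsotropic φ) :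
    ∃ r, Nat.card V = r ^ 2 ∧ KB X (3 ^ (r - 1)) := by
  classical
  induction hn : Nat.card V using Nat.strong_induction_on generalizing V X with
  | _ n ih =>
  subst hn
  rcases subsingleton_or_nontrivial V with hV | hV
  · have : Subsingleton X := ⟨fun x y => hinj (MulEquiv.ext fun v => Subsingleton.elim _ _)⟩
    exact ⟨1, by simp, KB.of_card_le (by simp)⟩
  by_cases hred : ∃ W : Subgroup V, (∀ x, ∀ v ∈ W, φ x v ∈ W) ∧ W ≠ ⊥ ∧ W ≠ ⊤
  · obtain ⟨W, hW, hW0, hW1⟩ := hred
    have hsplit := P.inf_perp_eq_bot hφ hni hW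
    have hW' := P.map_perp hφ hW
    have hcard := P.card_split hsplit
    have step : ∀ (U : Subgroup V) (hU : U ⊓ P.perp U = ⊥) (hUi : ∀ x, ∀ v ∈ U, φ x v ∈ U),
        Nat.card U < Nat.card V →
        ∃ r, Nat.card U = r ^ 2 ∧ KB (restrictHom φ U hUi).range (3 ^ (r - 1)) := by
      intro U hU hUi hlt
      have : Group.IsSolvable (restrictHom φ U hUi).range :=
        Group.isSolvable_of_surjective (restrictHom φ U hUi).rangeRestrict_surjective
      refine ih _ hlt (P.restrict U hU) (restrictHom φ U hUi).range.subtype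
        (Subgroup.subtype_injective _) ?_ ?_ rfl
      · rintro ⟨_, x, rfl⟩ v w
        exact hφ x v w
      · intro W' hW'i hiso
        have h0 : W'.map U.subtype = ⊥ := by
          refine hni _ (fun x v hv => ?_) ?_
          · obtain ⟨u, hu, rfl⟩ := hv
            exact ⟨restrictHom φ U hUi x u, hW'i ⟨_, x, rfl⟩ u hu, rfl⟩
          · rintro _ ⟨u, hu, rfl⟩ _ ⟨w, hw, rfl⟩
            exact hiso hu w hw
        exact (Subgroup.map_eq_bot_iff_of_injective _ U.subtype_injective).1 h0
    have hWlt : Nat.card W < Nat.card V :=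
      lt_of_le_of_ne (Subgroup.card_le_card_group W) fun h => hW1 (Subgroup.eq_top_of_card_eq W h)
    have hPlt : Nat.card (P.perp W) < Nat.card V := by
      rw [← hcard]
      exact lt_mul_left Nat.card_pos (Subgroup.one_lt_card_iff_ne_bot W |>.2 hW0)
    obtain ⟨r1, hr1, hk1⟩ := step W hsplit hW hWlt
    obtain ⟨r2, hr2, hk2⟩ := step (P.perp W) (P.perp_inf_perp_perp hsplit) hW' hPlt
    have hr10 : 0 < r1 := Nat.pos_of_ne_zero fun h => by
      rw [h] at hr1; exact Nat.card_pos.ne' hr1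
    have hr20 : 0 < r2 := Nat.pos_of_ne_zero fun h => by
      rw [h] at hr2; exact Nat.card_pos.ne' hr2
    refine ⟨r1 * r2, by rw [← hcard, hr1, hr2, mul_pow], ?_⟩
    refine (KB.of_injective ((restrictHom φ W hW).rangeRestrict.prod (restrictHom φ _ hW').rangeRestrict)
      ?_ (hk1.prod hk2)).mono ?_
    · intro x y h
      refine hinj (MulEquiv.ext fun v => ?_)
      obtain ⟨⟨w, u⟩, rfl⟩ := (P.split_bijective hsplit).2 v
      rw [map_mul, map_mul]
      have e1 := congrArg (fun g => (((g.1 : (restrictHom φ W hW).range) : MulAut W) w : V)) h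
      have e2 := congrArg (fun g => (((g.2 : (restrictHom φ _ hW').range) : MulAut (P.perp W)) u : V)) h
      exact congr_arg₂ _ e1 e2
    · rw [← pow_add]
      refine Nat.pow_le_pow_right (by norm_num) ?_
      obtain ⟨c1, rfl⟩ : ∃ c, r1 = c + 1 := ⟨r1 - 1, by omega⟩
      obtain ⟨c2, rfl⟩ : ∃ c, r2 = c + 1 := ⟨r2 - 1, by omega⟩
      rw [show (c1 + 1) * (c2 + 1) = c1 * c2 + c1 + c2 + 1 by ring]
      omega
  -- irreducible
  have hirr : Irred φ := fun W hW => by
    by_contra h
    rw [not_or] at h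
    exact hred ⟨W, hW, h.1, h.2⟩
  obtain ⟨p, hp, hpV⟩ := Nat.exists_prime_and_dvd (Finite.one_lt_card (α := V)).ne'
  have : Fact p.Prime := ⟨hp⟩
  have hexp : ∀ v : V, v ^ p = 1 := by
    intro v
    let W := (powMonoidHom p : V →* V).ker
    rcases hirr W (fun x w hw => by
      rw [MonoidHom.mem_ker, powMonoidHom_apply] at hw ⊢
      rw [← map_pow, hw, map_one]) with h | h
    · exfalso
      obtain ⟨z, hz⟩ := exists_prime_orderOf_dvd_card' (G := V) p hpV
      have : z ∈ W := by
        rw [MonoidHom.mem_ker, powMonoidHom_apply, ← hz, pow_orderOf_eq_one]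
      rw [h, Subgroup.mem_bot] at this
      rw [this, orderOf_one] at hz
      exact hp.ne_one hz.symm
    · exact (h ▸ Subgroup.mem_top v : v ∈ W)
  obtain ⟨m, hm⟩ := exists_card_eq hp P hexp
  have hm1 : 1 ≤ m := Nat.one_le_iff_ne_zero.2 fun h => by
    rw [h, mul_zero, pow_zero] at hm
    exact Finite.one_lt_card.ne' hm
  have hXle : Nat.card X ≤ symOrder p m := by
    refine Nat.le_of_dvd (Finset.prod_pos fun i _ => Nat.mul_pos (Nat.sub_pos_of_lt
      (Nat.one_lt_pow (by omega) hp.one_lt)) (pow_pos hp.pos _)) ?_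
    exact card_dvd_symOrder P hp hexp hm φ hφ hinj
  have hsq : Nat.card V = (p ^ m) ^ 2 := by rw [hm, ← pow_mul, mul_comm]
  by_cases hbig : (p = 2 → 6 ≤ m) ∧ (p = 3 → 3 ≤ m) ∧ (p = 5 → 2 ≤ m)
  · exact ⟨p ^ m, hsq, KB.of_card_le (hXle.trans (symOrder_le hp hm1 hbig.1 hbig.2.1 hbig.2.2))⟩
  rcases (show (p = 2 ∧ m < 6) ∨ (p = 3 ∧ m < 3) ∨ (p = 5 ∧ m < 2) by
    by_contra h
    exact hbig ⟨fun h2 => by omega, fun h3 => by omega, fun h5 => by omega⟩) with
    ⟨rfl, hmlt⟩ | ⟨rfl, hmlt⟩ | ⟨rfl, hmlt⟩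
  rotate_left
  · refine ⟨3 ^ m, hsq, ?_⟩
    interval_cases m
    · exact kb_three P hinj hφ hirr hexp (by rw [hm]; norm_num)
    · have h := card_le_three_four P hinj hφ hirr hexp (by rw [hm]; norm_num)
      have hN : (3 : ℕ) ^ (3 ^ 2 - 1) = 6561 := by norm_num
      rw [hN]
      exact kb_small φ hinj hirr (by omega) (by omega) (by rw [hm]; norm_num)
  · have : m = 1 := by omega
    subst this
    refine ⟨5 ^ 1, hsq, ?_⟩
    have hN : (3 : ℕ) ^ (5 ^ 1 - 1) = 81 := by norm_num
    have hs : symOrder 5 1 = 120 := rfl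
    rw [hN]
    exact kb_small φ hinj hirr (by omega) (by omega) (by rw [hm]; norm_num)
  by_cases hm2 : m = 1
  · subst hm2
    refine ⟨2 ^ 1, hsq, ?_⟩
    have hN : (3 : ℕ) ^ (2 ^ 1 - 1) = 3 := by norm_num
    have hs : symOrder 2 1 = 6 := rfl
    rw [hN]
    exact kb_small φ hinj hirr (by omega) (by omega) (by rw [hm]; norm_num)
  rcases subsingleton_or_nontrivial X with hX | hX
  · exact ⟨2 ^ m, hsq, KB.of_card_le ((Finite.card_le_one_iff_subsingleton.2 hX).trans
      (Nat.one_le_pow _ _ (by norm_num)))⟩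
  obtain ⟨A, q, hA, hA0, hAc, hq, hqA, hqexp⟩ := H19.exists_normal_elementary (G := X)
  have : Fact q.Prime := ⟨hq⟩
  have hAinv : ∀ x, ∀ s ∈ (A : Set X), x⁻¹ * s * x ∈ (A : Set X) := fun x s hs => by
    simpa using hA.conj_mem s hs x⁻¹
  have hfixA : fix φ (A : Set X) = ⊥ := by
    refine (hirr _ (fix_invariant φ hAinv)).resolve_right fun h => hA0 ?_
    exact (Subgroup.eq_bot_iff_forall A).2 fun s hs => (fix_eq_top_iff φ hinj).1 h hs
  have hq2 : q ≠ 2 := by
    rintro rfl
    exact fix_ne_bot φ A hqA (hm ▸ dvd_pow_self 2 (by omega)) hfixA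
  by_cases hsemi : ∀ a ∈ A, a ≠ 1 → ∀ v, φ a v = v → v = 1
  · obtain ⟨a, ha, ha1⟩ := (Subgroup.bot_or_exists_ne_one A).resolve_left hA0
    have hAa := semiregular_cyclic φ hq hq2 hexp hAc hqexp hsemi ha ha1
    have hab := card_le_two P hinj hφ hexp (by omega) (by omega) hm hq
      (orderOf_eq_prime (hqexp a ha) ha1) (hAa ▸ hA) (hsemi a ha ha1)
    refine ⟨2 ^ m, hsq, ?_⟩
    by_cases h22 : m = 2
    · subst h22
      have hN : (3 : ℕ) ^ (2 ^ 2 - 1) = 27 := by norm_num
      have h43 := hab.1 rfl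
      rw [hN]
      exact kb_small φ hinj hirr (by omega) (by omega) (by rw [hm]; norm_num)
    · exact KB.of_card_le (hab.2 h22)
  -- blocks
  push Not at hsemi
  obtain ⟨c, hc, hc1, v0, hv0, hv01⟩ := hsemi
  let S : Set (Subgroup X) := {B | B ≤ A ∧ fix φ (B : Set X) ≠ ⊥}
  have hcS : Subgroup.zpowers c ∈ S := by
    refine ⟨Subgroup.zpowers_le.2 hc, fun h => hv01 ?_⟩
    have hmem : v0 ∈ fix φ (Subgroup.zpowers c : Set X) := by
      rintro s ⟨i, rfl⟩
      have : c ∈ (MulAction.stabilizer (MulAut V) v0).comap φ := hv0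
      exact (zpow_mem this i :)
    rwa [h, Subgroup.mem_bot] at hmem
  obtain ⟨B, hcB, hBmax⟩ := (Set.toFinite S).exists_le_maximal hcS
  obtain ⟨hBA, hB0⟩ := hBmax.1
  have := Fintype.ofFinite B
  have hoddsub : ∀ (C : Subgroup X) [Fintype C], C ≤ A → Odd (Fintype.card C) := by
    intro C _ hCA
    obtain ⟨k, hk⟩ := IsPGroup.iff_card.1 (hqA.to_le hCA)
    rw [← Nat.card_eq_fintype_card, hk]
    exact (hq.odd_of_ne_two hq2).pow
  set U := fix φ (B : Set X)
  let bl : X → Subgroup V := fun x => fix φ ((B.map (MulAut.conj x).toMonoidHom : Subgroup X) : Set X)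
  have hbl_map : ∀ x, bl x = U.map (φ x).toMonoidHom := by
    intro x
    ext v
    constructor
    · intro hv
      refine ⟨φ x⁻¹ v, fun b hb => ?_, by simp⟩
      have h := hv _ ⟨b, hb, rfl⟩
      simp only [MulEquiv.coe_toMonoidHom, MulAut.conj_apply, map_mul, map_inv, MulAut.mul_apply] at h
      rw [map_inv]
      calc φ b ((φ x)⁻¹ v) = (φ x)⁻¹ (φ x (φ b ((φ x)⁻¹ v))) := by rw [MulAut.inv_apply_self]
        _ = _ := by rw [h]
    · rintro ⟨u, hu, rfl⟩ _ ⟨b, hb, rfl⟩
      simp only [MulEquiv.coe_toMonoidHom, MulAut.conj_apply, map_mul, map_inv, MulAut.mul_apply,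
        MulAut.inv_apply_self, hu b hb]
  have hblA : ∀ x, B.map (MulAut.conj x).toMonoidHom ≤ A := fun x => by
    rintro _ ⟨b, hb, rfl⟩
    exact hA.conj_mem b (hBA hb) x
  have hblc : ∀ x, Nat.card (bl x) = Nat.card U := fun x => by
    rw [hbl_map]
    exact Nat.card_congr (Subgroup.equivMapOfInjective _ _ (φ x).injective).toEquiv.symm
  have hnd : U ⊓ P.perp U = ⊥ := by
    refine (Subgroup.eq_bot_iff_forall _).2 fun u hu => P.nondeg u fun v => ?_
    rw [pairing_norm P hφ hexp B (hoddsub B hBA) hu.1]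
    exact hu.2 _ (prod_mem_fix B v)
  have horth : ∀ x, bl x ≠ U → bl x ≤ P.perp U := by
    intro x hx v hv u hu
    rw [P.eq_one_comm, pairing_norm P hφ hexp B (hoddsub B hBA) hu]
    have hmem1 : (∏ b : B, φ (b : X) v) ∈ bl x := Subgroup.prod_mem _ fun b _ =>
      fix_of_commute φ (fun s hs => congrArg Subtype.val
        (mul_comm' (⟨(b : X), hBA b.2⟩ : A) ⟨s, hblA x hs⟩)) v hv
    by_cases h1 : (∏ b : B, φ (b : X) v) = 1
    · rw [h1, map_one]
    exfalso
    refine hx ?_
    set B' := B.map (MulAut.conj x).toMonoidHom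
    have hS : B ⊔ B' ∈ S := by
      refine ⟨sup_le hBA (hblA x), fun h => h1 ?_⟩
      have hboth : (∏ b : B, φ (b : X) v) ∈ fix φ ((B ⊔ B' : Subgroup X) : Set X) := by
        intro s hs
        have hle : B ⊔ B' ≤ (MulAction.stabilizer (MulAut V) (∏ b : B, φ (b : X) v)).comap φ :=
          sup_le (fun s hs => prod_mem_fix B v s hs) (fun s hs => hmem1 s hs)
        exact hle hs
      rwa [h, Subgroup.mem_bot] at hboth
    have hle : B' ≤ B := le_sup_right.trans (hBmax.2 hS le_sup_left)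
    have heq : B' = B := Subgroup.eq_of_le_of_card_ge hle
      (le_of_eq (Nat.card_congr (Subgroup.equivMapOfInjective _ _ (MulAut.conj x).injective).toEquiv))
    change fix φ (B' : Set X) = fix φ (B : Set X)
    rw [heq]
  let Ω := ↥(Set.range bl)
  have hact : ∀ x y, (bl y).map (φ x).toMonoidHom = bl (x * y) := fun x y => by
    rw [hbl_map, hbl_map, Subgroup.map_map]
    congr 1
    ext v
    simp [map_mul]
  let toPerm : X →* Equiv.Perm Ω :=
    { toFun := fun x =>
        { toFun := fun ω => ⟨ω.1.map (φ x).toMonoidHom, by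
            obtain ⟨y, hy⟩ := ω.2; exact ⟨x * y, by rw [← hy, hact]⟩⟩
          invFun := fun ω => ⟨ω.1.map (φ x⁻¹).toMonoidHom, by
            obtain ⟨y, hy⟩ := ω.2; exact ⟨x⁻¹ * y, by rw [← hy, hact]⟩⟩
          left_inv := fun ω => Subtype.ext (by
            obtain ⟨y, hy⟩ := ω.2; simp only [← hy, hact, inv_mul_cancel_left])
          right_inv := fun ω => Subtype.ext (by
            obtain ⟨y, hy⟩ := ω.2; simp only [← hy, hact, mul_inv_cancel_left]) }
      map_one' := Equiv.ext fun ω => Subtype.ext (by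
        obtain ⟨y, hy⟩ := ω.2; simp only [Equiv.coe_fn_mk, ← hy, hact, one_mul]; exact hy)
      map_mul' := fun x y => Equiv.ext fun ω => Subtype.ext (by
        obtain ⟨z, hz⟩ := ω.2
        simp only [Equiv.coe_fn_mk, Equiv.Perm.mul_apply, ← hz, hact, mul_assoc]) }
  have horth2 : ∀ ω ω' : Ω, ω ≠ ω' → ω.1 ≤ P.perp ω'.1 := by
    rintro ⟨_, x, rfl⟩ ⟨_, y, rfl⟩ hne v hv w hw
    have h1 : bl (y⁻¹ * x) ≠ U := fun h => hne (Subtype.ext (by
      have := congrArg (Subgroup.map (φ y).toMonoidHom) h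
      rwa [hact, mul_inv_cancel_left, ← hbl_map] at this))
    have hv' : φ y⁻¹ v ∈ bl (y⁻¹ * x) := hact y⁻¹ x ▸ ⟨v, hv, rfl⟩
    have hw' : φ y⁻¹ w ∈ U := by
      have hw0 : w ∈ U.map (φ y).toMonoidHom := by rw [← hbl_map]; exact hw
      obtain ⟨u, hu, rfl⟩ := hw0
      rw [map_inv, MulEquiv.coe_toMonoidHom, MulAut.inv_apply_self]
      exact hu
    rw [← hφ y⁻¹]
    exact horth _ h1 hv' _ hw'
  have hnd2 : ∀ ω : Ω, ω.1 ⊓ P.perp ω.1 = ⊥ := by
    rintro ⟨_, y, rfl⟩
    refine (Subgroup.eq_bot_iff_forall _).2 fun v hv => ?_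
    have hv0 : v ∈ U.map (φ y).toMonoidHom := by rw [← hbl_map]; exact hv.1
    obtain ⟨u, hu, rfl⟩ := hv0
    have : u ∈ U ⊓ P.perp U := ⟨hu, fun w hw => by
      have := hv.2 (φ y w) (by change φ y w ∈ bl y; rw [hbl_map]; exact ⟨w, hw, rfl⟩)
      rwa [MulEquiv.coe_toMonoidHom, hφ] at this⟩
    rw [hnd, Subgroup.mem_bot] at this
    rw [this, map_one]
  have := Fintype.ofFinite Ω
  have hsupinv : ∀ x, ∀ v ∈ (⨆ ω : Ω, ω.1), φ x v ∈ (⨆ ω : Ω, ω.1) := by
    intro x
    have h : (⨆ ω : Ω, ω.1).map (φ x).toMonoidHom ≤ ⨆ ω : Ω, ω.1 := by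
      rw [Subgroup.map_iSup]
      exact iSup_le fun ω => le_iSup (fun ω : Ω => ω.1) (toPerm x ω)
    exact fun v hv => h ⟨v, hv, rfl⟩
  have hU1 : bl 1 = U := by
    rw [hbl_map, map_one]
    exact Subgroup.map_id U
  have hsup : (⨆ ω : Ω, ω.1) = ⊤ := by
    refine (hirr _ hsupinv).resolve_left fun h => hB0 ?_
    rw [← le_bot_iff, ← h]
    exact hU1 ▸ le_iSup (fun ω : Ω => ω.1) ⟨bl 1, 1, rfl⟩
  have hcardsup : ∀ s : Finset Ω, Nat.card ↥(s.sup (fun ω => ω.1) : Subgroup V) = Nat.card U ^ s.card := by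
    intro s
    induction s using Finset.induction_on with
    | empty => simp
    | insert ω s hω ihs =>
        rw [Finset.sup_insert, Finset.card_insert_of_notMem hω, pow_succ', ← ihs]
        have hωc : Nat.card ω.1 = Nat.card U := by obtain ⟨y, hy⟩ := ω.2; rw [← hy, hblc]
        rw [← hωc, ← Nat.card_prod]
        set T := s.sup (fun ω => ω.1)
        have hperp : T ≤ P.perp ω.1 := Finset.sup_le fun ω' hω' =>
          horth2 ω' ω fun e => hω (e ▸ hω')
        refine (Nat.card_eq_of_bijective (fun z : ω.1 × T => (⟨(z.1 : V) * z.2,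
          mul_mem (Subgroup.mem_sup_left z.1.2) (Subgroup.mem_sup_right z.2.2)⟩ : (ω.1 ⊔ T : Subgroup V))) ⟨?_, ?_⟩).symm
        · rintro ⟨a, b⟩ ⟨a', b'⟩ h
          have h' := (P.split_bijective (hnd2 ω)).1
            (a₁ := (a, ⟨b, hperp b.2⟩)) (a₂ := (a', ⟨b', hperp b'.2⟩)) (congrArg Subtype.val h)
          simp only [Prod.mk.injEq, Subtype.mk.injEq] at h'
          exact Prod.ext h'.1 (Subtype.ext h'.2)
        · rintro ⟨z, hz⟩
          obtain ⟨a, ha, b, hb, rfl⟩ := Subgroup.mem_sup.1 hz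
          exact ⟨(⟨a, ha⟩, ⟨b, hb⟩), rfl⟩
  have htV : Nat.card V = Nat.card U ^ Fintype.card Ω := by
    rw [← Finset.card_univ, ← hcardsup, Finset.sup_univ_eq_iSup, hsup, Subgroup.card_top]
  have hUlt : Nat.card U < Nat.card V := by
    refine lt_of_le_of_ne (Subgroup.card_le_card_group U) fun h => ?_
    have hc' := (fix_eq_top_iff φ hinj).1 (Subgroup.eq_top_of_card_eq U h) (hcB (Subgroup.mem_zpowers c))
    exact hc1 hc'
  have hUne : 1 < Nat.card U := U.one_lt_card_iff_ne_bot.2 hB0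
  -- the stabilisers of the blocks
  let St : Ω → Subgroup X := fun ω =>
    { carrier := {x | toPerm x ω = ω}
      one_mem' := by simp
      mul_mem' := fun {a b} (ha : toPerm a ω = ω) (hb : toPerm b ω = ω) =>
        show toPerm (a * b) ω = ω by rw [map_mul, Equiv.Perm.mul_apply, hb, ha]
      inv_mem' := fun {a} (ha : toPerm a ω = ω) => show toPerm a⁻¹ ω = ω by
        rw [map_inv, Equiv.Perm.inv_eq_iff_eq, ha] }
  have hStinv : ∀ ω (x : St ω), ∀ v ∈ ω.1, (φ.comp (St ω).subtype) x v ∈ ω.1 := by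
    intro ω x v hv
    have h : ω.1.map (φ (x : X)).toMonoidHom = ω.1 := congrArg Subtype.val x.2
    exact h.le ⟨v, hv, rfl⟩
  let res : ∀ ω, St ω →* MulAut ω.1 := fun ω => restrictHom (φ.comp (St ω).subtype) ω.1 (hStinv ω)
  have hblock : ∀ ω, ∃ r, Nat.card U = r ^ 2 ∧ KB (res ω).range (3 ^ (r - 1)) := by
    intro ω
    have : Group.IsSolvable (res ω).range := Group.isSolvable_of_surjective (res ω).rangeRestrict_surjective
    have hωc : Nat.card ω.1 = Nat.card U := by obtain ⟨y, hy⟩ := ω.2; rw [← hy, hblc]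
    obtain ⟨r, hr, hk⟩ := ih (Nat.card ω.1) (hωc.trans_lt hUlt) (P.restrict ω.1 (hnd2 ω))
      (res ω).range.subtype (Subgroup.subtype_injective _)
      (by rintro ⟨_, x, rfl⟩ v w; exact hφ _ v w) (by
        intro W' hW'i hiso
        let T : Subgroup V := ⨆ x : X, (W'.map ω.1.subtype).map (φ x).toMonoidHom
        have hTle : ∀ x, (W'.map ω.1.subtype).map (φ x).toMonoidHom ≤ T := fun x =>
          le_iSup (fun x : X => (W'.map ω.1.subtype).map (φ x).toMonoidHom) x
        have hTi : ∀ x, ∀ v ∈ T, φ x v ∈ T := by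
          intro x
          have h : T.map (φ x).toMonoidHom ≤ T := by
            rw [Subgroup.map_iSup]
            refine iSup_le fun y => le_trans (le_of_eq ?_) (hTle (x * y))
            rw [Subgroup.map_map]
            congr 1
            ext v
            simp [map_mul]
          exact fun v hv => h ⟨v, hv, rfl⟩
        have hTiso : P.Isotropic T := by
          refine iSup_le fun x => ?_
          rintro _ ⟨_, ⟨u, hu, rfl⟩, rfl⟩
          rw [Pairing.mem_perp]
          intro w hw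
          refine (show T ≤ ((P.e (φ x (u : V)))).ker from iSup_le fun y => ?_) hw
          rintro _ ⟨_, ⟨u', hu', rfl⟩, rfl⟩
          rw [MonoidHom.mem_ker, MulEquiv.coe_toMonoidHom, ← hφ x⁻¹, ← MulAut.mul_apply, ← map_mul,
            inv_mul_cancel, map_one, MulAut.one_apply, ← MulAut.mul_apply, ← map_mul]
          by_cases hz : toPerm (x⁻¹ * y) ω = ω
          · exact hiso hu (res ω ⟨_, hz⟩ u') (hW'i ⟨_, ⟨_, hz⟩, rfl⟩ u' hu')
          · exact horth2 ω _ (Ne.symm hz) u.2 _ ⟨u', u'.2, rfl⟩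
        have h0 := hni T hTi hTiso
        refine (Subgroup.map_eq_bot_iff_of_injective _ ω.1.subtype_injective).1 (le_bot_iff.1 ?_)
        rw [← h0]
        refine le_trans (le_of_eq ?_) (hTle 1)
        rw [map_one]
        exact (Subgroup.map_id _).symm) rfl
    exact ⟨r, hωc ▸ hr, hk⟩
  obtain ⟨r0, hr0, -⟩ := hblock ⟨bl 1, 1, rfl⟩
  refine ⟨r0 ^ Fintype.card Ω, by rw [htV, hr0, ← pow_mul, ← pow_mul, mul_comm], ?_⟩
  have hker : KB toPerm.ker (∏ ω ∈ (Finset.univ : Finset Ω), 3 ^ (r0 - 1)) := by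
    refine KB.of_pi Finset.univ (fun ω => (res ω).comp (Subgroup.inclusion
      (fun x hx => by
        change toPerm x ω = ω
        rw [MonoidHom.mem_ker.1 hx, Equiv.Perm.one_apply]))) (fun ω _ => ?_) fun x hx => ?_
    · obtain ⟨r, hr, hk⟩ := hblock ω
      have hrr : r = r0 := Nat.pow_left_injective two_ne_zero (hr.symm.trans hr0)
      subst hrr
      refine KB.of_injective (Subgroup.inclusion ?_) (Subgroup.inclusion_injective _) hk
      rintro _ ⟨y, rfl⟩
      exact ⟨_, rfl⟩
    · refine Subtype.ext (hinj ?_)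
      rw [OneMemClass.coe_one, map_one]
      ext v
      have hle : (⨆ ω : Ω, ω.1) ≤ MonoidHom.eqLocus (φ (x : X)).toMonoidHom (MonoidHom.id V) :=
        iSup_le fun ω w hw => congrArg (fun g : MulAut ω.1 => (g ⟨w, hw⟩ : V)) (hx ω (Finset.mem_univ ω))
      exact hle (hsup ▸ Subgroup.mem_top v)
  have hΩne : Nonempty Ω := ⟨⟨bl 1, 1, rfl⟩⟩
  have : Group.IsSolvable toPerm.range := Group.isSolvable_of_surjective toPerm.rangeRestrict_surjective
  refine (KB.of_ker toPerm.rangeRestrict (by rw [MonoidHom.ker_rangeRestrict]; exact hker)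
    (KB.of_perm toPerm.range.subtype toPerm.range.subtype_injective)).mono ?_
  rw [Finset.prod_const, Finset.card_univ, ← pow_mul, ← pow_add, Nat.card_eq_fintype_card]
  refine Nat.pow_le_pow_right (by norm_num) ?_
  have hr2 : 2 ≤ r0 := by
    by_contra h
    rw [not_le] at h
    interval_cases r0 <;> simp [hr0] at hUne
  have key : ∀ t, 1 ≤ t → t * r0 ≤ r0 ^ t := by
    intro t ht
    induction t, ht using Nat.le_induction with
    | base => simp
    | succ t ht iht => rw [pow_succ]; nlinarith [Nat.mul_le_mul ht hr2, Nat.mul_le_mul_right r0 iht]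
  have hΩpos : 1 ≤ Fintype.card Ω := Fintype.card_pos
  have hk := key _ hΩpos
  have : (r0 - 1) * Fintype.card Ω + Fintype.card Ω = Fintype.card Ω * r0 := by
    rw [← Nat.succ_mul, show (r0 - 1).succ = r0 by omega, mul_comm]
  omega

end Cfsg.Agent.H21.LinClasses
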